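import Cfsg.Agent.Lib.M7.Tl

/-! M7/A1: the structure of `N₂ = N(Z₂)`.
`S ≤ N₂` (`[Z₂,S] ≤ Z₁`).  `o7`: a normal 7-subgroup lies in `S ≤ N₁ ⊔ N₂`, hence in its 7-core.  `Z₁` is not normal in `N₂` (else normal in
`N₁ ⊔ N₂`): take `g ∈ N₂` with `Z' = gZ₁g⁻¹ ≠ Z₁`, `a ∈ Z₁#`, `b ∈ Z'#`, `Z₂ = ⟨a,b⟩`.  `s ∈ S` not centralising `Z₂`: `a ↦ a, b ↦ b aᶜ`, `c ≠ 0`;
`gsg⁻¹`: `b ↦ b, a ↦ a b^c'`.  Call `M ∈ M₂(ZMod 7)` realised if some `g ∈ O7 N₂` has `a ↦ a^M₀₀ b^M₁₀, b ↦ a^M₀₁ b^M₁₁`; closed under products, all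
elementary matrices are realised, hence all of `SL₂(7)`: `tr`, `dg`.  `A₅` is a normal 7-subgroup of `N₂`, so `A₅ ≤ S`, `C_{Z₂}(A₅) ≠ 1` is `N₂`-invariant, so
`= Z₂` by `tr`; `C_S(Z₂) ≠ S`, so `A₅ = S ⊓ C(Z₂)` by order.  `|N₂| = 7⁵·2016` (`card_GL_field`).  `CK`: `dg 3 5` gives `N₁/C(Z₁)` order `≥ 6`,
`K ≤ C(Z₁)` has index 6.  `cN12`: `C_{N₂}(a)` has index 48 in `N₂` (`tr`) and index 6 in `N₁ ⊓ N₂` (`dg`).  `A₃ ⊴ S` of order `7³`: it contains `Z₁`, then `Z₂`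
(`tr`, `N3`); `A₃ ≤ Q` (else for `u ∈ A₃∖Q` the hom `q ↦ [q,u] Z₁` on `Q/Z₁` has kernel `Z₂/Z₁` (`fix`), image of order `7³` inside `(A₃ ⊓ Q)/Z₁`, order `≤ 7`);
`Z3`: `A₃/Z₂` has order 7; conversely `q ↦ [q,u]Z₁` embeds `{q | [q,S] ≤ Z₂}/Z₂` into `Z₂/Z₁`.  `CA`: `A₃ ≤ A₅` and `|A₃:Z₂| = 7`, so abelian;
`C(A₃) ≤ K`; `Q ⊓ C(A₃) = A₃` (`card_cen`); `S ⊓ C(A₃) ≤ Q` by `fix`; for `g ∈ C(A₃)`: its 7'-part `t` has `[Q,t] ≤ C_Q(A₃) = A₃` (three subgroups), so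
`[Q,t,t] = 1`, `t ∈ C(Q) = Z₁`, `t = 1`; so `C(A₃)` is a 7-group normalised by `S`, hence in `S`. -/

set_option autoImplicit false

namespace Cfsg.Lib.M7

open Subgroup Function Cfsg.Lib.BG
open scoped commutatorElement

theorem exists_E {G : Type*} [Group G] {a b : G} (ha : a ^ 7 = 1) (hb : b ^ 7 = 1) (c : Commute a b) :
    ∃ E : ZMod 7 × ZMod 7 → G, (∀ i j : ℕ, E (i, j) = a ^ i * b ^ j) ∧ (∀ u w, E (u + w) = E u * E w) ∧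
      (∀ (n : ℕ) u, E ((n : ZMod 7) • u) = E u ^ n) ∧
      ∀ k u w, k * a * k⁻¹ = E u → k * b * k⁻¹ = E w → ∀ v, k * E v * k⁻¹ = E (v.1 • u + v.2 • w) := by
  let E : ZMod 7 × ZMod 7 → G := fun v => a ^ v.1.val * b ^ v.2.val
  have e1 : ∀ i j : ℕ, E (i, j) = a ^ i * b ^ j := fun i j => by
    simp only [E, ZMod.val_natCast, ← pow_eq_pow_mod _ ha, ← pow_eq_pow_mod _ hb]
  have e2 : ∀ u w, E (u + w) = E u * E w := fun u w => by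
    simp only [E, Prod.fst_add, Prod.snd_add, ZMod.val_add, ← pow_eq_pow_mod _ ha, ← pow_eq_pow_mod _ hb, pow_add]
    exact (c.pow_pow _ _).mul_mul_mul_comm _ _
  have e3 : ∀ (n : ℕ) u, E ((n : ZMod 7) • u) = E u ^ n := fun n u => by
    induction n with
    | zero => simp [E]
    | succ n ih => rw [Nat.cast_succ, add_smul, one_smul, e2, ih, pow_succ]
  refine ⟨E, e1, e2, e3, fun k u w h1 h2 ⟨i, j⟩ => ?_⟩
  obtain ⟨i, rfl⟩ := ZMod.natCast_zmod_surjective i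
  obtain ⟨j, rfl⟩ := ZMod.natCast_zmod_surjective j
  rw [e1, e2, e3, e3, ← h1, ← h2, conj_pow, conj_pow, conj_mul]

variable {G : Type*} [Group G] [Finite G]

namespace L0
variable {S Z₁ Z₂ Q K : Subgroup G} {z : G} {φ : K →* A7} (h : L0 S Z₁ Z₂ Q K z φ)
include h

theorem sl2 {g : G} (hg : g ∈ 𝐍(Z₂)) (hn : g ∉ 𝐍(Z₁)) :
    (∀ v ∈ Z₂, v ≠ 1 → ∀ w ∈ Z₂, w ≠ 1 → ∃ g ∈ O7 𝐍(Z₂), g * v * g⁻¹ = w) ∧
    ∀ i j : ℕ, i * j % 7 = 1 → ∃ g ∈ O7 𝐍(Z₂), (∀ a ∈ Z₁, g * a * g⁻¹ = a ^ i) ∧ ∀ b ∈ Z₂, g * b * g⁻¹ * (b ^ j)⁻¹ ∈ Z₁ := by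
  obtain ⟨a, ha, a1⟩ := h.exists_gen
  have ea := h.eq_zpowers ha a1
  have n : ∀ g ∉ 𝐍(Z₁), g * a * g⁻¹ ∉ Z₁ := fun g hn m => hn (Transfer.mem_normalizer_of_conj_le (by
    rw [ea, Transfer.conj_zpowers, ← ea]; exact zpowers_le.2 m))
  have hb := conj_mem_of_norm hg (h.Z12 ha)
  have bQ := h.Z2Q hb
  have aQ := h.Z1Q ha
  have c : Commute a (g * a * g⁻¹) := h.KC (h.QK bQ) a ha
  obtain ⟨E, e1, e2, e3, e4⟩ := exists_E (h.exp a aQ) (h.exp _ bQ) c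
  have sj : ∀ y ∈ Z₂, ∃ v, E v = y := fun y hy => by
    rw [← sup_eq_of_card h.Z12 (by rw [h.cZ₁, h.cZ₂]) hb (n g hn), mem_sup_left_norm (zpowers_le.2 (h.KN (h.QK bQ))), ea] at hy
    obtain ⟨_, h1, _, h2, rfl⟩ := hy
    obtain ⟨i, rfl⟩ := mem_powers_iff_mem_zpowers.2 h1
    obtain ⟨j, rfl⟩ := mem_powers_iff_mem_zpowers.2 h2
    exact ⟨_, e1 i j⟩
  have QN : Q ≤ 𝐍(Z₂) := h.Q_le_norm h.Z12 h.Z2Q
  have U : ∀ c : ZMod 7, ∃ k ∈ O7 𝐍(Z₂), ∀ v, k * E v * k⁻¹ = E (v.1 + c * v.2, v.2) := fun c => by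
    obtain ⟨c, rfl⟩ := ZMod.natCast_zmod_surjective c
    obtain ⟨q, hq, e⟩ := h.conj_coset (r := a ^ c * (g * a * g⁻¹)) bQ (n g hn) (by rw [mul_inv_cancel_right]; exact pow_mem ha c)
    refine ⟨q, subset_closure ⟨QN hq, 1, by simpa using h.exp q hq⟩, fun v => (e4 q ((1 : ℕ), (0 : ℕ)) (c, (1 : ℕ))
      (by rw [e1, ← h.KC (h.QK hq) a ha]; simp) (by rw [e1, e, pow_one]) v).trans (congrArg E ?_)⟩
    ext <;> simp [mul_comm]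
  have L : ∀ c : ZMod 7, ∃ k ∈ O7 𝐍(Z₂), ∀ v, k * E v * k⁻¹ = E (v.1, v.2 + c * v.1) := fun c' => by
    obtain ⟨c', rfl⟩ := ZMod.natCast_zmod_surjective c'
    obtain ⟨q, hq, e⟩ := h.conj_coset (r := a ^ c' * (g⁻¹ * a * g⁻¹⁻¹)) (h.Z2Q (conj_mem_of_norm (inv_mem hg) (h.Z12 ha)))
      (n _ fun m => hn (inv_mem_iff.1 m)) (by rw [mul_inv_cancel_right]; exact pow_mem ha c')
    refine ⟨g * q * g⁻¹, subset_closure ⟨mul_mem (mul_mem hg (QN hq)) (inv_mem hg), 1, by simp [conj_pow, h.exp q hq]⟩,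
      fun v => (e4 _ ((1 : ℕ), c') ((0 : ℕ), (1 : ℕ)) ?_ ?_ v).trans (congrArg E ?_)⟩
    · rw [e1, pow_one, (c.pow_right _).eq, conj_pow]
      calc _ = g * (q * (g⁻¹ * a * g⁻¹⁻¹) * q⁻¹) * g⁻¹ := by group
        _ = _ := by rw [e]; group
    · calc _ = g * (q * a * q⁻¹) * g⁻¹ := by group
        _ = _ := by rw [e1, ← h.KC (h.QK hq) a ha]; simp
    · ext <;> simp [mul_comm, add_comm]
  have t1 : ∀ v : ZMod 7 × ZMod 7, v.2 ≠ 0 → ∃ k ∈ O7 𝐍(Z₂), k * E v * k⁻¹ = E (1, 1) := fun v hv => by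
    obtain ⟨k, hk, e⟩ := U ((1 - v.1) / v.2)
    obtain ⟨l, hl, f⟩ := L (1 - v.2)
    refine ⟨l * k, mul_mem hl hk, ?_⟩
    calc _ = l * (k * E v * k⁻¹) * l⁻¹ := by group
      _ = _ := by rw [e, f]; simp [hv]
  have t2 : ∀ v : ZMod 7 × ZMod 7, E v ≠ 1 → ∃ k ∈ O7 𝐍(Z₂), k * E v * k⁻¹ = E (1, 1) := fun v hv => by
    by_cases v2 : v.2 = 0
    · obtain ⟨l, hl, f⟩ := L 1
      obtain ⟨k, hk, e⟩ := t1 (v.1, v.2 + 1 * v.1) fun e => hv (by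
        rw [show v = (((0 : ℕ) : ZMod 7), ((0 : ℕ) : ZMod 7)) from Prod.ext (by simpa [v2] using e) (by simpa using v2), e1,
          pow_zero, pow_zero, mul_one])
      refine ⟨k * l, mul_mem hk hl, ?_⟩
      calc _ = k * (l * E v * l⁻¹) * k⁻¹ := by group
        _ = _ := by rw [f, e]
    · exact t1 v v2
  refine ⟨fun v hv v1 w hw w1 => ?_, fun i j ij => ?_⟩
  · obtain ⟨v, rfl⟩ := sj v hv
    obtain ⟨w, rfl⟩ := sj w hw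
    obtain ⟨k, hk, e⟩ := t2 v v1
    obtain ⟨l, hl, f⟩ := t2 w w1
    refine ⟨l⁻¹ * k, mul_mem (inv_mem hl) hk, ?_⟩
    calc _ = l⁻¹ * (k * E v * k⁻¹) * l := by group
      _ = _ := by rw [e, ← f]; group
  · have ij' : (i : ZMod 7) * j = 1 := by rw [← Nat.cast_mul, ← ZMod.natCast_mod, ij, Nat.cast_one]
    obtain ⟨k1, m1, f1⟩ := L 1
    obtain ⟨k2, m2, f2⟩ := U (i - 1)
    obtain ⟨k3, m3, f3⟩ := L (-j)
    have f : ∀ v, k3 * k2 * k1 * E v * (k3 * k2 * k1)⁻¹ = E (i * v.1 + (i - 1) * v.2, j * v.2) := fun v =>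
      calc _ = k3 * (k2 * (k1 * E v * k1⁻¹) * k2⁻¹) * k3⁻¹ := by group
        _ = _ := by
          rw [f1, f2, f3]
          exact congrArg E (Prod.ext (by ring) (by linear_combination (-v.1 - v.2) * ij'))
    have e0 : ∀ n : ℕ, E (n, 0) = a ^ n := fun n => by simpa using e1 n 0
    refine ⟨_, mul_mem (mul_mem m3 m2) m1, fun y hy => ?_, fun y hy => ?_⟩
    · obtain ⟨n, rfl⟩ := mem_powers_iff_mem_zpowers.2 (ea.le hy)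
      beta_reduce
      rw [← e0, f, ← e3]
      simp
    · obtain ⟨v, rfl⟩ := sj y hy
      obtain ⟨n, e⟩ := ZMod.natCast_zmod_surjective (n := 7) (i * v.1 + (i - 1) * v.2 - j * v.1)
      rw [f, ← e3, show ((i * v.1 + (i - 1) * v.2, j * v.2) : ZMod 7 × ZMod 7) = ((n : ZMod 7), 0) + (j : ZMod 7) • v from
        Prod.ext (by simp [e]) (by simp), e2, mul_inv_cancel_right, e0]
      exact pow_mem ha n

end L0

variable {S : Sylow 7 G} {Z₁ Z₂ Q K A₃ A₅ : Subgroup G} {z : G} {φ : K →* A7}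

theorem Hy.l1 (h : Hy S Z₁ Z₂ Q K A₃ A₅) (h0 : L0 S Z₁ Z₂ Q K z φ) : L1 S Z₁ Z₂ Q K A₃ z φ := by
  have sy := h0.syl
  have N3 := (normal_subgroupOf_iff_le_normalizer (h.h35.le.trans h.h5N)).1 h.n3
  have N5 := (normal_subgroupOf_iff_le_normalizer h.h5N).1 h.n5
  have O : ∀ N : Subgroup G, Nml N (𝐍(Z₁) ⊔ 𝐍(Z₂)) → IsPGroup 7 N → N = ⊥ := fun N n p =>
    eq_bot_mono (by rw [pcore_p_eq, h.o7, Subgroup.map_bot]) (pcore_max_p p n)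
  obtain ⟨g, hg, hn⟩ : ∃ g ∈ 𝐍(Z₂), g ∉ 𝐍(Z₁) := by
    by_contra! e
    exact ne_bot_of_prime (h.cZ₁ ▸ fact7.out) (O Z₁ ⟨(le_norm _).trans le_sup_left, sup_le le_rfl e⟩ (pgroup_of_le h0.pQ h0.Z1Q))
  obtain ⟨tr, dg⟩ := h0.sl2 hg hn
  obtain ⟨a, ha, a1⟩ := h0.exists_gen
  have up : ∀ B : Subgroup G, 𝐍(Z₂) ≤ 𝐍(B) → Z₁ ≤ B → Z₂ ≤ B := fun B n l w hw => by
    by_cases w1 : w = 1
    · exact w1 ▸ one_mem _
    obtain ⟨g, hg, rfl⟩ := tr a (h0.Z12 ha) a1 w hw w1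
    exact conj_mem_of_norm (n (O7_le _ hg)) (l ha)
  have ZS : Z₁ ≤ 𝐂((S : Subgroup G)) := h0.ZS.ge.trans inf_le_right
  have AS : A₅ ≤ S := sy.ge_of_norm_p le_top (.of_card h.c5) (h0.SN2.trans N5)
  have A5 : A₅ = (S : Subgroup G) ⊓ 𝐂(Z₂) := by
    have l : A₅ ≤ (S : Subgroup G) ⊓ 𝐂(Z₂) := le_inf AS (cent_symm (up _ (norm_cent N5) (ZS.trans (cent_anti AS))))
    refine l.eq_or_lt.resolve_right fun e => ?_
    obtain ⟨w, hw, n⟩ := h0.exists_two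
    exact n (h0.ZS.le ⟨h0.QS (h0.Z2Q hw), cent_symm ((eq_of_lt_of_card fact7.out e inf_le_left
      (by rw [h0.cS, h.c5]; norm_num)).ge.trans inf_le_right) hw⟩)
  have cN2 : Nat.card 𝐍(Z₂) = 7 ^ 6 * 288 := by
    obtain ⟨_, ⟨e⟩⟩ := h.gl
    rw [← card_mul_relIndex h.h5N, h.c5, relIndex, index, Nat.card_congr e.toEquiv, Matrix.card_GL_field]
    simp [Fin.prod_univ_two]
  have ea := h0.eq_zpowers ha a1
  have C1 : 𝐂[a] = 𝐂(Z₁) := cent1_eq_of_prime (h.cZ₁ ▸ fact7.out) ha a1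
  have o1 : ∀ N : Subgroup G, 𝐍(Z₁) ⊓ 𝐍(Z₂) ≤ N → N ≤ 𝐍(Z₁) → 6 * Nat.card ↥(N ⊓ 𝐂[a]) = Nat.card N := fun N n1 n2 => by
    rw [← orb_card N a, show {y | ∃ n ∈ N, n * a * n⁻¹ = y} = {y | y ∈ Z₁ ∧ y ∉ (⊥ : Subgroup G)} from Set.ext fun y =>
      ⟨fun ⟨n, hn, e⟩ => e ▸ ⟨conj_mem_of_norm (n2 hn) ha, by simpa using a1⟩, fun ⟨hy, y1⟩ => ?_⟩, ncard_diff bot_le, h.cZ₁, card_bot]
    obtain ⟨i, rfl⟩ := mem_powers_iff_mem_zpowers.2 (ea.le hy)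
    obtain ⟨j, -, e⟩ := Nat.exists_mul_mod_eq_one_of_coprime (n := i) (k := 7) ((fact7.out.coprime_iff_not_dvd.2 (by
      rintro ⟨m, rfl⟩
      exact y1 (by simp [pow_mul, h.exp a (h0.Z1Q ha)]))).symm) (by norm_num)
    obtain ⟨k, hk, e1, -⟩ := dg i j e
    exact ⟨k, n1 ⟨mem_normalizer_fintype fun y hy => e1 y hy ▸ pow_mem hy i, O7_le _ hk⟩, e1 a ha⟩
  have CK : 𝐂(Z₁) = K := (eq_of_card_le h0.KC (by
    have := o1 _ inf_le_left le_rfl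
    rw [C1, inf_eq_right.2 (cent_le_norm _), h0.cN] at this
    rw [h0.cK]; omega)).symm
  have cN12 : Nat.card ↥(𝐍(Z₁) ⊓ 𝐍(Z₂)) = 7 ^ 6 * 36 := by
    have e1 := o1 _ le_rfl inf_le_left
    have e2 := orb_card 𝐍(Z₂) a
    rw [show {y | ∃ n ∈ 𝐍(Z₂), n * a * n⁻¹ = y} = {y | y ∈ Z₂ ∧ y ∉ (⊥ : Subgroup G)} from Set.ext fun y =>
      ⟨fun ⟨n, hn, e⟩ => e ▸ ⟨conj_mem_of_norm hn (h0.Z12 ha), by simpa using a1⟩, fun ⟨hy, y1⟩ =>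
        let ⟨k, hk, e⟩ := tr a (h0.Z12 ha) a1 y hy y1; ⟨k, O7_le _ hk, e⟩⟩, ncard_diff bot_le, h.cZ₂, card_bot, cN2] at e2
    rw [inf_assoc, inf_eq_right.2 (inf_le_right.trans (C1.le.trans (cent_le_norm _)))] at e1
    omega
  have A3S := h.h35.le.trans AS
  have Z2A := up _ N3 (le_of_dvd h0.pS h0.iS h0.ZS h.cZ₁ (h0.SN2.trans N3) (by rw [h.c3]; norm_num))
  have c23 : Nat.card A₃ = Nat.card Z₂ * 7 := by rw [h.c3, h.cZ₂]; norm_num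
  have QN := h0.QS.trans h0.SN2
  have AQ : A₃ ≤ Q := fun u hu => by_contra fun n => by
    have e : Z₂ = A₃ ⊓ Q := (le_inf Z2A h0.Z2Q).eq_or_lt.resolve_right fun e =>
      n ((eq_of_lt_of_card fact7.out e inf_le_left c23).ge hu).2
    have := (card_le_of_le (show Q ≤ Q ⊓ cmS Z₂ u from fun q hq => ⟨hq, QN hq, e.ge ⟨cm_of_mem hu (N3 (QN hq)),
      cm_swap (cm_of_mem hq (h0.NQ (h0.SN1 (A3S hu))))⟩⟩)).trans (h0.bd (A3S hu) n)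
    rw [h.cQ] at this
    omega
  have Z3 : ∀ q ∈ A₃, ∀ s ∈ (S : Subgroup G), ⁅s, q⁆ ∈ Z₂ := fun q hq s hs =>
    let ⟨_, e⟩ := h0.pS ⟨s, hs⟩
    triv_fac Z2A (A3S.trans h0.SN2) c23 (h0.SN2 hs) (N3 (h0.SN2 hs)) (congrArg Subtype.val e) hq
  obtain ⟨x, hx, xn⟩ := exists_not_mem (A := Z₂) (B := A₃) (by rw [h.c3, h.cZ₂]; norm_num)
  have ab : A₃ ≤ 𝐂(A₃) := by
    have l : A₃ ≤ 𝐂(Z₂) := h.h35.le.trans (A5.le.trans inf_le_right)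
    have e := sup_eq_of_card Z2A c23 hx xn
    nth_rw 2 [← e]
    refine le_cent_sup l (cent_symm (zpowers_le.2 ?_))
    rw [← e, cent_sup, cent_zpowers]
    exact ⟨l hx, self_mem_cent1 x⟩
  have QA : Q ⊓ 𝐂(A₃) = A₃ := (eq_of_card_le (le_inf AQ ab) (by
    have := h0.card_cen (h0.Z12.trans Z2A) AQ
    rw [h.c3] at this ⊢
    omega)).symm
  have CA : 𝐂(A₃) ≤ S := sy.ge_of_norm_p le_top (PiGrp.p_iff.1 fun r hr d => by_contra fun r7 => by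
    obtain ⟨T, l, cT⟩ := exists_card_eq_prime hr d
    have l1 := l.trans (cent_anti (h0.Z12.trans Z2A))
    have := card_dvd (h0.ZQ ▸ stable_factor_cent (K := Q) (comm_le_iff.2 fun q hq t ht => QA.le
      ⟨cm_of_mem hq (h0.NQ (cent_le_norm _ (l1 ht))), fun c hc => by
        have e := l1 ht _ (h0.cm _ (inv_mem hq) c (AQ hc))
        have f := l ht c hc
        calc _ = q * (⁅q⁻¹, c⁆ * t * (t⁻¹ * c * t)) * q⁻¹ * t⁻¹ := by simp only [commutatorElement_def]; group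
          _ = q * t * q⁻¹ * (c * t⁻¹) := by
            rw [e, mul_assoc t⁻¹, f]; simp only [commutatorElement_def]; group
          _ = _ := by rw [show c * t⁻¹ = t⁻¹ * c from (Commute.inv_right f).eq, ← mul_assoc]⟩) l
      (by rw [cT, h.c3]; exact ((Nat.coprime_primes hr fact7.out).2 r7).pow_right 3))
    rw [cT, h.cZ₁] at this
    exact r7 ((Nat.prime_dvd_prime_iff_eq hr fact7.out).1 this)) (norm_cent (h0.SN2.trans N3))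
  refine ⟨h0, CK, h.c3, Z2A, AQ, le_antisymm (fun u hu => QA.le ⟨by_contra fun n => ?_, hu⟩) ab,
    fun q hq => ⟨fun m s hs => cm_swap (Z3 q m s hs), fun f => ?_⟩, A5 ▸ h.c5, h0.SN2, N3, A5 ▸ N5, cN2, cN12, tr, dg,
    fun N n p => O N ⟨(sy.ge_of_norm_p le_top p le_normalizer_of_normal).trans (h0.SN1.trans le_sup_left),
      le_normalizer_of_normal⟩ p⟩
  · exact xn (h0.fix u (CA hu) n x (AQ hx) (cm_one (hu x hx)))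
  · obtain ⟨u, hu, n⟩ := exists_not_mem (A := Q) (B := S) (by rw [h.cQ, h0.cS]; norm_num)
    exact (eq_of_card_le (show A₃ ≤ Q ⊓ cmS Z₂ u from fun c hc => ⟨AQ hc, QN (AQ hc), Z3 c hc u hu⟩)
      (h.c3 ▸ h0.bd hu n)).ge ⟨hq, QN hq, cm_swap (f u hu)⟩

end Cfsg.Lib.M7
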