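import Cfsg.Agent.Lib.M7.Lin

/-! M7/A2: elements `x ∈ A∖Z₂`.  `A₅ = S ⊓ C(Z₂)`, `A₅ ⊓ C(x) = A` (`C_S(x) ≤ Q` by `fix`, `C(x, Z₂) = C(A)`), `[x, A₅] ≤ Z₂` (`Z3`), so by orders `A₅` is
transitive on `xZ₂` (`coset`).  `lift`: a 7-element `g` of `N₂` has `gxg⁻¹ ∈ xZ₂` (`|A:Z₂| = 7`), so `ag ∈ C(x)` for some `a ∈ A₅`, and `ag` is a 7-element
(`A₅⟨g⟩` is a 7-group, `N5`); closure induction with `A₅ ⊴ N₂`; `A₅` centralises `Z₂`.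
`nb`: suppose `gxg⁻¹ ∈ Z₁`, so `C(x) = K' = g⁻¹Kg`, `Q' = g⁻¹Qg`.  `X = N₂ ⊓ C(x)`, `P = Q ⊓ C(x)` (order `7⁴`) `≤ X`.  `X ⊓ Q'` is a normal 7-subgroup of `X`; it
centralises `Z₂` (`C_{Z₂}(·) ≠ 1` is invariant under the transitive `O7 X`); `(X ⊓ Q')A₅` is a 7-subgroup of `C(Z₂) ⊓ N₂`, and `7⁶ ∤ |N₂ ⊓ C(Z₂)|` (else it contains `S`),
so `X ⊓ Q' ≤ A₅ ⊓ C(x) = A`.  `|Q'P| ≤ 7⁶` gives `|P ⊓ Q'| ≥ 7³`, so `P ⊓ Q' = A`, `S' = Q'P` has order `7⁶`; by `conj_le` adjust `g` with `gS'g⁻¹ = S`.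
Then `g(⟨x⟩Z₁)g⁻¹ = Z₂` (`Z2`: `[Z₁,Q'] ≤ ⟨x⟩`, `[Z₁,P] = 1`; orders), `gAg⁻¹ = A` (`Z3`: `[A,Q'] ≤ ⟨x⟩`, `[A,P] ≤ Z₁`).  Take `t` from `dgx 4 2`: it centralises `x`,
normalises `Z₁, Q, P, Q', S'`; apply `wt` to `gtg⁻¹` with `i = 4`, `j = 2` (`A = ⟨x⟩Z₂`): `8 % 7 ≠ 4`. -/

set_option autoImplicit false

namespace Cfsg.Lib.M7

open Subgroup Function Cfsg.Lib.BG
open scoped commutatorElement Cfsg.Lib.Transfer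

variable {G : Type*} [Group G] [Finite G] {S Z₁ Z₂ Q K A : Subgroup G} {z x : G} {φ : K →* A7}

namespace L1
variable (h : L1 S Z₁ Z₂ Q K A z φ) (h1 : x ∈ A) (h2 : x ∉ Z₂)
include h h1 h2

theorem coset {y : G} (hy : y * x⁻¹ ∈ Z₂) : ∃ a ∈ S ⊓ 𝐂(Z₂), a * x * a⁻¹ = y := by
  have e := orb_card (S ⊓ 𝐂(Z₂)) x
  rw [show S ⊓ 𝐂(Z₂) ⊓ 𝐂[x] = A from le_antisymm (fun g hg => h.mem_A h1 h2 hg.1.2 hg.2) fun c hc =>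
    ⟨⟨h.QS (h.AQ hc), (h.A4 hc).2⟩, cent_le_cent1 h1 (h.CA.ge hc)⟩, h.cA, h.c5] at e
  have c : {y | y * x⁻¹ ∈ Z₂}.ncard = 49 := by
    rw [← h.cZ₂]
    exact (congrArg _ Set.image_mul_right.symm).trans (Set.ncard_image_of_injective _ (mul_left_injective x))
  refine (Set.eq_of_subset_of_ncard_le (s := {y | ∃ n ∈ S ⊓ 𝐂(Z₂), n * x * n⁻¹ = y}) (t := {y | y * x⁻¹ ∈ Z₂}) ?_
    (by omega)).ge hy
  rintro _ ⟨n, hn, rfl⟩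
  exact cm_swap ((h.Z3 x (h.AQ h1)).1 h1 n hn.1)

theorem lift {g : G} (hg : g ∈ O7 𝐍(Z₂)) :
    ∃ w ∈ O7 (𝐍(Z₂) ⊓ 𝐂[x]), ∀ b ∈ Z₂, w * b * w⁻¹ = g * b * g⁻¹ := by
  induction hg using closure_induction with
  | mem g hg =>
    obtain ⟨hg, n, e⟩ := hg
    obtain ⟨a, ha, f⟩ := h.coset h1 h2 (triv_fac h.Z2A (h.AQ.trans (h.QS.trans h.SN)) h.c23 hg (h.N3 hg) e h1)
    obtain ⟨m, e'⟩ := pgroup_sup (pgroup_of_le h.pS inf_le_left) (IsPGroup.of_card_dvd_pow (n := n)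
      (by rw [Nat.card_zpowers]; exact orderOf_dvd_of_pow_eq_one e)) (zpowers_le.2 (h.N5 hg))
        ⟨a⁻¹ * g, mul_mem_sup (inv_mem ha) (mem_zpowers g)⟩
    refine ⟨a⁻¹ * g, subset_closure ⟨⟨𝐍(Z₂).mul_mem (𝐍(Z₂).inv_mem (h.SN ha.1)) hg, mem_cent1.2 ?_⟩, m, congrArg Subtype.val e'⟩,
      fun b hb => ?_⟩
    · calc _ = a⁻¹ * (g * x * g⁻¹) * g := by group
        _ = _ := by rw [← f]; group
    · calc _ = a⁻¹ * (g * b * g⁻¹ * a) := by group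
        _ = _ := by rw [ha.2 _ (conj_mem_of_norm hg hb), inv_mul_cancel_left]
  | one => exact ⟨1, one_mem _, fun _ _ => rfl⟩
  | mul g k _ hk ih ih' =>
    obtain ⟨w, hw, e⟩ := ih
    obtain ⟨v, hv, f⟩ := ih'
    refine ⟨w * v, mul_mem hw hv, fun b hb => ?_⟩
    calc _ = w * (v * b * v⁻¹) * w⁻¹ := by group
      _ = _ := by rw [f b hb, e _ (conj_mem_of_norm (O7_le _ hk) hb)]; group
  | inv g hg ih =>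
    obtain ⟨w, hw, e⟩ := ih
    refine ⟨w⁻¹, inv_mem hw, fun b hb => ?_⟩
    calc _ = w⁻¹ * (g * (g⁻¹ * b * g) * g⁻¹) * w := by group
      _ = _ := by rw [← e _ (conj_mem_of_norm' (O7_le _ hg) hb)]; group

theorem trx : ∀ v ∈ Z₂, v ≠ 1 → ∀ w ∈ Z₂, w ≠ 1 → ∃ g ∈ O7 (𝐍(Z₂) ⊓ 𝐂[x]), g * v * g⁻¹ = w :=
  fun v hv v1 w hw w1 =>
    let ⟨_, a, b⟩ := h.tr v hv v1 w hw w1
    let ⟨k, c, d⟩ := h.lift h1 h2 a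
    ⟨k, c, (d v hv).trans b⟩

theorem dgx : ∀ i j : ℕ, i * j % 7 = 1 → ∃ g ∈ O7 (𝐍(Z₂) ⊓ 𝐂[x]), (∀ a ∈ Z₁, g * a * g⁻¹ = a ^ i) ∧
    ∀ b ∈ Z₂, g * b * g⁻¹ * (b ^ j)⁻¹ ∈ Z₁ := fun i j e =>
  let ⟨_, a, b, c⟩ := h.dg i j e
  let ⟨k, d, f⟩ := h.lift h1 h2 a
  ⟨k, d, fun y hy => (f y (h.Z12 hy)).trans (b y hy), fun y hy => f y hy ▸ c y hy⟩

theorem nb_cen {g : G} (hg : g * x * g⁻¹ ∈ Z₁) : g ⋆ 𝐂[x] = K := by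
  rw [conj_cent1, h.cen1 hg fun e => h2 (by rw [conj_eq_one_iff.1 e]; exact one_mem _)]

theorem nb_aux {g : G} (hg : g * x * g⁻¹ ∈ Z₁) : g ⋆ A ≤ Q ∧ Nat.card ↥(Q ⊔ g ⋆ (Q ⊓ 𝐂[x])) = 7 ^ 6 := by
  have e := h.nb_cen h1 h2 hg
  have e' : 𝐂[x] = g⁻¹ ⋆ K := Transfer.conj_eq_iff_eq_inv_conj.1 e
  have pY : IsPGroup 7 ↥(𝐍(Z₂) ⊓ g⁻¹ ⋆ Q) := pgroup_of_le (Transfer.isPGroup_conj h.pQ _) inf_le_right
  have nY : 𝐍(Z₂) ⊓ 𝐂[x] ≤ 𝐍(𝐍(Z₂) ⊓ g⁻¹ ⋆ Q) := norm_inf (le_norm_of_le inf_le_left)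
    (inf_le_right.trans (e'.le.trans (map_norm _ (h.KN.trans h.NQ))))
  obtain ⟨v, hv, v1⟩ := exists_ne_one (nil_meet_center (pgroup_nil (pgroup_sup (pgroup_of_le h.pQ h.Z2Q) pY inf_le_left))
    le_sup_left (sup_le_norm_left inf_le_left) (ne_bot_of_dvd fact7.out (by rw [h.cZ₂]; norm_num)))
  have c : 𝐍(Z₂) ⊓ g⁻¹ ⋆ Q ≤ 𝐂(Z₂) := cent_symm fun w hw => by
    by_cases w1 : w = 1
    · exact w1 ▸ one_mem _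
    obtain ⟨k, hk, rfl⟩ := h.trx h1 h2 v hv.1 v1 w hw w1
    exact conj_mem_of_norm (norm_cent nY (O7_le _ hk)) (cent_anti le_sup_right hv.2)
  have l : Q ⊓ g ⋆ (Q ⊓ 𝐂[x]) ≤ g ⋆ A := fun y hy =>
    have m := Transfer.mem_conj.1 hy.2
    Transfer.mem_conj.2 (h.mem_A h1 h2 (c ⟨h.SN (h.QS m.1), Transfer.mem_conj.2 (by simpa [mul_assoc] using hy.1)⟩) m.2)
  have n : g ⋆ (Q ⊓ 𝐂[x]) ≤ 𝐍(Q) := ((Transfer.conj_mono g inf_le_right).trans e.le).trans (h.KN.trans h.NQ)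
  have c1 := Coprime.card_sup_mul_card_inf n
  have c2 := h.syl.card_le (pgroup_sup h.pQ (Transfer.isPGroup_conj (pgroup_of_le h.pQ inf_le_left) g) n) le_top
  have c3 := card_le_of_le l
  rw [Transfer.card_conj, h.cA] at c3
  rw [Transfer.card_conj, h.cQ, h.card_cen1 (h.AQ h1) fun m => h2 (h.Z12 m)] at c1
  rw [h.cS] at c2
  exact ⟨(eq_of_card_le l (by rw [Transfer.card_conj, h.cA]; nlinarith)).ge.trans inf_le_left, by nlinarith⟩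

theorem nb : ∀ a ∈ Z₁, ¬ IsConj x a := fun a ha c => by
  obtain ⟨g₀, rfl⟩ := isConj_iff.1 c
  obtain ⟨k, hk, e⟩ := h.conj_le ((Transfer.conj_mono g₀ (inf_le_right : Q ⊓ 𝐂[x] ≤ _)).trans (h.nb_cen h1 h2 ha).le)
    (Transfer.isPGroup_conj (pgroup_of_le h.pQ inf_le_left) g₀)
  have hg : k * g₀ * x * (k * g₀)⁻¹ ∈ Z₁ := by convert conj_mem_of_norm (h.KN hk) ha using 1; group
  have eS : (k * g₀) ⋆ (Q ⊓ 𝐂[x]) ≤ S := by rw [← Transfer.conj_conj]; exact Transfer.conj_le_iff.2 e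
  generalize k * g₀ = g at hg eS
  obtain ⟨aQ, cS⟩ := h.nb_aux h1 h2 hg
  replace eS : Q ⊔ g ⋆ (Q ⊓ 𝐂[x]) = S := eq_of_card_le (sup_le h.QS eS) (by rw [cS, h.cS])
  have k : ∀ {Z : Subgroup G}, S ≤ 𝐍(Z) → Z₁ ≤ Z → ∀ c ∈ A, (∀ p ∈ Q, g * ⁅c, p⁆ * g⁻¹ ∈ Z) → ∀ s ∈ S, ⁅g * c * g⁻¹, s⁆ ∈ Z :=
    fun n l c hc f s hs => (sup_le (c := cmS _ (g * c * g⁻¹)) (fun q hq => ⟨n (h.QS hq), l (h.cm _ (aQ (mem_map_of_mem _ hc)) q hq)⟩)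
      (by
        rintro _ ⟨p, hp, rfl⟩
        exact ⟨n (eS.le (mem_sup_right (mem_map_of_mem _ hp))), conjugate_commutatorElement c p g ▸ f p hp.1⟩) (eS.ge hs)).2
  have z : ∀ b ∈ Z₁, g * b * g⁻¹ ∈ Z₂ := fun b hb =>
    have m := h.Z2A (h.Z12 hb)
    (h.Z2 _ (h.QS (aQ (mem_map_of_mem _ m)))).2 (k h.SN1 le_rfl b m fun p hp => by
      rw [commutatorElement_eq_one_iff_mul_comm.2 (h.ZQ.ge hb p hp).symm, mul_one, mul_inv_cancel]; exact one_mem _)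
  have nA : g ∈ 𝐍(A) := mem_normalizer_fintype fun c hc =>
    (h.Z3 _ (aQ (mem_map_of_mem _ hc))).2 (k h.SN h.Z12 c hc fun p hp => z _ (h.cm c (h.AQ hc) p hp))
  have c12 : Nat.card Z₂ = Nat.card Z₁ * 7 := by rw [h.cZ₁, h.cZ₂]
  obtain ⟨b, hb, b1⟩ := h.exists_gen
  obtain ⟨w, hw, wn⟩ := h.exists_two
  have bn : g * b * g⁻¹ ∉ Z₁ := fun m => by
    rw [h.eq_zpowers m (by simpa using b1), ← Transfer.conj_zpowers, Transfer.conj_mem_conj] at hg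
    exact h2 (h.Z12 (zpowers_le.2 hb hg))
  have wn' : g * w * g⁻¹ ∉ Z₂ := fun m => by
    have : g ∈ 𝐍(Z₂) := Transfer.mem_normalizer_of_conj_le (by
      nth_rw 1 [← sup_eq_of_card h.Z12 c12 hw wn]
      rw [Transfer.conj_sup, Transfer.conj_zpowers]
      exact sup_le (Transfer.conj_le_iff.2 z) (zpowers_le.2 m))
    exact h2 ((mem_normalizer_iff.1 this x).2 (h.Z12 hg))
  obtain ⟨t, ht, t1, t2⟩ := h.dgx h1 h2 4 2 rfl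
  replace ht := O7_le _ ht
  have tK : g * t * g⁻¹ ∈ K := (h.nb_cen h1 h2 hg).le (mem_map_of_mem _ ht.2)
  have tS : g * t * g⁻¹ ∈ 𝐍(S) := by
    rw [← eS, ← zpowers_le]
    refine norm_sup (zpowers_le.2 (h.NQ (h.KN tK))) ?_
    rw [← Transfer.conj_zpowers]
    exact map_norm _ (norm_inf (zpowers_le.2 (h.NQ (mem_normalizer_fintype fun y hy => t1 y hy ▸ pow_mem hy 4)))
      (norm_cent1 (zpowers_le.2 ht.2)))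
  obtain ⟨n1, n2⟩ := h.NS_le tS
  refine absurd (h.wt tS tK (i := 4) (j := 2) (ev_all h.Z12 (h.Z2Q.trans (h.QS.trans h.SN1)) c12 n1 n2 (z b hb) bn ?_)
    (ev_all h.Z2A (h.AQ.trans (h.QS.trans h.SN)) h.c23 n2 (h.N3 n2) (conj_mem_of_norm nA (h.Z2A hw)) wn' ?_)) (by norm_num)
  · rw [conj_pow, ← t1 b hb]
    convert one_mem Z₁ using 1
    group
  · convert z _ (t2 w hw) using 1
    rw [conj_pow]; group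

end L1

end Cfsg.Lib.M7
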