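import Cfsg.Agent.Lib.M7.A2
import Cfsg.Agent.Lib.Transfer.Criteria

/-! M7/A3: the orbits of `N₁ = N(Z₁)` on `Q∖Z₁` (16800 elements).
`cSp`: `N₁ ⊓ N₂` is transitive on the 42 elements of `Z₂∖Z₁` (`scal`: a scalar normalises every subgroup between `Z₁` and `Q`; `conj_coset`), `C_{N₁}(v) ≤ N(Z₁⟨v⟩) = N₂`,
so `|C_{N₁}(v)| = 7⁵·6` and the orbit has 5040 elements.
`dich`: `q` not special, `L = Z₁⟨q⟩`, `St = K ⊓ N(L) ≥ Q⟨z⟩`, `|St| = 2·7⁵·|φ St|`.  `|φ St|` divides 2520 and is prime to 2, 5, 7: for `k ∈ St` with `φ k` of order `r`: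
`k` acts on `L/Z₁` as some `q ↦ q^i`.  `r = 2`: `k² ∉ Q` (`uq`), `k²z ∈ Q`, so `i² ≡ -1 (7)`, impossible.  `r = 5`: a power `t` of `k` has order 5, `t ∉ Q`, `i⁵ = 1 = i⁶` so `i = 1`;
`t` acts on `V = Q/Z₁` with `1 < C_V(t) < V` (`ff`), and `|V| ≡ |C_V(t)| mod 5` (`IsPGroup.card_modEq_card_fixedPoints`), but `7⁴ ≡ 1`, `7, 7², 7³ ≢ 1 mod 5`.
`r = 7`: a 7-element `t ∉ Q` of `St`, conjugated into `S` (`conj_le`), centralises `L/Z₁`, so `q` is conjugate into `Z₂` (`fix`), special.  So `|φ St| ≤ 9`, `|K : St| ≥ 280`;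
the sets `kLk⁻¹∖Z₁` (42 non-special elements each; each is one `N₁`-orbit piece by `scal`, `conj_coset`) are disjoint, and there are only `16800 - 5040 = 280·42` non-special
elements.  `x` is not special (`nb`, `tr`).  `cx`: orbit-stabiliser, orbit of size 11760.
`two`: else `C_{N₁}(x) ≤ N₁ ⊓ N(A) ≤ N₂` (`A ⊓ Sp = Z₂∖Z₁` by `nb`); the orbit of `x` under `N₁ ⊓ N₂` has 294 elements (`coset`, `scal`), so `|C_{N₁⊓N₂}(x)| = 7⁴·6`. -/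

set_option autoImplicit false

namespace Cfsg.Lib.M7

open Subgroup Function Cfsg.Lib.BG
open scoped commutatorElement

variable {G : Type*} [Group G] [Finite G] {S Z₁ Z₂ Q K A : Subgroup G} {z x : G} {φ : K →* A7}

theorem Sp.isConj (h : L1 S Z₁ Z₂ Q K A z φ) {q : G} (hq : q ∈ Sp Z₁ Z₂) {a : G} (h1 : a ∈ Z₁) (h2 : a ≠ 1) :
    IsConj a q := by
  obtain ⟨g, -, v, hv, hn, rfl⟩ := hq
  obtain ⟨k, -, e⟩ := h.tr a (h.Z12 h1) h2 v hv fun e => hn (e ▸ one_mem _)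
  exact (isConj_iff.2 ⟨k, e⟩).trans (isConj_iff.2 ⟨g, rfl⟩)

omit [Finite G] in
theorem Sp.conj {q g : G} (hg : g ∈ 𝐍(Z₁)) (hq : q ∈ Sp Z₁ Z₂) : g * q * g⁻¹ ∈ Sp Z₁ Z₂ := by
  obtain ⟨k, hk, v, hv, n, rfl⟩ := hq
  exact ⟨g * k, mul_mem hg hk, v, hv, n, by group⟩

omit [Finite G] in
theorem Sp.not_mem {q : G} (hq : q ∈ Sp Z₁ Z₂) : q ∉ Z₁ := by
  obtain ⟨k, hk, v, -, n, rfl⟩ := hq
  exact fun m => n ((mem_normalizer_iff.1 hk v).2 m)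

namespace L1
variable (h : L1 S Z₁ Z₂ Q K A z φ)
include h

theorem scal' {i : ℕ} (hi : ¬ 7 ∣ i) : ∃ g ∈ 𝐍(Z₁), (∀ B : Subgroup G, Z₁ ≤ B → B ≤ Q → g ∈ 𝐍(B)) ∧
    ∀ q ∈ Q, g * q * g⁻¹ * (q ^ i)⁻¹ ∈ Z₁ :=
  let ⟨g, hg, e⟩ := h.scal hi
  ⟨g, hg, fun _ l l' => mem_normalizer_fintype fun b hb => by simpa using mul_mem (l (e b (l' hb))) (pow_mem hb i), e⟩

theorem line {q r : G} (hq : q ∈ Q) (n : q ∉ Z₁) (hr : r ∈ Z₁ ⊔ zpowers q) (rn : r ∉ Z₁) :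
    ∃ g ∈ 𝐍(Z₁), (∀ B : Subgroup G, Z₁ ≤ B → B ≤ Q → g ∈ 𝐍(B)) ∧ g * q * g⁻¹ = r := by
  obtain ⟨a, ha, _, m, rfl⟩ := (mem_sup_left_norm (zpowers_le.2 (h.SN1 (h.QS hq)))).1 hr
  obtain ⟨i, rfl⟩ := mem_powers_iff_mem_zpowers.2 m
  obtain ⟨g, hg, l, e⟩ := h.scal' (i := i) (by rintro ⟨i, rfl⟩; exact rn (by simpa [pow_mul, h.exp q hq] using ha))
  obtain ⟨k, hk, f⟩ := h.conj_coset (r := a * q ^ i) (conj_mem_of_norm (h.NQ hg) hq) (fun m => n ((mem_normalizer_iff.1 hg q).2 m))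
    (by convert mul_mem ha (inv_mem (e q hq)) using 1; group)
  exact ⟨k * g, mul_mem (h.SN1 (h.QS hk)) hg, fun B l1 l2 => mul_mem (h.Q_le_norm l1 l2 hk) (l B l1 l2), by rw [← f]; group⟩

theorem orb_line {q : G} (hq : q ∈ Q) (n : q ∉ Z₁) :
    42 * Nat.card ↥(𝐍(Z₁) ⊓ 𝐂[q]) = Nat.card ↥(𝐍(Z₁) ⊓ 𝐍(Z₁ ⊔ zpowers q)) := by
  have e := orb_card (𝐍(Z₁) ⊓ 𝐍(Z₁ ⊔ zpowers q)) q
  rwa [show {y | ∃ n ∈ 𝐍(Z₁) ⊓ 𝐍(Z₁ ⊔ zpowers q), n * q * n⁻¹ = y} = {y | y ∈ Z₁ ⊔ zpowers q ∧ y ∉ Z₁} from Set.ext fun y =>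
    ⟨fun ⟨g, hg, e⟩ => e ▸ ⟨conj_mem_of_norm hg.2 (mem_sup_right (mem_zpowers q)), fun m => n ((mem_normalizer_iff.1 hg.1 q).2 m)⟩,
      fun ⟨hy, yn⟩ => let ⟨g, hg, l, e⟩ := h.line hq n hy yn
        ⟨g, ⟨hg, l _ le_sup_left (sup_le h.Z1Q (zpowers_le.2 hq))⟩, e⟩⟩, ncard_diff le_sup_left, h.card_sup hq n, h.cZ₁,
    inf_right_comm, inf_eq_left.2 (norm_sup inf_le_left (norm_of_cent (inf_le_right.trans (cent_zpowers q).ge)))] at e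

theorem cSp : (Sp Z₁ Z₂).ncard = 5040 := by
  obtain ⟨v, hv, n⟩ := h.exists_two
  have s := sup_eq_of_card h.Z12 (by rw [h.cZ₁, h.cZ₂]) hv n
  have e := h.orb_line (h.Z2Q hv) n
  have f := orb_card 𝐍(Z₁) v
  rw [s, h.cN12] at e
  rw [show {y | ∃ n ∈ 𝐍(Z₁), n * v * n⁻¹ = y} = Sp Z₁ Z₂ from Set.ext fun y => ⟨fun ⟨g, hg, e⟩ => ⟨g, hg, v, hv, n, e⟩,
    fun ⟨g, hg, w, hw, wn, e⟩ => let ⟨k, hk, _, f⟩ := h.line (h.Z2Q hv) n (s.ge hw) wn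
      ⟨g * k, mul_mem hg hk, by rw [← e, ← f]; group⟩⟩, h.cN, show Nat.card ↥(𝐍(Z₁) ⊓ 𝐂[v]) = 7 ^ 5 * 6 by omega] at f
  omega

theorem cen_le {q : G} (hq : q ∈ Q) (n : q ∉ Z₁) (s : q ∉ Sp Z₁ Z₂) : Nat.card ↥(𝐍(Z₁) ⊓ 𝐂[q]) ≤ 7 ^ 4 * 18 := by
  have d := card_dvd (inf_le_left : 𝐍(Z₁) ⊓ 𝐍(Z₁ ⊔ zpowers q) ≤ _)
  rw [← h.orb_line hq n, h.cN, show 7 ^ 5 * 30240 = 42 * (7 ^ 5 * 144 * 5) by norm_num, Nat.mul_dvd_mul_iff_left (by norm_num)] at d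
  have e := Core.card_inf_mul_relIndex K (𝐍(Z₁) ⊓ 𝐂[q])
  have b := relIndex_dvd_of_norm (inf_le_left : 𝐍(Z₁) ⊓ 𝐂[q] ≤ _) h.NK
  have i6 := card_mul_relIndex h.KN
  rw [h.cK, h.cN] at i6
  rw [show K.relIndex 𝐍(Z₁) = 6 by omega] at b
  rw [← inf_assoc, inf_eq_left.2 h.KN] at e
  have n2 : ¬ 2 ∣ Nat.card ↥(K ⊓ 𝐂[q]) := fun d => by
    obtain ⟨t, ht, o⟩ := Core.exists_mem_orderOf_eq_prime Nat.prime_two d
    obtain ⟨r, hr, rfl⟩ := h.conj_inv ht.1 o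
    refine n ((mem_normalizer_iff.1 (h.SN1 (h.QS hr)) q).2 (h.cen_z.le ⟨conj_mem_of_norm (le_norm _ hr) hq, mem_cent1.2 ?_⟩))
    rw [conj_mul, conj_mul, mem_cent1.1 ht.2]
  have n5 : ¬ 5 ∣ Nat.card ↥(K ⊓ 𝐂[q]) := fun d => by
    have : Fact (Nat.Prime 5) := ⟨Nat.prime_five⟩
    obtain ⟨T, l, c⟩ := exists_card_eq_prime Nat.prime_five d
    have m := Transfer.card_modEq_card_inf_centralizer (q := 5) (.of_card (c.trans (pow_one 5).symm))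
      (l.trans (inf_le_left.trans (h.KN.trans h.NQ)))
    have l1 := card_le_of_le (show Z₁ ⊔ zpowers q ≤ Q ⊓ 𝐂(T) from sup_le (le_inf h.Z1Q (cent_symm (l.trans (inf_le_left.trans h.KC))))
      (zpowers_le.2 ⟨hq, le_cent1_iff.1 (l.trans inf_le_right)⟩))
    obtain ⟨k, k5, e⟩ := (Nat.dvd_prime_pow fact7.out).1 (h.cQ ▸ card_dvd (inf_le_left : Q ⊓ 𝐂(T) ≤ Q))
    have k5' : k ≠ 5 := by
      rintro rfl
      have := card_dvd (h.ZQ ▸ cent_symm ((eq_of_card_le inf_le_left (h.cQ.trans e.symm).le).ge.trans inf_le_right))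
      rw [c, h.cZ₁] at this
      omega
    rw [h.card_sup hq n, e] at l1
    rw [h.cQ, e, Nat.ModEq] at m
    interval_cases k <;> omega
  have n7 : ¬ 7 ^ 5 ∣ Nat.card ↥(K ⊓ 𝐂[q]) := fun d => by
    obtain ⟨P, hP⟩ := Syl.exists (p := 7) (K ⊓ 𝐂[q])
    rw [← card_mul_relIndex hP.le] at d
    replace d := ((fact7.out.coprime_iff_not_dvd.2 hP.not_dvd').pow_left 5).dvd_of_dvd_mul_right d
    obtain ⟨t, ht, tn⟩ := exists_not_mem (A := Q ⊓ 𝐂[q]) (B := P) (by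
      have := Nat.le_of_dvd Nat.card_pos d
      rw [h.card_cen1 hq n]; omega)
    obtain ⟨k, hk, e⟩ := h.conj_le (hP.le.trans inf_le_left) hP.pgroup
    have kN := h.KN hk
    refine s ⟨k⁻¹, inv_mem kN, _, h.fix _ (e t ht) (fun m => tn ⟨(mem_normalizer_iff.1 (h.NQ kN) t).2 m, (hP.le ht).2⟩) _
      (conj_mem_of_norm (h.NQ kN) hq) (cm_conj kN (cm_one (mem_cent1.1 (hP.le ht).2).symm)),
      fun m => n ((mem_normalizer_iff.1 kN q).2 m), by group⟩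
  rw [← e] at d ⊢
  generalize Nat.card ↥(K ⊓ 𝐂[q]) = a, K.relIndex (𝐍(Z₁) ⊓ 𝐂[q]) = c at *
  have m4 : ¬ 4 ∣ a * c := fun d => by
    have := (((Nat.prime_two.coprime_iff_not_dvd.2 n2).pow_left 2).dvd_of_dvd_mul_left d).trans b
    omega
  have m7 : ¬ 7 ^ 5 ∣ a * c := fun d => n7 (((Nat.Coprime.coprime_dvd_right b (by norm_num)).dvd_of_dvd_mul_right d))
  replace d := (Nat.prime_five.coprime_iff_not_dvd.2 fun d => (Nat.prime_five.dvd_mul.1 d).elim n5 fun d => by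
    have := d.trans b; omega).symm.dvd_of_dvd_mul_right d
  obtain ⟨u, v, hu, hv, e⟩ := Nat.dvd_mul.1 d
  obtain ⟨k, k5, rfl⟩ := (Nat.dvd_prime_pow fact7.out).1 hu
  rw [← e] at m4 m7 ⊢
  exact Nat.mul_le_mul (Nat.pow_le_pow_right (by norm_num) (by_contra fun f => m7 (dvd_mul_of_dvd_left (pow_dvd_pow 7 (by omega)) v)))
    ((by decide +kernel : ∀ v ≤ 144, v ∣ 144 → ¬ 4 ∣ v → v ≤ 18) v (Nat.le_of_dvd (by norm_num) hv) hv fun f => m4 (f.mul_left _))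

theorem orb_eq {q : G} (hq : q ∈ Q) (n : q ∉ Z₁) (s : q ∉ Sp Z₁ Z₂) : Nat.card ↥(𝐍(Z₁) ⊓ 𝐂[q]) = 7 ^ 4 * 18 ∧
    ∀ y ∈ Q, y ∉ Z₁ → y ∉ Sp Z₁ Z₂ → ∃ g ∈ 𝐍(Z₁), g * q * g⁻¹ = y := by
  have e := orb_card 𝐍(Z₁) q
  have l := h.cen_le hq n s
  have c : ({y | y ∈ Q ∧ y ∉ Z₁} \ Sp Z₁ Z₂).ncard = 11760 := by
    rw [Set.ncard_sdiff (show Sp Z₁ Z₂ ⊆ {y | y ∈ Q ∧ y ∉ Z₁} from fun y hy => ⟨h.Sp_sub hy, Sp.not_mem hy⟩), ncard_diff h.Z1Q, h.cSp, h.cQ, h.cZ₁]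
    norm_num
  have sub : {y | ∃ n ∈ 𝐍(Z₁), n * q * n⁻¹ = y} ⊆ {y | y ∈ Q ∧ y ∉ Z₁} \ Sp Z₁ Z₂ := by
    rintro _ ⟨g, hg, rfl⟩
    exact ⟨⟨conj_mem_of_norm (h.NQ hg) hq, fun m => n ((mem_normalizer_iff.1 hg q).2 m)⟩,
      fun m => s (by simpa [mul_assoc] using Sp.conj (inv_mem hg) m)⟩
  rw [h.cN] at e
  have f := Set.eq_of_subset_of_ncard_le sub (by rw [c]; nlinarith)
  rw [f, c] at e
  exact ⟨by omega, fun y a b c => f.ge ⟨⟨a, b⟩, c⟩⟩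

theorem not_Sp (h1 : x ∈ A) (h2 : x ∉ Z₂) : x ∉ Sp Z₁ Z₂ := fun s =>
  let ⟨a, ha, a1⟩ := h.exists_gen
  h.nb h1 h2 a ha (Sp.isConj h s ha a1).symm

theorem l2 (h1 : x ∈ A) (h2 : x ∉ Z₂) : L2 S Z₁ Z₂ Q K A z φ x := by
  have xn : x ∉ Z₁ := fun m => h2 (h.Z12 m)
  obtain ⟨cx, di⟩ := h.orb_eq (h.AQ h1) xn (h.not_Sp h1 h2)
  refine ⟨h, h1, h2, h.trx h1 h2, h.dgx h1 h2, fun y a b => h.nb a b, h.cSp, di, cx, by_contra fun f => ?_⟩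
  push Not at f
  have l : 𝐍(Z₁) ⊓ 𝐂[x] ≤ 𝐍(Z₂) := fun d hd => mem_normalizer_fintype fun v hv => by_contra fun n =>
    h.not_Sp (conj_mem_of_norm (f d hd) (h.Z2A hv)) n ⟨d, hd.1, v, hv, fun m => n (h.Z12 (conj_mem_of_norm hd.1 m)), rfl⟩
  have e := orb_card (𝐍(Z₁) ⊓ 𝐍(Z₂)) x
  rw [inf_right_comm, inf_eq_left.2 l, cx, h.cN12] at e
  have := Set.ncard_le_ncard (show {y | y ∈ A ∧ y ∉ Z₂} ⊆ {y | ∃ n ∈ 𝐍(Z₁) ⊓ 𝐍(Z₂), n * x * n⁻¹ = y} from fun y hy => by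
    obtain ⟨b, hb, _, m, rfl⟩ := (mem_sup_left_norm (zpowers_le.2 (h.SN (h.QS (h.AQ h1))))).1
      ((sup_eq_of_card h.Z2A h.c23 h1 h2).ge hy.1)
    obtain ⟨i, rfl⟩ := mem_powers_iff_mem_zpowers.2 m
    obtain ⟨g, hg, l, e⟩ := h.scal' (i := i) (by rintro ⟨i, rfl⟩; exact hy.2 (by simpa [pow_mul, h.exp x (h.AQ h1)] using hb))
    have g2 := l _ h.Z12 h.Z2Q
    obtain ⟨k, hk, f⟩ := h.coset (y := b * x ^ i) (conj_mem_of_norm (h.N3 g2) h1) (fun m => h2 ((mem_normalizer_iff.1 g2 x).2 m))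
      (by convert mul_mem hb (inv_mem (h.Z12 (e x (h.AQ h1)))) using 1; group)
    exact ⟨k * g, mul_mem ⟨h.SN1 hk.1, h.SN hk.1⟩ ⟨hg, g2⟩, by beta_reduce; rw [← f]; group⟩)
  rw [ncard_diff h.Z2A, h.cA, h.cZ₂] at this
  omega

end L1

end Cfsg.Lib.M7
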