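import Cfsg.Agent.Lib.M7.Smp
import Cfsg.Agent.Lib.Extraspecial.Hall

/-! M7/B1: the 7-local data of `Y = C(x)/⟨x⟩`.  `P = Q ⊓ C(x)` (order `7⁴`), bars are images in `Y`; `Z̄ = Z̄₁`, `W̄ = Ā = Z̄₂`.
Key: if `c ∈ C(x)`, `b ∈ Z₂`, `cbc⁻¹ ∈ b⟨x⟩` then `cbc⁻¹ = b` (`b` is conjugate into `Z₁` by `tr`, `bxᵏ ∈ A∖Z₂` is not, by `nb`).  So `C(Z̄)` is the image of `K ⊓ C(x)`, which normalises `P`;
`C(W̄)` is the image of `C(x, Z₂) = C(A) = A`.  `N(P̄)` is the image of `N(P) ⊓ C(x) = N₁ ⊓ C(x)` (`[P,P] = Z₁`), order `7⁴·18` (`cx`); so `P̄` is Sylow in its normaliser, hence in `Y`.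
`Z(P̄)`: `Z̄ ≤ Z(P̄) ≤ C(W̄) = W̄`, and `≠ W̄` since `P ≰ C(Z₂)`.  Extraspecial: `BG.extraspecial_of_p3group` or `isExtraspecial_of_card_eq_cube`.  `tr`, `dg`: images of `O7 (N₂ ⊓ C(x))`
(`trx`, `dgx`; every element of `W̄` is the image of an element of `Z₂`).  `two`: `N(W̄)` is the image of `N(A) ⊓ C(x)`. -/

set_option autoImplicit false

namespace Cfsg.Lib.M7

open Subgroup Function Cfsg.Lib.BG
open scoped commutatorElement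

variable {G : Type*} [Group G] [Finite G] {S Z₁ Z₂ Q K A : Subgroup G} {z x : G} {φ : K →* A7}

instance nml_zpowers_cen (x : G) : ((zpowers x).subgroupOf 𝐂[x]).Normal :=
  ⟨fun a ha g => by
    obtain ⟨n, hn⟩ := mem_zpowers_iff.1 (mem_subgroupOf.1 ha)
    have : g * a * g⁻¹ = a := by
      rw [mul_inv_eq_iff_eq_mul]
      exact Subtype.ext (by
        have := Commute.zpow_right (show Commute (g : G) x from mem_centralizer_singleton_iff.1 g.2) n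
        rw [hn] at this; exact this)
    rwa [this]⟩

section
variable {Y : Type*} [Group Y] (π : 𝐂[x] →* Y)

/-- the image of `B ⊓ C(x)` -/
def bar (B : Subgroup G) : Subgroup Y := (B.subgroupOf 𝐂[x]).map π

variable {π} {B D : Subgroup G}

omit [Finite G] in
theorem bar_mono (h : B ≤ D) : bar π B ≤ bar π D := map_mono (comap_mono h)

omit [Finite G] in
theorem bar_norm {c : 𝐂[x]} (h : (c : G) ∈ 𝐍(B)) : π c ∈ 𝐍(bar π B) :=
  le_normalizer_map π (mem_map_of_mem π (mem_normalizer_iff.2 fun a => mem_normalizer_iff.1 h a))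

omit [Finite G] in
theorem bar_cent (h : B ⊓ 𝐂[x] ≤ 𝐂(D ⊓ 𝐂[x])) : bar π B ≤ 𝐂(bar π D) :=
  map_cent π fun a ha b hb => Subtype.ext (h ⟨ha, a.2⟩ b ⟨hb, b.2⟩)

omit [Finite G] in
theorem bar_O7 {N : Subgroup Y} (h : ∀ c : 𝐂[x], (c : G) ∈ B → π c ∈ N) {g : G} (hg : g ∈ O7 (B ⊓ 𝐂[x])) :
    π ⟨g, (O7_le _ hg).2⟩ ∈ O7 N := by
  have : O7 (B ⊓ 𝐂[x]) ≤ ((O7 N).comap π).map (𝐂[x]).subtype := (closure_le _).2 fun a ⟨ha, n, e⟩ =>
    ⟨⟨a, ha.2⟩, subset_closure ⟨h _ ha.1, n, by rw [← map_pow, ← map_one π]; exact congrArg π (Subtype.ext e)⟩, rfl⟩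
  obtain ⟨c, hc, rfl⟩ := this hg
  exact hc

variable (hk : ∀ c, π c = 1 ↔ (c : G) ∈ zpowers x)
include hk

omit [Finite G] in
theorem mem_bar (h : x ∈ B) {c : 𝐂[x]} : π c ∈ bar π B ↔ (c : G) ∈ B :=
  ⟨fun ⟨a, ha, e⟩ => by
    simpa using mul_mem (show (a : G) ∈ B from ha) (zpowers_le.2 h ((hk (a⁻¹ * c)).1 (by simp [e]))),
    fun h => ⟨c, h, rfl⟩⟩

theorem card_bar (h : x ∈ B) : Nat.card (bar π B) * orderOf x = Nat.card ↥(B ⊓ 𝐂[x]) := by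
  have e : B.subgroupOf 𝐂[x] ⊓ π.ker = (zpowers x).subgroupOf _ :=
    Subgroup.ext fun c => ⟨fun a => (hk c).1 a.2, fun a => ⟨zpowers_le.2 h a, (hk c).2 a⟩⟩
  rw [← Nat.card_congr (subgroupOfEquivOfLe (inf_le_right : B ⊓ 𝐂[x] ≤ _)).toEquiv, inf_subgroupOf_right,
    ← Core.card_map_mul_card_inf_ker π, e,
    Nat.card_congr (subgroupOfEquivOfLe (zpowers_le.2 (self_mem_cent1 x))).toEquiv, Nat.card_zpowers, bar]

omit [Finite G] in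
theorem bar_sup (h : B ≤ 𝐂[x]) : bar π (B ⊔ zpowers x) = bar π B := by
  rw [bar, subgroupOf_sup h (zpowers_le.2 (self_mem_cent1 x)), Subgroup.map_sup,
    (Subgroup.map_eq_bot_iff ((zpowers x).subgroupOf _)).2 fun c hc => (hk c).2 hc, sup_bot_eq, bar]

theorem norm_bar (h : x ∈ B) {c : 𝐂[x]} (hc : π c ∈ 𝐍(bar π B)) : (c : G) ∈ 𝐍(B ⊓ 𝐂[x]) :=
  Transfer.mem_normalizer_of_conj_le (Transfer.conj_le_iff.2 fun a ha => by
    have := conj_mem_of_norm hc ((mem_bar hk h (c := ⟨a, ha.2⟩)).2 ha.1)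
    rw [← map_inv, ← map_mul, ← map_mul, mem_bar hk h] at this
    exact ⟨this, (c * ⟨a, ha.2⟩ * c⁻¹).2⟩)

end

namespace L2
variable (h : L2 S Z₁ Z₂ Q K A z φ x)
include h

theorem xQ : x ∈ Q := h.AQ h.xA

theorem x1 : x ∉ Z₁ := fun e => h.xZ (h.Z12 e)

theorem ox : orderOf x = 7 := h.ord h.xQ fun e => h.xZ (e ▸ one_mem _)

theorem Ax : A ≤ 𝐂[x] := h.CA.ge.trans (cent_le_cent1 h.xA)

theorem A_eq : Z₂ ⊔ zpowers x = A :=
  eq_of_lt_of_card fact7.out (left_lt_sup.2 fun e => h.xZ (e (mem_zpowers x))) (sup_le h.Z2A (zpowers_le.2 h.xA))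
    (by rw [h.cA, h.cZ₂])

theorem key {c b : G} (hb : b ∈ Z₂) (hc : c * b * c⁻¹ * b⁻¹ ∈ zpowers x) : b * c = c * b := by
  by_cases b1 : b = 1
  · simp [b1]
  by_cases m : c * b * c⁻¹ ∈ Z₂
  · have := inf_eq_bot_of_prime (A := zpowers x) (by rw [Nat.card_zpowers, h.ox]; exact fact7.out)
      fun e => h.xZ (e (mem_zpowers x))
    exact (mul_inv_eq_iff_eq_mul.1 (mul_inv_eq_one.1 (mem_bot.1 (this.le ⟨hc, Z₂.mul_mem m (inv_mem hb)⟩)))).symm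
  · obtain ⟨a, ha, a1⟩ := h.exists_gen
    obtain ⟨g, -, e⟩ := h.tr b hb b1 a (h.Z12 ha) a1
    exact absurd ((isConj_iff.2 ⟨c, rfl⟩).symm.trans (isConj_iff.2 ⟨g, e⟩))
      (h.nb _ (by simpa using mul_mem (zpowers_le.2 h.xA hc) (h.Z2A hb)) m a ha)

theorem der_cen : ⁅Q ⊓ 𝐂[x], Q ⊓ 𝐂[x]⁆ = Z₁ :=
  (eq_bot_or_eq_of_prime (h.cZ₁ ▸ fact7.out) ((commutator_mono inf_le_left inf_le_left).trans
    (commutator_le.2 h.cm))).resolve_left fun e => by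
    have := card_le_of_le ((comm_eq_bot_iff.1 e).trans ((cent_anti (le_inf h.AQ h.Ax)).trans h.CA.le))
    rw [h.card_cen1 h.xQ h.x1, h.cA] at this
    omega

theorem b0' {Y : Type*} [Group Y] [Finite Y] {π : 𝐂[x] →* Y} (hs : Surjective π)
    (hk : ∀ c, π c = 1 ↔ (c : G) ∈ zpowers x) : B0 (bar π Q) (bar π Z₁) (bar π Z₂) := by
  have Z2x := h.Z2A.trans h.Ax
  have Z1x := h.Z12.trans Z2x
  have eW : bar π A = bar π Z₂ := by rw [← h.A_eq, bar_sup hk Z2x]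
  have cP : Nat.card (bar π Q) = 343 := by
    have := card_bar hk h.xQ
    rw [h.ox, h.card_cen1 h.xQ h.x1] at this
    omega
  have cZ : Nat.card (bar π Z₁) = 7 := by
    have := card_bar hk (mem_sup_right (mem_zpowers x) : x ∈ Z₁ ⊔ zpowers x)
    rw [h.ox, bar_sup hk Z1x, inf_eq_left.2 (sup_le Z1x (zpowers_le.2 (self_mem_cent1 x))), h.card_sup h.xQ h.x1] at this
    omega
  have cW : Nat.card (bar π Z₂) = 49 := by
    have := card_bar hk h.xA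
    rw [h.ox, eW, inf_eq_left.2 h.Ax, h.cA] at this
    omega
  have cen : ∀ {B : Subgroup G} {c}, B ≤ Z₂ → π c ∈ 𝐂(bar π B) → (c : G) ∈ 𝐂(B) := fun {B c} b hc a ha =>
    h.key (b ha) ((hk (c * ⟨a, Z2x (b ha)⟩ * c⁻¹ * ⟨a, Z2x (b ha)⟩⁻¹)).1 (by
      simp only [map_mul, map_inv, ← hc _ ⟨⟨a, Z2x (b ha)⟩, ha, rfl⟩]; group))
  have CW : 𝐂(bar π Z₂) = bar π Z₂ := le_antisymm (fun c hc => by
    obtain ⟨c, rfl⟩ := hs c
    refine eW ▸ ⟨c, h.CA.le ?_, rfl⟩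
    rw [← h.A_eq, cent_sup, cent_zpowers]
    exact ⟨cen le_rfl hc, c.2⟩) (bar_cent (cent_mono h.ab2 inf_le_left inf_le_left))
  have eN : 𝐍(bar π Q) = bar π 𝐍(Z₁) := le_antisymm (fun c hc => by
    obtain ⟨c, rfl⟩ := hs c
    exact ⟨c, h.der_cen ▸ norm_der le_rfl (norm_bar hk h.xQ hc), rfl⟩) (by
      rintro _ ⟨c, hc, rfl⟩; exact bar_norm (h.NQ hc))
  have cN : Nat.card 𝐍(bar π Q) = 343 * 18 := by
    have := card_bar hk (h.KN (h.QK h.xQ))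
    rw [h.ox, h.cx, ← eN] at this
    omega
  have ZP : bar π Z₁ ≤ bar π Q ⊓ 𝐂(bar π Q) :=
    le_inf (bar_mono h.Z1Q) (bar_cent (cent_mono h.ZQ.ge inf_le_left inf_le_left))
  have eZ : bar π Q ⊓ 𝐂(bar π Q) = bar π Z₁ := (ZP.eq_or_lt.resolve_right fun l => by
    have := eq_of_lt_of_card fact7.out l (inf_le_right.trans ((cent_anti (bar_mono h.Z2Q)).trans CW.le)) (by rw [cZ, cW])
    have := card_le_of_le ((cent_symm (this.ge.trans inf_le_right)).trans CW.le)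
    omega).symm
  have pP : IsPGroup 7 (bar π Q) := .of_card (n := 3) cP
  have ex : ∀ g ∈ bar π Q, g ^ 7 = 1 := by
    rintro _ ⟨c, hc, rfl⟩
    rw [← map_pow, show c ^ 7 = 1 from Subtype.ext (h.exp c hc), map_one]
  have cm : ∀ q ∈ bar π Q, ∀ r ∈ bar π Q, ⁅q, r⁆ ∈ bar π Z₁ := by
    rintro _ ⟨q, hq, rfl⟩ _ ⟨r, hr, rfl⟩
    exact ⟨⁅q, r⁆, h.cm q hq r hr, map_commutatorElement ..⟩
  have o7 : ∀ {g} (hg : g ∈ O7 (𝐍(Z₂) ⊓ 𝐂[x])), π ⟨g, (O7_le _ hg).2⟩ ∈ O7 𝐍(bar π Z₂) :=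
    fun hg => bar_O7 (fun c hc => bar_norm hc) hg
  refine ⟨cP, ?_, ES.isExtraspecial_of_card pP cZ eZ (commutator_le.2 cm) (fun g hg => ex g hg ▸ one_mem _) fun e => ?_,
    ex, eZ, cZ, cm, bar_mono h.Z12, bar_mono h.Z2Q, cW, CW, fun c hc => ?_, ?_, fun i j e => ?_, cN, ?_⟩
  · have := card_mul_relIndex (le_norm (bar π Q))
    rw [cP, cN] at this
    have s : Syl 7 (bar π Q) (⊤ ⊓ 𝐍(bar π Q)) := by
      rw [top_inf_eq]; exact Syl.mk' (le_norm _) pP (by omega)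
    exact relIndex_top_right (bar π Q) ▸ s.of_norm.not_dvd'
  · rw [e] at cP; omega
  · obtain ⟨c, rfl⟩ := hs c
    exact bar_norm (h.NQ (cent_le_norm _ (cen h.Z12 hc)))
  · rintro _ ⟨v, hv, rfl⟩ v1 _ ⟨w, hw, rfl⟩ w1
    obtain ⟨g, hg, e⟩ := h.trx v hv (fun e => v1 ((hk v).2 (e ▸ one_mem _))) w hw fun e => w1 ((hk w).2 (e ▸ one_mem _))
    exact ⟨_, o7 hg, by rw [← map_inv, ← map_mul, ← map_mul]; exact congrArg π (Subtype.ext e)⟩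
  · obtain ⟨g, hg, e1, e2⟩ := h.dgx i j e
    refine ⟨_, o7 hg, ?_, ?_⟩
    · rintro _ ⟨a, ha, rfl⟩
      rw [← map_inv, ← map_mul, ← map_mul, ← map_pow]; exact congrArg π (Subtype.ext (e1 a ha))
    · rintro _ ⟨a, ha, rfl⟩
      rw [← map_inv, ← map_mul, ← map_mul, ← map_pow, ← map_inv, ← map_mul]; exact ⟨_, e2 a ha, rfl⟩
  · obtain ⟨d, hd, hn⟩ := h.two
    refine ⟨π ⟨d, hd.2⟩, bar_norm (h.NQ hd.1), fun e => hn ?_⟩
    have := norm_bar hk h.xA (eW ▸ e)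
    rwa [inf_eq_left.2 h.Ax] at this

theorem b0 : ∃ P Z W : Subgroup (𝐂[x] ⧸ (zpowers x).subgroupOf 𝐂[x]), B0 P Z W :=
  ⟨_, _, _, h.b0' (QuotientGroup.mk'_surjective _) fun c => QuotientGroup.eq_one_iff c⟩

end L2

end Cfsg.Lib.M7
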