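import Cfsg.Agent.Lib.M7.Smp

/-! M7/B2: the group is simple.  `N(Z) ≤ N(P)` (`P` is the normal Sylow subgroup of `C(Z)`).  `O_{7'} = 1`: for `D` a normal 7'-subgroup, `D ⊓ C(Z) ≤ N(P)` has `[·,P] ≤ D ⊓ P = 1`,
so lies in `C(W) = W`; `tr` and `coprime_abelian_gen_cent1`.  A normal `N ≥ Z` contains `W` (`tr`) and `dWd⁻¹ ≠ W`, hence `P` (orders).  `O₇ = 1`: it would contain `Z`, so equal `P`, then `Z ⊴ G`, against `tr`.
`smp` gives `M`; it contains all 7-elements, so `O7 N(W) ≤ M`.  `n = |M ⊓ N(P)|/343` divides 18, and `|M|/343 ≡ n mod 7` (`card_sylow_modEq_one`).  `τ` from `dg 3 5` acts on `Z` with order 6,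
so `6 ∣ n`.  `n ≠ 6`: else `M ⊓ N(P) ⊓ C(Z) = P`; `t` from `dg 6 6` and `t' = dtd⁻¹` both invert `Z`, so `t' ∈ tP`, `t` inverts `W/Z` and `dWd⁻¹/Z`, so centralises `[w,w'] ≠ 1` (`w ∈ W∖Z`, `w' ∈ dWd⁻¹∖Z`,
commutators are bimultiplicative by `cm`), which it inverts.  So `n = 18 ≡ 4`, `M = ⊤` (Frattini). -/

set_option autoImplicit false

namespace Cfsg.Lib.M7

open Subgroup Function Cfsg.Lib.BG
open scoped commutatorElement Cfsg.Lib.Transfer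

variable {G : Type*} [Group G] [Finite G] {P Z W : Subgroup G}

theorem O7_le_of {N M : Subgroup G} [hM : M.Normal] (s : Syl 7 P ⊤) (h : P ≤ M) : O7 N ≤ M :=
  (closure_le _).2 fun g ⟨_, n, e⟩ => by
    obtain ⟨c, -, hc⟩ := s.exists_le_conj (Q := zpowers g) (.of_card_dvd_pow (n := n)
      (by rw [Nat.card_zpowers]; exact orderOf_dvd_of_pow_eq_one e)) le_top
    exact conj_le_of_norm h ((Nml.top_iff.2 hM).norm (mem_top c)) (hc (mem_zpowers g))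

namespace B0
variable (h : B0 P Z W)
include h

theorem pP : IsPGroup 7 P := .of_card (n := 3) h.cP

theorem syl : Syl 7 P ⊤ := Syl.mk' le_top h.pP (by rw [relIndex_top_right]; exact h.iP)

theorem PC : P ≤ 𝐂(Z) := cent_symm (h.eZ.ge.trans inf_le_right)

theorem NZ : 𝐍(Z) ≤ 𝐍(P) := (norm_cent le_rfl).trans ((h.syl.of_le h.PC le_top).norm_le h.CZ)

theorem NP : 𝐍(P) ≤ 𝐍(Z) := h.eZ ▸ norm_inf le_rfl (norm_cent le_rfl)

theorem gen : ∃ a ∈ Z, a ≠ 1 := exists_ne_one (ne_bot_of_prime (h.cZ ▸ fact7.out))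

theorem o7' (N : Subgroup G) (hN : N.Normal) (h7 : ¬ 7 ∣ Nat.card N) : N = ⊥ := by
  have n : ∀ B : Subgroup G, B ≤ 𝐍(N) := fun B => le_top.trans (Nml.top_iff.2 hN).norm
  have p : PiGrp {7}ᶜ N := PiGrp.p'_iff.2 h7
  have e : N ⊓ 𝐂(Z) = ⊥ := by
    have c : N ⊓ 𝐂(Z) ≤ W := h.CW ▸ (cent_symm ((PiGrp.p_iff.2 h.pP).cent (p.of_le inf_le_left)
      (norm_inf (n _) (le_norm_of_le h.PC)) (inf_le_right.trans h.CZ))).trans (cent_anti h.WP)
    exact (PiGrp.p_iff.2 (pgroup_of_le h.pP (c.trans h.WP))).eq_bot (p.of_le inf_le_left)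
  obtain ⟨a, ha, a1⟩ := h.gen
  refine le_bot_iff.1 (coprime_abelian_gen_cent1 (abelian_iff.2 h.CW.ge) (fun c => ?_) (n _)
    (p.coprime_pgroup (pgroup_of_le h.pP h.WP)).symm fun b hb b1 => ?_)
  · obtain ⟨a, ha, e⟩ := cyclic_iff.1 c
    have := Nat.le_of_dvd (by norm_num) (orderOf_dvd_of_pow_eq_one (h.exp a (h.WP ha)))
    rw [← Nat.card_zpowers, e, h.cW] at this
    omega
  obtain ⟨g, -, rfl⟩ := h.tr a (h.ZW ha) a1 b hb b1
  rw [← conj_cent1, cent1_eq_of_prime (h.cZ ▸ fact7.out) ha a1, ← conj_eq_of_norm (n ⊤ (mem_top g)),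
    ← Transfer.conj_inf, e, Subgroup.map_bot]

theorem le_of (N : Subgroup G) (hN : N.Normal) (h1 : Z ≤ N) : P ≤ N := by
  obtain ⟨a, ha, a1⟩ := h.gen
  have h2 : W ≤ N := fun w hw => by
    by_cases w1 : w = 1
    · exact w1 ▸ one_mem _
    obtain ⟨g, -, rfl⟩ := h.tr a (h.ZW ha) a1 w hw w1
    exact hN.conj_mem _ (h1 ha) g
  obtain ⟨d, d1, d2⟩ := h.two
  rw [← eq_of_lt_of_card fact7.out (left_lt_sup.2 fun e => d2 (Transfer.mem_normalizer_of_conj_le e))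
    (sup_le h.WP (conj_le_of_norm h.WP d1)) (by rw [h.cP, h.cW])]
  exact sup_le h2 (conj_le_of_norm h2 ((Nml.top_iff.2 hN).norm (mem_top d)))

theorem o7 (N : Subgroup G) (hN : N.Normal) (p : IsPGroup 7 N) : N = ⊥ := by_contra fun h0 => by
  have n := (Nml.top_iff.2 hN).norm
  have e := h.syl.eq_of_le_pgroup (h.le_of N hN (le_of_dvd h.pP h.iP h.eZ h.cZ (le_top.trans n)
    (pgroup_dvd_card p h0))) le_top p
  obtain ⟨a, ha, a1⟩ := h.gen
  have : W ≤ Z := fun w hw => by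
    by_cases w1 : w = 1
    · exact w1 ▸ one_mem _
    obtain ⟨g, -, rfl⟩ := h.tr a (h.ZW ha) a1 w hw w1
    exact conj_mem_of_norm (h.NP (e ▸ n (mem_top g))) ha
  have := card_le_of_le this
  rw [h.cZ, h.cW] at this
  omega

theorem mem_norm {g : G} {i : ℕ} (e : ∀ a ∈ Z, g * a * g⁻¹ = a ^ i) : g ∈ 𝐍(P) :=
  h.NZ (Transfer.mem_normalizer_of_conj_le (Transfer.conj_le_iff.2 fun a ha => e a ha ▸ pow_mem ha i))

theorem not_le {M : Subgroup G} [hM : M.Normal] (h1 : P ≤ M) : ¬ M ⊓ 𝐍(P) ⊓ 𝐂(Z) ≤ P := fun c => by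
  obtain ⟨t, t1, t2, t3⟩ := h.dg 6 6 rfl
  obtain ⟨d, d1, d2⟩ := h.two
  have i : ∀ g ∈ P, g ^ 6 = g⁻¹ := fun g hg => eq_inv_of_mul_eq_one_left (by rw [← pow_succ, h.exp g hg])
  have ZP := h.ZW.trans h.WP
  have tM := O7_le_of h.syl h1 t1
  have tN := h.mem_norm t2
  have p : d * t * d⁻¹ * t⁻¹ ∈ P := c ⟨⟨M.mul_mem (hM.conj_mem _ tM d) (inv_mem tM),
    𝐍(P).mul_mem (mul_mem (mul_mem d1 tN) (inv_mem d1)) (inv_mem tN)⟩, fun a ha => by
      have b := conj_mem_of_norm' (h.NP tN) ha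
      have e1 := t2 _ b
      have e2 := t2 _ (conj_mem_of_norm' (h.NP d1) b)
      rw [i _ (ZP b)] at e1
      rw [i _ (ZP (conj_mem_of_norm' (h.NP d1) b))] at e2
      calc _ = t * (t⁻¹ * a * t) * t⁻¹ * (d * t * d⁻¹ * t⁻¹) := by group
        _ = d * (d⁻¹ * (t⁻¹ * a * t) * d)⁻¹ * d⁻¹ * (d * t * d⁻¹ * t⁻¹) := by rw [e1]; group
        _ = _ := by rw [← e2]; group⟩
  refine d2 (Transfer.mem_normalizer_of_conj_le (Transfer.conj_le_iff.2 fun w hw => h.CW.le fun v hv => ?_))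
  have w1 := conj_mem_of_norm d1 (h.WP hw)
  have e1 := t3 v hv
  have e2 : t * (d * w * d⁻¹) * t⁻¹ * (d * w * d⁻¹) ∈ Z := by
    have := mul_mem (h.cm _ (inv_mem p) _ (conj_mem_of_norm (le_norm _ p) (conj_mem_of_norm tN w1)))
      (conj_mem_of_norm (h.NP d1) (t3 w hw))
    rw [i w (h.WP hw)] at this
    convert this using 1
    simp only [commutatorElement_def]; group
  rw [i v (h.WP hv), inv_inv] at e1
  generalize d * w * d⁻¹ = u at w1 e2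
  have k := h.cm v (h.WP hv) u w1
  have e3 := t2 _ k
  rw [i _ (ZP k)] at e3
  have c1 := fun g (hg : g ∈ P) => h.PC hg _ e1
  have c2 := fun g (hg : g ∈ P) => h.PC hg _ e2
  have c3 := fun g (hg : g ∈ P) => h.PC hg _ k
  have e4 : t * ⁅v, u⁆ * t⁻¹ = ⁅v⁻¹, u⁻¹⁆ := by
    have : t * ⁅v, u⁆ * t⁻¹ = ⁅t * v * t⁻¹ * v * v⁻¹, t * u * t⁻¹ * u * u⁻¹⁆ := by
      simp only [commutatorElement_def]; group
    rw [this]
    generalize t * v * t⁻¹ * v = a at c1 e1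
    generalize t * u * t⁻¹ * u = b at c2 e2
    calc _ = a * (v⁻¹ * b * u⁻¹ * v) * a⁻¹ * u * b⁻¹ := by simp only [commutatorElement_def]; group
      _ = b * (v⁻¹ * u⁻¹ * v * u) * b⁻¹ := by
        rw [c1 _ (mul_mem (mul_mem (mul_mem (inv_mem (h.WP hv)) (ZP e2)) (inv_mem w1)) (h.WP hv)),
          ← c2 _ (inv_mem (h.WP hv))]; group
      _ = _ := by
        rw [c2 _ (mul_mem (mul_mem (mul_mem (inv_mem (h.WP hv)) (inv_mem w1)) (h.WP hv)) w1), commutatorElement_def]; group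
  have e5 : ⁅v⁻¹, u⁻¹⁆ = ⁅v, u⁆ := by
    calc _ = (u * v)⁻¹ * (⁅v, u⁆ * (u * v)) := by simp only [commutatorElement_def]; group
      _ = _ := by rw [c3 _ (mul_mem w1 (h.WP hv))]; group
  rw [e4, e5, eq_inv_iff_mul_eq_one, ← sq] at e3
  exact commutatorElement_eq_one_iff_mul_comm.1 (orderOf_eq_one_iff.1 (Nat.eq_one_of_dvd_coprimes (by norm_num)
    (orderOf_dvd_of_pow_eq_one e3) (orderOf_dvd_of_pow_eq_one (h.exp _ (ZP k)))))

theorem eq_top {M : Subgroup G} [hM : M.Normal] (h1 : P ≤ M) : M = ⊤ := by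
  have l : P ≤ M ⊓ 𝐍(P) ⊓ 𝐂(Z) := le_inf (le_inf h1 (le_norm _)) h.PC
  obtain ⟨m, hm⟩ := card_dvd l
  have m1 : m ≠ 1 := fun e => h.not_le h1 (eq_of_card_le l (by rw [hm, e, mul_one])).ge
  have e := card_mul_relIndex (inf_le_left : M ⊓ 𝐍(P) ⊓ 𝐂(Z) ≤ _)
  obtain ⟨r, hr⟩ : 6 ∣ (M ⊓ 𝐍(P) ⊓ 𝐂(Z)).relIndex (M ⊓ 𝐍(P)) := by
    obtain ⟨t, t1, t2, -⟩ := h.dg 3 5 rfl
    have := (Nml.cent ((inf_le_right : M ⊓ 𝐍(P) ≤ _).trans h.NP)).normal
    have k := (pow_index_mem (H := (M ⊓ 𝐍(P) ⊓ 𝐂(Z)).subgroupOf (M ⊓ 𝐍(P))) ⟨t, O7_le_of h.syl h1 t1, h.mem_norm t2⟩).2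
    rw [relIndex]
    generalize ((M ⊓ 𝐍(P) ⊓ 𝐂(Z)).subgroupOf (M ⊓ 𝐍(P))).index = r at k
    obtain ⟨a, ha, a1⟩ := h.gen
    have : ∀ n : ℕ, t ^ n * a * (t ^ n)⁻¹ = a ^ 3 ^ n := fun n => by
      induction n with
      | zero => simp
      | succ n ih => rw [pow_succ 3, pow_mul, ← t2 _ (pow_mem ha _), ← ih, pow_succ']; group
    have k' : a ^ 3 ^ r = a ^ 1 := by rw [← this, ← show a * t ^ r = t ^ r * a from k a ha]; group
    rw [pow_eq_pow_iff_modEq, orderOf_eq_prime (h.exp a (h.WP (h.ZW ha))) a1, ← Nat.div_add_mod r 6, pow_add, pow_mul,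
      Nat.ModEq, Nat.mul_mod, Nat.pow_mod] at k'
    have := Nat.mod_lt r (by norm_num : 0 < 6)
    refine Nat.dvd_of_mod_eq_zero ?_
    generalize r % 6 = s at *
    interval_cases s <;> simp_all
  have d := card_dvd (inf_le_right : M ⊓ 𝐍(P) ≤ _)
  have c : Nat.card 𝐍(P) ≤ Nat.card ↥(M ⊓ 𝐍(P)) := by
    rw [← e, hm, hr, h.cP, h.cN] at *
    have : m * r ∣ 3 := Nat.dvd_of_mul_dvd_mul_left (by norm_num : 0 < 343 * 6) (by convert d using 1; ring)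
    rcases (Nat.dvd_prime Nat.prime_three).1 this with f | f
    · exact absurd (Nat.eq_one_of_mul_eq_one_right f) m1
    · nlinarith
  rw [← Syl.frattini (h.syl.of_le h1 le_top) (Nml.top_iff.2 hM), eq_comm, sup_eq_left]
  exact inf_le_right.trans ((eq_of_card_le inf_le_right c).ge.trans inf_le_left)

theorem simple : IsSimpleGroup G ∧ ¬ IsMulCommutative G ∧ Nat.card G / 343 % 7 = 4 := by
  obtain ⟨M, _, h2, h3, h4, -⟩ := smp h.pP h.iP h.eZ h.cZ h.o7' h.o7 h.le_of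
  obtain rfl := h.eq_top h4
  refine ⟨topEquiv.symm.isSimpleGroup, fun c => h3 inferInstance, ?_⟩
  have := card_sylow_modEq_one 7 G
  rw [(h.pP.toSylow h.iP).card_eq_index_normalizer] at this
  change 𝐍(P).index % 7 = 1 at this
  rw [← 𝐍(P).card_mul_index, h.cN, mul_assoc, Nat.mul_div_cancel_left _ (by norm_num), Nat.mul_mod, this]

end B0

end Cfsg.Lib.M7
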