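import Cfsg.Agent.Lib.M7.Def
import Cfsg.Agent.Lib.BG.Prod
import Cfsg.Agent.Lib.Extraspecial.Large

/-! M7: small consequences of `L0`, used everywhere. -/

set_option autoImplicit false

namespace Cfsg.Lib.M7

open Subgroup Function Cfsg.Lib.BG
open scoped commutatorElement

instance fact7 : Fact (Nat.Prime 7) := ⟨by norm_num⟩

variable {G : Type*} [Group G] [Finite G] {S Z₁ Z₂ Q K A : Subgroup G} {z x : G} {φ : K →* A7}

theorem card_inf_mul_le (A B : Subgroup G) :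
    Nat.card A * Nat.card B ≤ Nat.card ↥(A ⊓ B) * Nat.card ↥(A ⊔ B) := by
  have e1 : Nat.card ↥(A ⊓ B) * B.relIndex A = Nat.card A := by
    rw [← inf_relIndex_left, relIndex, ← Nat.card_congr (subgroupOfEquivOfLe (inf_le_left : A ⊓ B ≤ A)).toEquiv,
      card_mul_index]
  have e2 : Nat.card B * B.relIndex (A ⊔ B) = Nat.card ↥(A ⊔ B) := by
    rw [relIndex, ← Nat.card_congr (subgroupOfEquivOfLe (le_sup_right : B ≤ A ⊔ B)).toEquiv, card_mul_index]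
  have e3 : B.relIndex A ≤ B.relIndex (A ⊔ B) :=
    relIndex_le_of_le_right le_sup_left (index_ne_zero_of_finite)
  rw [← e1, ← e2, mul_assoc, mul_comm (B.relIndex A)]
  gcongr

theorem eq_of_card_le {A B : Subgroup G} (h : A ≤ B) (c : Nat.card B ≤ Nat.card A) : A = B :=
  eq_of_le_of_card_ge h c

/-- a subgroup of prime index is maximal -/
theorem eq_of_lt_of_card {p : ℕ} (hp : p.Prime) {A B C : Subgroup G} (h1 : A < B) (h2 : B ≤ C)
    (h : Nat.card C = Nat.card A * p) : B = C := by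
  obtain ⟨m, hm⟩ := card_dvd_of_le h1.le
  have h3 := card_dvd_of_le h2
  rw [h, hm] at h3
  rcases (Nat.dvd_prime hp).1 (Nat.dvd_of_mul_dvd_mul_left Nat.card_pos h3) with rfl | rfl
  · exact absurd (eq_of_card_le h1.le (by rw [hm, mul_one])) h1.ne
  · exact eq_of_card_le h2 (by rw [h, hm])

namespace L0
variable (h : L0 S Z₁ Z₂ Q K z φ)
include h

theorem Z1Q : Z₁ ≤ Q := h.Z12.trans h.Z2Q

theorem QK : Q ≤ K := h.QS.trans h.SK

theorem KN : K ≤ 𝐍(Z₁) := h.KC.trans (centralizer_le_normalizer _)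

theorem pQ : IsPGroup 7 Q := .of_card h.cQ

theorem zz : z * z = 1 := by rw [← sq, ← h.oz, pow_orderOf_eq_one]

theorem ord {q : G} (h1 : q ∈ Q) (h2 : q ≠ 1) : orderOf q = 7 := orderOf_eq_prime (h.exp q h1) h2

theorem not_mem_of_two {t : G} (h2 : orderOf t = 2) : t ∉ Q := fun e => by
  have := h.ord e fun f => by simp [f] at h2
  omega

/-- `|C_Q(B)| |B| = 7 |Q|` for `Z₁ ≤ B ≤ Q`. -/
theorem card_cen {B : Subgroup G} (h1 : Z₁ ≤ B) (h2 : B ≤ Q) :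
    Nat.card ↥(Q ⊓ 𝐂(B)) * Nat.card B = 7 ^ 6 := by
  obtain ⟨n, D, -, hZ, hB⟩ := ES.exists_ext_of_isExtraspecial h.es
  have := D.card_centralizer_mul hB (B.subgroupOf Q)
  have e1 : B.subgroupOf Q ⊔ D.Z = B.subgroupOf Q := sup_eq_left.2 fun a ha => h1 (h.ZQ.le fun g hg =>
    congrArg Subtype.val (mem_center_iff.1 (hZ ▸ ha) ⟨g, hg⟩))
  have e2 : centralizer (B.subgroupOf Q : Set Q) = (Q ⊓ 𝐂(B)).subgroupOf Q := by
    ext a
    simp only [mem_centralizer_iff, mem_subgroupOf, mem_inf, SetLike.mem_coe, a.2, true_and]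
    exact ⟨fun f b hb => congrArg Subtype.val (f ⟨b, h2 hb⟩ hb), fun f b hb => Subtype.ext (f b hb)⟩
  rw [e1, e2, Nat.card_congr (subgroupOfEquivOfLe h2).toEquiv,
    Nat.card_congr (subgroupOfEquivOfLe (inf_le_left : Q ⊓ 𝐂(B) ≤ Q)).toEquiv, h.cQ] at this
  exact this

theorem card_sup {q : G} (h1 : q ∈ Q) (h2 : q ∉ Z₁) : Nat.card ↥(Z₁ ⊔ zpowers q) = 49 := by
  have o : Nat.card (zpowers q) = 7 := by rw [Nat.card_zpowers, h.ord h1 fun e => h2 (e ▸ one_mem _)]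
  have d : Z₁ ⊓ zpowers q = ⊥ := by
    rcases (Nat.dvd_prime (by norm_num : Nat.Prime 7)).1 (o ▸ card_dvd_of_le (inf_le_right : Z₁ ⊓ zpowers q ≤ _))
      with e | e
    · exact card_eq_one.1 e
    · exact absurd ((eq_of_card_le inf_le_right (o.trans e.symm).le).ge (mem_zpowers q)).1 h2
  have n : zpowers q ≤ 𝐍(Z₁) := zpowers_le.2 (h.KN (h.QK h1))
  have := Coprime.card_sup_mul_card_inf n
  rw [d, card_bot, h.cZ₁, o] at this
  omega

theorem cen_sup {q : G} : Q ⊓ 𝐂(Z₁ ⊔ zpowers q) = Q ⊓ 𝐂[q] := by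
  refine le_antisymm (inf_le_inf_left _ fun a ha => mem_centralizer_singleton_iff.2
    (ha q (mem_sup_right (mem_zpowers q))).symm) fun a ha => ⟨ha.1, ?_⟩
  have : Z₁ ⊔ zpowers q ≤ 𝐂[a] := sup_le (fun b hb => mem_centralizer_singleton_iff.2 (h.KC (h.QK ha.1) b hb))
    (zpowers_le.2 (mem_centralizer_singleton_iff.2 (mem_centralizer_singleton_iff.1 ha.2).symm))
  exact fun b hb => mem_centralizer_singleton_iff.1 (this hb)

theorem card_cen1 {q : G} (h1 : q ∈ Q) (h2 : q ∉ Z₁) : Nat.card ↥(Q ⊓ 𝐂[q]) = 7 ^ 4 := by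
  have := h.card_cen le_sup_left (sup_le h.Z1Q (zpowers_le.2 h1))
  rw [h.cen_sup, h.card_sup h1 h2] at this
  omega

theorem eq_zpowers {a : G} (h1 : a ∈ Z₁) (h2 : a ≠ 1) : Z₁ = zpowers a :=
  (eq_of_card_le (zpowers_le.2 h1) (by rw [Nat.card_zpowers, h.ord (h.Z1Q h1) h2, h.cZ₁])).symm

/-- `Q` is transitive on the coset `q Z₁`. -/
theorem conj_coset {q r : G} (h1 : q ∈ Q) (h2 : q ∉ Z₁) (h3 : r * q⁻¹ ∈ Z₁) : ∃ g ∈ Q, g * q * g⁻¹ = r := by
  obtain ⟨g, hg, hn⟩ : ∃ g ∈ Q, ⁅g, q⁆ ≠ 1 := by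
    by_contra! e
    exact h2 (h.ZQ.le fun g hg => commutatorElement_eq_one_iff_mul_comm.1 (e g hg))
  have c := h.cm g hg q h1
  have k : ∀ n : ℕ, g ^ n * q * (g ^ n)⁻¹ = ⁅g, q⁆ ^ n * q := fun n => by
    induction n with
    | zero => simp
    | succ n ih =>
      have : g * ⁅g, q⁆ ^ n = ⁅g, q⁆ ^ n * g := (h.KC (h.QK hg) _ (pow_mem c n)).symm
      calc _ = g * (g ^ n * q * (g ^ n)⁻¹) * g⁻¹ := by rw [pow_succ']; group
        _ = _ := by rw [ih, ← mul_assoc, this, pow_succ, commutatorElement_def]; group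
  rw [h.eq_zpowers c hn, ← mem_powers_iff_mem_zpowers] at h3
  obtain ⟨n, e⟩ := h3
  exact ⟨g ^ n, pow_mem hg n, by rw [k, show ⁅g, q⁆ ^ n = r * q⁻¹ from e]; group⟩

/-- subgroups between `Z₁` and `Q` are normal in `Q` -/
theorem Q_le_norm {B : Subgroup G} (h1 : Z₁ ≤ B) (h2 : B ≤ Q) : Q ≤ 𝐍(B) := fun g hg =>
  mem_normalizer_fintype fun b hb => by
    have := mul_mem (h1 (h.cm g hg b (h2 hb))) hb
    rwa [commutatorElement_def, inv_mul_cancel_right] at this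

theorem S_eq {u : G} (h1 : u ∈ S) (h2 : u ∉ Q) : Q ⊔ zpowers u = S :=
  eq_of_lt_of_card (p := 7) (by norm_num) (lt_of_le_of_ne le_sup_left fun e => h2 (e.ge (mem_sup_right (mem_zpowers u))))
    (sup_le h.QS (zpowers_le.2 h1)) (by rw [h.cS, h.cQ]; norm_num)

theorem NS_le : 𝐍(S) ≤ 𝐍(Z₁) ⊓ 𝐍(Z₂) := fun g hg => by
  have k : ∀ s ∈ S, g * s * g⁻¹ ∈ S := fun s => (mem_normalizer_iff.1 hg s).1
  have k' : ∀ s ∈ S, g⁻¹ * s * g ∈ S := fun s => (mem_normalizer_iff''.1 hg s).1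
  have n : g ∈ 𝐍(Z₁) := mem_normalizer_fintype fun a ha => by
    have := h.ZS.ge ha
    refine h.ZS.le ⟨k a this.1, fun s hs => ?_⟩
    have e := this.2 _ (k' s hs)
    calc _ = g * (g⁻¹ * s * g * a) * g⁻¹ := by group
      _ = _ := by rw [e]; group
  refine ⟨n, mem_normalizer_fintype fun a ha => ?_⟩
  have m := h.QS (h.Z2Q ha)
  refine (h.Z2 _ (k a m)).2 fun s hs => ?_
  have := (mem_normalizer_iff.1 n _).1 ((h.Z2 a m).1 ha _ (k' s hs))
  convert this using 1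
  simp only [commutatorElement_def]; group

theorem z_mem_NS : z ∈ 𝐍(S) := mem_normalizer_fintype fun s hs => by
  have := mul_mem hs (h.QS (h.zN s⁻¹ (h.KN (h.SK (inv_mem hs)))))
  have e : z⁻¹ = z := inv_eq_of_mul_eq_one_left h.zz
  rwa [show s * (s⁻¹ * z * s⁻¹⁻¹ * z) = z * s * z⁻¹ by rw [e]; group] at this

theorem cen_z : Q ⊓ 𝐂[z] = Z₁ := by
  refine le_antisymm (fun q hq => ?_) fun a ha => ⟨h.Z1Q ha, mem_centralizer_singleton_iff.2 (h.KC h.zK a ha)⟩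
  have := pow_mem (h.inv q hq.1) 4
  rwa [← mem_centralizer_singleton_iff.1 hq.2, mul_inv_cancel_right, ← sq, ← pow_mul, pow_succ, h.exp q hq.1,
    one_mul] at this

/-- the involutions of `K` are conjugate under `Q` -/
theorem conj_inv {t : G} (ht : t ∈ K) (h2 : orderOf t = 2) : ∃ q ∈ Q, q * t * q⁻¹ = z := by
  have tt : t * t = 1 := by rw [← sq, ← h2, pow_orderOf_eq_one]
  have m : t * z ∈ Q := ((h.ker ⟨t, ht⟩).1 (h.uq _ (tt ▸ one_mem _))).resolve_left (h.not_mem_of_two h2)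
  refine ⟨(t * z) ^ 3, pow_mem m 3, ?_⟩
  have e := h.exp _ m
  have e1 : z⁻¹ = z := inv_eq_of_mul_eq_one_left h.zz
  have e2 : t⁻¹ = t := inv_eq_of_mul_eq_one_left tt
  have : (t * z) ^ 3 * t * ((t * z) ^ 3)⁻¹ = (t * z) ^ 7 * z⁻¹ := by
    simp only [pow_succ, pow_zero, one_mul, mul_inv_rev, e1, e2, mul_assoc, h.zz, mul_one]
  rw [this, e, one_mul, e1]

/-- `N(Z₁) = Q C(z)`. -/
theorem exists_cen {g : G} (hg : g ∈ 𝐍(Z₁)) : ∃ q ∈ Q, q * g ∈ 𝐂[z] := by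
  obtain ⟨q, hq, e⟩ := h.conj_inv ((mem_normalizer_iff.1 (h.NK hg) z).1 h.zK) ((ES.orderOf_conj_eq g z).trans h.oz)
  refine ⟨q, hq, mem_centralizer_singleton_iff.2 ?_⟩
  calc _ = q * (g * z * g⁻¹) * q⁻¹ * (q * g) := by group
    _ = _ := by rw [e]

/-- every 7-subgroup of `K` is conjugate into `S` -/
theorem conj_le {P : Subgroup G} (h1 : P ≤ K) (h2 : IsPGroup 7 P) :
    ∃ k ∈ K, ∀ g ∈ P, k * g * k⁻¹ ∈ S := by
  have i : ¬ 7 ∣ (S.subgroupOf K).index := fun e => h.iS (e.trans (relIndex_dvd_index_of_le h.SK))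
  let T : Sylow 7 K := (h.pS.comap_of_injective K.subtype K.subtype_injective).toSylow i
  obtain ⟨R, hR⟩ := (h2.comap_of_injective K.subtype K.subtype_injective).exists_le_sylow
  obtain ⟨k, hk⟩ := MulAction.exists_smul_eq K R T
  refine ⟨k, k.2, fun g hg => ?_⟩
  have : k * ⟨g, h1 hg⟩ * k⁻¹ ∈ (T : Subgroup K) := by
    rw [← hk, Sylow.smul_def, Sylow.pointwise_smul_def]
    exact smul_mem_pointwise_smul _ (MulAut.conj k) _ (hR hg)
  exact this

end L0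

end Cfsg.Lib.M7
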