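import Cfsg.Agent.Lib.M7.Four
import Cfsg.Agent.Lib.M7.A3
import Cfsg.Agent.Lib.M7.B1

/-! M7/C1: `E = S ⊓ C(z)`.  `S = Q E` (`exists_cen`), `Q ⊓ E = Z₁`, `|E| = 49`, so `E` is abelian.  `A₅ = S ⊓ C(Z₂) ≰ Q` is `z`-invariant: for `a ∈ A₅∖Q`, `[z,a] ∈ Z₄ = Q ⊓ C(Z₂)`, and
`⟨z⟩` acts coprimely, so `A₅ = [A₅,z] C_{A₅}(z)` with `[A₅,z] ≤ Q` gives `u ∈ C_{A₅}(z)∖Q`, `E = Z₁⟨u⟩ ≤ A₅`.  `Z' = ⟨b⟩`, `b = [v,z]`, `v ∈ Z₂∖Z₁`, is inverted by `z`, `Z₂ = Z₁Z'`.  Take `g ∈ N₂` with `gZ'g⁻¹ = Z₁` (`tr`),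
`Q' = g⁻¹Qg`, `Z₄' = Q' ⊓ C(Z₂) = g⁻¹Z₄g ≤ A₅`, order `7⁴`, `A ≤ Z₄'`, `z` normalises `Z'`, `Q'`, `Z₄'`; `Z₄' ≰ Q` (commutators in `Z₁ ⊓ Z' = 1`, `C(A) = A`), so as above `C_{Z₄'}(z) ≰ Q`; it lies in `E` and with `Z₁ ≤ A ≤ Q'`
gives `E ≤ Q'` (exponent 7).  `L = g(E Z')g⁻¹`: order 343, `Z₂ ≤ L ≤ Z₄`, `≠ A` (`u ∉ A`); `gEg⁻¹ ⊓ Z₁ = 1`, so `L = gEg⁻¹ × Z₁` and `Sp` is a union of cosets of `Z₁` (`conj_coset`): 24 elements of `gEg⁻¹` are special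
(`four`), the other 24 are conjugate to `x` (`dich`).  `C(E) ≤ K`; `C_Q(u) = Z₂` (`fix`); `φ(C(E))` centralises the 7-cycle `φ u`, so has order `≤ 7`; so `C(E) ⊓ C(z) = E⟨z⟩`:
for `c` in it `φ c = φ(uⁱ)`, `c u⁻ⁱ ∈ (Q ∪ Qz) ⊓ C(z) = Z₁⟨z⟩`.
`Cy`: restrict `φ` to `K ⊓ C(z) = C(y) ⊓ C(z)` (onto by `exists_cen`).  `conj`: if `gyg⁻¹ = e` with `e ∈ C(z)`, then `g⁻¹zg` is an involution of `C(y) = K`, use `conj_inv`. -/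

set_option autoImplicit false

namespace Cfsg.Lib.M7

open Subgroup Function Cfsg.Lib.BG
open scoped commutatorElement Cfsg.Lib.Transfer

variable {G : Type*} [Group G] [Finite G] {S Z₁ Z₂ Q K A : Subgroup G} {z x : G} {φ : K →* A7}

theorem a7_cen7 {u c : A7} (hu : orderOf u = 7) (h : c * u = u * c) : c ∈ zpowers u := by
  have o : orderOf u.1 = Fintype.card (Fin 7) := (orderOf_coe u).trans hu
  have k := Equiv.Perm.isCycle_of_prime_order'' (by simpa using fact7.out) o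
  obtain ⟨i, hi⟩ := k.commute_iff.1 (show Commute c.1 u.1 from congrArg Subtype.val h)
  rw [Equiv.Perm.ofSubtype_subtypePerm _ fun t _ => Finset.eq_univ_of_card _ (k.orderOf.symm.trans o) ▸ Finset.mem_univ t] at hi
  obtain ⟨n, hn⟩ := mem_zpowers_iff.1 hi
  exact ⟨n, Subtype.ext hn⟩

namespace L2
variable (h : L2 S Z₁ Z₂ Q K A z φ x)
include h

theorem QE : Q ⊓ (S ⊓ 𝐂[z]) = Z₁ := by rw [← inf_assoc, inf_eq_left.2 h.QS, h.cen_z]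

theorem Z1E : Z₁ ≤ S ⊓ 𝐂[z] := h.QE.ge.trans inf_le_right

theorem cE : Nat.card ↥(S ⊓ 𝐂[z]) = 49 := by
  have e : Q ⊔ S ⊓ 𝐂[z] = S := le_antisymm (sup_le h.QS inf_le_left) fun s hs => by
    obtain ⟨q, hq, c⟩ := h.exists_cen (h.KN (h.SK hs))
    simpa using mul_mem (mem_sup_left (inv_mem hq)) (mem_sup_right (show q * s ∈ S ⊓ 𝐂[z] from ⟨mul_mem (h.QS hq) hs, c⟩))
  have := Coprime.card_sup_mul_card_inf ((inf_le_left : S ⊓ 𝐂[z] ≤ S).trans (h.SK.trans (h.KN.trans h.NQ)))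
  rw [e, h.QE, h.cS, h.cZ₁, h.cQ] at this
  omega

theorem E_le {B : Subgroup G} (h1 : Z₁ ≤ B) (h2 : B ≤ S) (h3 : z ∈ 𝐍(B)) (h4 : ¬ B ≤ Q) : S ⊓ 𝐂[z] ≤ B := by
  classical
  have c : Nat.card (zpowers z) = 2 ^ 1 := by rw [Nat.card_zpowers, h.oz]; rfl
  have := coprime_le_sup_cent (inf_le_left : B ⊓ Q ≤ B) (coprime_pgroups (.of_card c) (pgroup_of_le h.pS h2) (by norm_num))
    (.inr (pgroup_sol (pgroup_of_le h.pS h2))) (le_inf (comm_le_left (zpowers_le.2 h3)) (comm_le_iff.2 fun a ha b hb => by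
      rw [mem_zpowers_iff_mem_range_orderOf, h.oz] at hb
      obtain ⟨n, hn, rfl⟩ := Finset.mem_image.1 hb
      have := Finset.mem_range.1 hn
      interval_cases n
      · simp
      · simpa [inv_eq_of_mul_eq_one_right h.zz] using h.zN a (h.KN (h.SK (h2 ha)))))
  rw [cent_zpowers] at this
  have l : Z₁ < B ⊓ 𝐂[z] := lt_of_le_of_ne (le_inf h1 (h.Z1E.trans inf_le_right)) fun e =>
    h4 (this.trans (sup_le inf_le_right (e.ge.trans h.Z1Q)))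
  exact (eq_of_lt_of_card fact7.out l (inf_le_inf_right _ h2) (by rw [h.cE, h.cZ₁])).ge.trans inf_le_left

theorem exists_g : ∃ g ∈ 𝐍(Z₂), g ⋆ (S ⊓ 𝐂[z]) ≤ Q ⊓ 𝐂(Z₂) ∧ g ⋆ (S ⊓ 𝐂[z]) ⊓ Z₁ = ⊥ := by
  obtain ⟨v, hv, vn⟩ := h.exists_two
  obtain ⟨a, ha, a1⟩ := h.exists_gen
  have zN := (h.NS_le h.z_mem_NS).2
  have bn : z * v * z⁻¹ * v⁻¹ ∉ Z₁ := fun e => vn (by
    have := pow_mem (mul_mem (inv_mem e) (h.inv v (h.Z2Q hv))) 4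
    rwa [show (z * v * z⁻¹ * v⁻¹)⁻¹ * (z * v * z⁻¹ * v) = v ^ 2 by rw [sq]; group, ← pow_mul, show 2 * 4 = 7 + 1 from rfl, pow_succ,
      h.exp v (h.Z2Q hv), one_mul] at this)
  have bz : z * (z * v * z⁻¹ * v⁻¹) * z⁻¹ = (z * v * z⁻¹ * v⁻¹)⁻¹ := by
    calc _ = (z * z) * v * (z * z)⁻¹ * z * v⁻¹ * z⁻¹ := by group
      _ = _ := by rw [h.zz]; group
  have b2 := mul_mem (conj_mem_of_norm zN hv) (inv_mem hv)
  generalize z * v * z⁻¹ * v⁻¹ = b at bn bz b2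
  obtain ⟨g, hg, rfl⟩ := h.tr b b2 (fun e => bn (e ▸ one_mem _)) a (h.Z12 ha) a1
  replace hg := O7_le _ hg
  refine ⟨g, hg, Transfer.conj_le_iff_le_inv_conj.2 (h.E_le ?_ ?_ ?_ fun e => ?_), ?_⟩
  · exact h.Z12.trans (Transfer.conj_le_iff_le_inv_conj.1 ((conj_eq_of_norm hg).le.trans (le_inf h.Z2Q h.ab2)))
  · exact (conj_le_of_norm (inf_le_inf_right _ h.QS) (h.N5 (inv_mem hg))).trans inf_le_left
  · rw [← Transfer.conj_normalizer, Transfer.mem_conj, inv_inv]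
    have m : g * z * g⁻¹ ∈ 𝐍(Z₁) := by
      rw [h.eq_zpowers ha a1, ← Transfer.conj_zpowers, ← Transfer.conj_normalizer, Transfer.conj_mem_conj]
      exact Transfer.mem_normalizer_of_conj_le (by rw [Transfer.conj_zpowers, bz, zpowers_inv])
    exact norm_inf (zpowers_le.2 (h.NQ m)) (norm_cent (zpowers_le.2 (mul_mem (mul_mem hg zN) (inv_mem hg))))
      (mem_zpowers _)
  · obtain ⟨q, hq, n⟩ := h.exists_out (inv_mem hg) ha (by simpa [mul_assoc] using bn)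
    exact n (e (Transfer.conj_mem_conj.2 hq))
  · rw [inf_comm]
    exact inf_eq_bot_of_prime (h.cZ₁ ▸ fact7.out) fun e => bn (h.QE.le ⟨h.Z2Q b2, Transfer.conj_mem_conj.1 (e ha)⟩)

theorem expE : ∀ e ∈ S ⊓ 𝐂[z], e ^ 7 = 1 := fun e he => by
  obtain ⟨g, -, h1, -⟩ := h.exists_g
  simpa [conj_pow] using h.exp _ (h1 (Transfer.conj_mem_conj.2 he)).1

theorem comE : S ⊓ 𝐂[z] ≤ 𝐂(S ⊓ 𝐂[z]) := fun a ha b hb =>
  congrArg Subtype.val (IsPGroup.commutative_of_card_eq_prime_sq (p := 7) h.cE ⟨b, hb⟩ ⟨a, ha⟩)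

omit h [Finite G] in
theorem Sp_mul (h : Z₁ ≤ Z₂) {q c : G} (hq : q ∈ Sp Z₁ Z₂) (hc : c ∈ Z₁) : q * c ∈ Sp Z₁ Z₂ := by
  obtain ⟨g, hg, v, hv, vn, rfl⟩ := hq
  have := conj_mem_of_norm' hg hc
  exact ⟨g, hg, v * (g⁻¹ * c * g), mul_mem hv (h this), fun e => vn ((mul_mem_cancel_right this).1 e), by group⟩

theorem clsE {y : G} (h1 : y ∈ Z₁) (h2 : y ≠ 1) :
    (∀ e ∈ S ⊓ 𝐂[z], e ≠ 1 → IsConj y e ∨ IsConj x e) ∧ {e | e ∈ S ⊓ 𝐂[z] ∧ IsConj y e}.ncard = 24 := by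
  obtain ⟨g, hg, l, d⟩ := h.exists_g
  have k : ∀ e ∈ g ⋆ (S ⊓ 𝐂[z]), e ≠ 1 → e ∉ Sp Z₁ Z₂ → IsConj x e := fun e he e1 n =>
    let ⟨c, _, hc⟩ := h.dich e (l he).1 (fun c => e1 (mem_bot.1 (d.le ⟨he, c⟩))) n
    isConj_iff.2 ⟨c, hc⟩
  have c : ∀ e, IsConj (g * e * g⁻¹) e := fun e => (isConj_iff.2 ⟨g, rfl⟩).symm
  refine ⟨fun e he e1 => ?_, ?_⟩
  · by_cases m : g * e * g⁻¹ ∈ Sp Z₁ Z₂
    · exact .inl ((Sp.isConj h.toL1 m h1 h2).trans (c e))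
    · exact .inr ((k _ (Transfer.conj_mem_conj.2 he) (by simpa using e1) m).trans (c e))
  have n : Z₁ ≤ 𝐍(g ⋆ (S ⊓ 𝐂[z])) := norm_of_cent (h.ZQ.ge.trans (cent_anti (l.trans inf_le_left)))
  have c1 := Coprime.card_sup_mul_card_inf n
  rw [d, card_bot, Transfer.card_conj, h.cE, h.cZ₁, mul_one] at c1
  have := h.four (L := g ⋆ (S ⊓ 𝐂[z]) ⊔ Z₁) ?_ (sup_le l (le_inf h.Z1Q (h.Z12.trans h.ab2))) c1 fun e => ?_
  · have e1 : {q | q ∈ g ⋆ (S ⊓ 𝐂[z]) ⊔ Z₁ ∧ q ∈ Sp Z₁ Z₂} =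
        (fun p : G × G => g * p.1 * g⁻¹ * p.2) '' ({e | e ∈ S ⊓ 𝐂[z] ∧ IsConj y e} ×ˢ Z₁) := by
      ext q
      constructor
      · rintro ⟨hq, sp⟩
        obtain ⟨_, ⟨e, he, rfl⟩, a, ha, rfl⟩ := (mem_sup_left_norm n).1 hq
        exact ⟨(e, a), ⟨⟨he, (Sp.isConj h.toL1 (by simpa using Sp_mul h.Z12 sp (inv_mem ha)) h1 h2).trans (c e)⟩, ha⟩, rfl⟩
      · rintro ⟨⟨e, a⟩, ⟨⟨he, cj⟩, ha⟩, rfl⟩
        have m := (Transfer.conj_mem_conj (g := g)).2 he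
        refine ⟨mul_mem (mem_sup_left m) (mem_sup_right ha), Sp_mul h.Z12 (by_contra fun n => h.nb x h.xA h.xZ y h1
          (((k _ m (fun e1 => h2 ?_) n).trans (c e)).trans cj.symm)) ha⟩
        exact isConj_one_left.1 (e1 ▸ cj.trans (c e).symm)
    rw [e1, Set.InjOn.ncard_image, Set.ncard_prod, ← Nat.card_coe_set_eq (Z₁ : Set G)] at this
    · rw [show Nat.card (Z₁ : Set G) = 7 from h.cZ₁] at this
      omega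
    rintro ⟨e, a⟩ ⟨⟨he, -⟩, ha⟩ ⟨f, b⟩ ⟨⟨hf, -⟩, hb⟩ e'
    have e2 : g * (f⁻¹ * e) * g⁻¹ = b * a⁻¹ := by
      rw [eq_mul_inv_iff_mul_eq, ← mul_right_inj (g * f * g⁻¹), ← show g * e * g⁻¹ * a = g * f * g⁻¹ * b from e']; group
    have e3 := mem_bot.1 (d.le ⟨Transfer.conj_mem_conj.2 (mul_mem (inv_mem hf) he), e2 ▸ Z₁.mul_mem hb (inv_mem ha)⟩)
    exact Prod.ext (inv_mul_eq_one.1 (by simpa using e3)).symm (mul_inv_eq_one.1 (e2.symm.trans e3)).symm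
  · rw [← eq_of_lt_of_card fact7.out (right_lt_sup.2 fun e => h2 (by
      simpa using d.le ⟨(Transfer.conj_mem_conj (g := g)).2 (h.Z1E h1), e (Transfer.conj_mem_conj.2 h1)⟩))
      (sup_le (conj_le_of_norm h.Z12 hg) h.Z12) (by rw [h.cZ₂, h.cZ₁])]
    exact sup_le_sup_right (Transfer.conj_mono g h.Z1E) _
  · have := card_le_of_le ((le_inf ((Transfer.conj_le_iff_le_inv_conj.1 (le_sup_left.trans e.le)).trans
      ((conj_eq_of_norm (inv_mem (h.N3 hg))).le.trans h.AQ)) le_rfl).trans h.QE.le)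
    rw [h.cE, h.cZ₁] at this
    omega

theorem mem_of_ker {c : K} (h1 : φ c = 1) (h2 : (c : G) ∈ 𝐂[z]) : (c : G) ∈ Z₁ ⊔ zpowers z := by
  rcases (h.ker c).1 h1 with e | e
  · exact mem_sup_left (h.cen_z.le ⟨e, h2⟩)
  · simpa using mul_mem (mem_sup_left (h.cen_z.le ⟨e, (𝐂[z]).mul_mem h2 (self_mem_cent1 z)⟩))
      (mem_sup_right (inv_mem (mem_zpowers z)))

theorem CE : 𝐂[z] ⊓ 𝐂(S ⊓ 𝐂[z]) = S ⊓ 𝐂[z] ⊔ zpowers z := by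
  refine le_antisymm (fun c hc => ?_) (sup_le (le_inf inf_le_right h.comE)
    (zpowers_le.2 ⟨self_mem_cent1 z, le_cent1_iff.1 inf_le_right⟩))
  obtain ⟨u, hu, un⟩ : ∃ u ∈ S ⊓ 𝐂[z], u ∉ Z₁ := by
    by_contra! e
    have := card_le_of_le (show S ⊓ 𝐂[z] ≤ Z₁ from e)
    rw [h.cE, h.cZ₁] at this
    omega
  have cK : c ∈ K := h.CK ▸ cent_anti h.Z1E hc.2
  have o : orderOf (φ ⟨u, h.SK hu.1⟩) = 7 := orderOf_eq_prime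
    (by rw [← map_pow, ← map_one φ]; exact congrArg φ (Subtype.ext (h.expE u hu))) fun e => by
      obtain ⟨a, ha, b, hb, rfl⟩ := (mem_sup_left_norm (zpowers_le.2 (h.KN h.zK))).1 (h.mem_of_ker e hu.2)
      have : b ∈ zpowers z ⊓ S := ⟨hb, (S.mul_mem_cancel_left (h.Z1E ha).1).1 hu.1⟩
      rw [disjoint_of_coprime (coprime_pgroups (.of_card (n := 1) (by rw [Nat.card_zpowers, h.oz]; rfl)) h.pS
        (by norm_num : 2 ≠ 7)), mem_bot] at this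
      exact un (by rwa [this, mul_one])
  obtain ⟨n, hn⟩ := mem_zpowers_iff.1 (a7_cen7 (c := φ ⟨c, cK⟩) o (by
    rw [← map_mul, ← map_mul]; exact congrArg φ (Subtype.ext (hc.2 u hu).symm)))
  have := h.mem_of_ker (c := (⟨u, h.SK hu.1⟩ ^ n)⁻¹ * ⟨c, cK⟩) (by rw [map_mul, map_inv, map_zpow, hn, inv_mul_cancel])
    (mul_mem (inv_mem ((𝐂[z]).zpow_mem hu.2 n)) hc.1)
  simpa using mul_mem (mem_sup_left (zpow_mem hu n)) (sup_le_sup_right h.Z1E _ this)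

theorem Cy {y : G} (h1 : y ∈ Z₁) (h2 : y ≠ 1) : ∃ ψ : ↥(𝐂[y] ⊓ 𝐂[z]) →* A7, Surjective ψ ∧
    ∀ c, ψ c = 1 ↔ (c : G) ∈ zpowers y ⊔ zpowers z := by
  have l : 𝐂[y] ⊓ 𝐂[z] ≤ K := inf_le_left.trans (h.cen1 h1 h2).le
  refine ⟨φ.comp (inclusion l), fun a => ?_, fun c => ⟨fun e => h.eq_zpowers h1 h2 ▸ h.mem_of_ker e c.2.2, fun e => ?_⟩⟩
  · obtain ⟨k, rfl⟩ := h.surj a
    obtain ⟨q, hq, c⟩ := h.exists_cen (h.KN k.2)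
    refine ⟨⟨q * k, (h.cen1 h1 h2).ge (mul_mem (h.QK hq) k.2), c⟩, (map_mul φ ⟨q, h.QK hq⟩ k).trans ?_⟩
    rw [(h.ker _).2 (.inl hq), one_mul]
  · have : zpowers y ⊔ zpowers z ≤ φ.ker.map K.subtype := sup_le
      (zpowers_le.2 ⟨⟨y, h.QK (h.Z1Q h1)⟩, (h.ker _).2 (.inl (h.Z1Q h1)), rfl⟩)
      (zpowers_le.2 ⟨⟨z, h.zK⟩, (h.ker _).2 (.inr (h.zz ▸ one_mem _)), rfl⟩)
    obtain ⟨k, hk, e'⟩ := this e
    exact (congrArg φ (Subtype.ext e'.symm)).trans hk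

theorem conj {y e : G} (h1 : y ∈ Z₁) (h2 : y ≠ 1) (h3 : e ∈ 𝐂[z]) (h4 : IsConj y e) :
    ∃ g ∈ 𝐂[z], g * y * g⁻¹ = e := by
  obtain ⟨g, rfl⟩ := isConj_iff.1 h4
  have := mem_cent1_symm h3
  rw [← conj_cent1, Transfer.mem_conj, h.cen1 h1 h2] at this
  obtain ⟨q, hq, e⟩ := h.conj_inv this (by rw [← h.oz]; exact (MulAut.conj g⁻¹).orderOf_eq z ▸ by simp)
  refine ⟨g * q⁻¹, mem_cent1.2 ?_, ?_⟩
  · nth_rw 1 [← e]; group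
  · rw [show g * q⁻¹ * y * (g * q⁻¹)⁻¹ = g * (q⁻¹ * (y * q)) * g⁻¹ by group, h.KC (h.QK hq) y h1]; group

end L2

end Cfsg.Lib.M7
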