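import Cfsg.Agent.Lib.M7.K0
import Cfsg.Agent.Lib.Transfer.Criteria

/-! M7/D1: `R = O_{7'}(G)`.  `z ∈ R`.  `R ⊓ C(y) = ⟨z⟩` (its image in `A₇` is a normal 7'-subgroup).  `D = R ⊓ C(x) ⊴ C(x)`: for `e ∈ E∖⟨x⟩`, `C_D(e) ≤ R ⊓ C(E) = ⟨z⟩`; `e` acts on
`D/⟨z⟩` without fixed points (coprime; or count: `|D| ≡ |C_D(e)| = 2 mod 7`), `|D|` is even, divides `3072`, so `|D| ∈ {2, 16, 128, 1024}` (check: divisors `d` of 3072 with `d ≡ 2 mod 7`), a 2-group, `D ≤ R₇` (`Qx`), `|D| 8ʲ = 128`.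
`R` is a 2-group: an `E`-invariant Sylow `r`-subgroup (`Syl.exists_inv`), `r` odd, is generated by its `C(e)`, which are 2-groups (`cls`, `coprime_abelian_gen_cent1`).
Quotient: `C(ē)` is the image of `C(e)` (`coprime_map_cent`), and `ē ~ ē'` gives `e ~ e'` for 7-elements (Schur-Zassenhaus/Sylow in `R⟨e⟩`: `geg⁻¹ ∈ e'R`, conjugate `⟨geg⁻¹⟩` to `⟨e'⟩` by `r ∈ R`).
`eq_top`: `NR = G` by simplicity (the image of `E` is nontrivial), `R = [R,E] C_R(E)` (`coprime_cent_prod`), `[R,E] ≤ N`, `C_R(E) = ⟨z⟩`. -/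

set_option autoImplicit false

namespace Cfsg.Lib.M7

open Subgroup Function Cfsg.Lib.BG
open scoped commutatorElement Cfsg.Lib.Transfer

variable {G : Type*} [Group G] [Finite G] {E : Subgroup G} {z y x : G}

theorem pg7 {a : G} (ha : a ^ 7 = 1) : IsPGroup 7 (zpowers a) :=
  .of_card_dvd_pow (n := 1) (by rw [Nat.card_zpowers]; exact orderOf_dvd_of_pow_eq_one ha)

section
variable {Γ : Type*} [Group Γ] {f : G →* Γ} (hf : Surjective f) (hN : PiGrp {7}ᶜ f.ker) {a b : G}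
include hf hN

theorem isConj_of_map (ha : a ^ 7 = 1) (hb : b ^ 7 = 1) (h : IsConj (f a) (f b)) : IsConj a b := by
  obtain ⟨g, hg⟩ := isConj_iff.1 h
  obtain ⟨g, rfl⟩ := hf g
  refine (isConj_iff.2 ⟨g, rfl⟩).trans ?_
  replace ha : (g * a * g⁻¹) ^ 7 = 1 := by rw [conj_pow, ha]; simp
  have h : g * a * g⁻¹ * b⁻¹ ∈ f.ker := by simp [MonoidHom.mem_ker, hg]
  generalize g * a * g⁻¹ = a at ha h
  have ha := pg7 ha
  have hb := pg7 hb
  have hbN : zpowers b ≤ 𝐍(f.ker) := le_normalizer_of_normal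
  have hS : Syl 7 (zpowers b) (f.ker ⊔ zpowers b) :=
    (Hall.of_sd (π := {7}ᶜ) ⟨hbN, (inf_comm _ _).trans ((PiGrp.p_iff.2 hb).inf_eq_bot hN), rfl⟩ hN
      (by rw [compl_compl]; exact PiGrp.p_iff.2 hb)).2.congr fun q _ _ => by rw [compl_compl]
  have hab : a ∈ f.ker ⊔ zpowers b := by
    simpa using mul_mem (mem_sup_left h) (mem_sup_right (mem_zpowers b))
  obtain ⟨g, hg, h1⟩ := hS.exists_conj_le ha (zpowers_le.2 hab)
  obtain ⟨c, hc, o, ho, rfl⟩ := (mem_sup_right_norm hbN).1 (sup_comm f.ker _ ▸ hg)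
  rw [← Transfer.conj_conj, Transfer.conj_le_iff_le_inv_conj, conj_eq_of_mem (inv_mem hc),
    Transfer.conj_zpowers, zpowers_le] at h1
  refine isConj_iff.2 ⟨o, mul_inv_eq_one.1 (mem_bot.1 ((PiGrp.p_iff.2 hb).inf_eq_bot hN ▸ mem_inf.2
    ⟨mul_mem h1 (inv_mem (mem_zpowers b)), ?_⟩))⟩
  rw [MonoidHom.mem_ker] at ho h ⊢
  simpa [ho] using h

theorem cent_map (ha : a ^ 7 = 1) : 𝐂[f a] = (𝐂[a]).map f := by
  rw [← cent_zpowers, ← cent_zpowers, ← MonoidHom.map_zpowers]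
  exact Coprime.centralizer_map_of_surjective f hf (hN.coprime_pgroup (pg7 ha)).symm (.inl (pgroup_sol (pg7 ha)))

theorem Tw.map (h : Tw E y x) : Tw (E.map f) (f y) (f x) := by
  have b := (PiGrp.p_iff.2 h.pE).inf_eq_bot hN
  have n : ∀ e ∈ E, f e = 1 → e = 1 := fun e he e1 => mem_bot.1 (b.le ⟨he, e1⟩)
  refine ⟨?_, fun c => h.iE (c.trans (index_map_dvd E hf)), ?_, map_cent f h.com, mem_map_of_mem f h.yE,
    mem_map_of_mem f h.xE, fun e => h.y1 (n y h.yE e), fun e => h.x1 (n x h.xE e),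
    fun c => h.nc (isConj_of_map hf hN (h.exp y h.yE) (h.exp x h.xE) c), ?_, ?_, map_pow f x 3 ▸ f.map_isConj h.px⟩
  · rw [← h.cE, ← Core.card_map_mul_card_inf_ker f E, b, card_bot, mul_one]
  · rintro _ ⟨e, he, rfl⟩
    rw [← map_pow, h.exp e he, map_one]
  · rintro _ ⟨e, he, rfl⟩ e1
    exact (h.cls e he fun c => e1 (by rw [c, map_one])).imp f.map_isConj f.map_isConj
  · rw [← h.cy, ← Set.InjOn.ncard_image (f := f) fun a ha b hb e =>
      inv_mul_eq_one.1 (n _ (mul_mem (inv_mem ha.1) hb.1) (by rw [map_mul, map_inv, e, inv_mul_cancel]))]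
    congr 1
    ext c
    constructor
    · rintro ⟨⟨e, he, rfl⟩, c⟩
      exact ⟨e, ⟨he, isConj_of_map hf hN (h.exp y h.yE) (h.exp e he) c⟩, rfl⟩
    · rintro ⟨e, he, rfl⟩
      exact ⟨mem_map_of_mem f he.1, f.map_isConj he.2⟩

end

namespace Cz
variable (h : Cz z E y x) {R : Subgroup G} [hR : R.Normal]
include h

theorem z_cen (B : Subgroup G) : zpowers z ≤ 𝐂(B) := zpowers_le.2 fun b _ => mem_center_iff.1 h.zc b

theorem z_cen1 (b : G) : zpowers z ≤ 𝐂[b] := cent_zpowers b ▸ h.z_cen _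

theorem cz : Nat.card (zpowers z) = 2 := by rw [Nat.card_zpowers, h.oz]

theorem inf_y (p : PiGrp {7}ᶜ R) : R ⊓ 𝐂[y] ≤ zpowers z := fun c hc => by
  have : IsSimpleGroup A7 := alternatingGroup.isSimpleGroup (by simp)
  obtain ⟨φ, hφ, e⟩ := h.Cy
  have b : (R.subgroupOf 𝐂[y]).map φ = ⊥ := (Normal.map inferInstance φ hφ).eq_bot_or_eq_top.resolve_right fun t =>
    PiGrp.p'_iff.1 p (Dvd.dvd.trans (by rw [t, card_top, cardA7]; norm_num) ((card_map_dvd (R.subgroupOf 𝐂[y]) φ).trans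
      (card_comap_dvd_of_injective R _ (subtype_injective _))))
  obtain ⟨a, ha, b, hb, rfl⟩ := (mem_sup_right_norm (norm_of_cent (cent_symm (h.z_cen _)))).1
    ((e ⟨c, hc.2⟩).1 (mem_bot.1 (b.le (mem_map_of_mem φ hc.1))))
  have b2 : b ^ 2 = 1 := by rw [← h.cz]; exact congrArg Subtype.val (pow_card_eq_one' (x := (⟨b, hb⟩ : zpowers z)))
  have : a ^ 2 ∈ zpowers y ⊓ R := ⟨pow_mem ha 2, by
    have := pow_mem hc.1 2
    rwa [Commute.mul_pow (h.z_cen _ hb a (mem_top a)), b2, mul_one] at this⟩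
  rw [(PiGrp.p_iff.2 (pg7 (h.exp y h.yE))).inf_eq_bot p, mem_bot] at this
  obtain ⟨k, hk⟩ := pg7 (h.exp y h.yE) ⟨a, ha⟩
  rwa [orderOf_eq_one_iff.1 (Nat.eq_one_of_dvd_coprimes (Nat.Coprime.pow_right k (by norm_num))
    (orderOf_dvd_of_pow_eq_one this) (orderOf_dvd_of_pow_eq_one (congrArg Subtype.val hk))), one_mul]

theorem inf_x (p : PiGrp {7}ᶜ R) (hz : z ∈ R) :
    IsPGroup 2 ↥(R ⊓ 𝐂[x]) ∧ ∃ j ≤ 2, Nat.card ↥(R ⊓ 𝐂[x]) * 8 ^ j = 128 := by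
  have n : Nml (R ⊓ 𝐂[x]) 𝐂[x] := (Nml.top_iff.2 hR).inf_right le_top
  have m := Transfer.card_modEq_card_inf_centralizer (pg7 (h.exp y h.yE))
    ((zpowers_le.2 (cent_le_cent1 h.xE (h.com h.yE))).trans n.norm)
  rw [cent_zpowers, show R ⊓ 𝐂[x] ⊓ 𝐂[y] = zpowers z from le_antisymm ((inf_le_inf_right _ inf_le_left).trans (h.inf_y p))
    (le_inf (le_inf (zpowers_le.2 hz) (h.z_cen1 _)) (h.z_cen1 _)), h.cz] at m
  have d : Nat.card ↥(R ⊓ 𝐂[x]) ∣ 2 ^ 10 * 3 :=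
    (Nat.Coprime.pow_right 2 (p.of_le inf_le_left).coprime_p).dvd_of_dvd_mul_right ((card_dvd n.le).trans (by rw [h.cx]; norm_num))
  have k : ∀ i ≤ 10, 2 ^ i * 3 % 7 ≠ 2 % 7 := by decide
  obtain ⟨a, b, ha, hb, e⟩ := exists_dvd_and_dvd_of_dvd_mul d
  obtain ⟨i, hi, rfl⟩ := (Nat.dvd_prime_pow Nat.prime_two).1 ha
  rcases (Nat.dvd_prime Nat.prime_three).1 hb with rfl | rfl
  · have p2 : IsPGroup 2 ↥(R ⊓ 𝐂[x]) := .of_card (e.trans (mul_one _))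
    obtain ⟨R', -, -, -, c, -, -, -, -, l⟩ := h.Qx
    have := card_le_of_le (l _ n p2)
    refine ⟨p2, ?_⟩
    rw [e] at this m ⊢
    rw [c] at this
    have k : ∀ i ≤ 10, 2 ^ i * 1 % 7 = 2 % 7 → 2 ^ i * 1 ≤ 2 ^ 7 → ∃ j ≤ 2, 2 ^ i * 1 * 8 ^ j = 128 := by decide
    exact k i hi m this
  · exact absurd (e ▸ m) (k i hi)

theorem two (p : PiGrp {7}ᶜ R) (hz : z ∈ R) : IsPGroup 2 R := PiGrp.pgroup fun r hr d => by_contra fun r2 => by
  have := Fact.mk hr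
  have c := (p.coprime_pgroup h.pE).symm
  obtain ⟨P, s, n⟩ := Syl.exists_inv r le_normalizer_of_normal c (.inl (pgroup_sol h.pE))
  refine s.ne_bot' d (le_bot_iff.1 (coprime_abelian_gen_cent1 (abelian_iff.2 h.com) (fun c => ?_) n
    (coprime_mono c le_rfl s.le) fun e he e1 => ?_))
  · obtain ⟨a, ha, e⟩ := cyclic_iff.1 c
    have := Nat.le_of_dvd (by norm_num) (orderOf_dvd_of_pow_eq_one (h.exp a ha))
    rw [← Nat.card_zpowers, e, h.cE] at this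
    omega
  have : IsPGroup 2 ↥(R ⊓ 𝐂[e]) := by
    rcases h.cls e he e1 with c | c <;> obtain ⟨g, rfl⟩ := isConj_iff.1 c <;>
      rw [← conj_cent1, ← Transfer.conj_eq_self_of_normal g R, ← Transfer.conj_inf, pgroup_conj]
    exacts [pgroup_of_le (.of_card (n := 1) h.cz) (h.inf_y p), (h.inf_x p hz).1]
  exact ((p'_of_pgroup (pgroup_of_le this (inf_le_inf_right _ s.le)) (Ne.symm r2)).eq_bot
    (by rw [compl_compl]; exact PiGrp.p_iff.2 (pgroup_of_le s.pgroup inf_le_left))).le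

theorem quot : ∃ (R : Subgroup G) (_ : R.Normal) (j : ℕ), IsPGroup 2 R ∧ z ∈ R ∧
    R ⊓ 𝐂[y] = zpowers z ∧ Nat.card ↥(R ⊓ 𝐂[x]) * 8 ^ j = 128 ∧
      Kl (E.map (QuotientGroup.mk' R)) (QuotientGroup.mk' R y) (QuotientGroup.mk' R x) j := by
  have hR := Nml.top_iff.1 (pcore_nml {7}ᶜ (⊤ : Subgroup G))
  have p := pcore_pi {7}ᶜ (⊤ : Subgroup G)
  have mx : ∀ K, PiGrp {7}ᶜ K → Nml K ⊤ → K ≤ _ := fun K => pcore_max (π := {7}ᶜ) (H := (⊤ : Subgroup G))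
  generalize 𝐎({7}ᶜ, (⊤ : Subgroup G)) = R at hR p mx
  have hz : zpowers z ≤ R := mx _ (PiGrp.p'_iff.2 (by rw [h.cz]; norm_num)) (Nml.of_cent (cent_symm (h.z_cen _)) le_top)
  obtain ⟨j, j2, e⟩ := (h.inf_x p (hz (mem_zpowers z))).2
  have hf := QuotientGroup.mk'_surjective R
  have k := QuotientGroup.ker_mk' R
  have t := h.toTw.map hf (k.symm ▸ p)
  refine ⟨R, hR, j, h.two p (hz (mem_zpowers z)), hz (mem_zpowers z), le_antisymm (h.inf_y p) (le_inf hz (h.z_cen1 _)), e,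
    t, fun N hN n => ?_, ⟨orderOf_eq_prime (t.exp _ t.yE) t.y1, ?_, ?_⟩, ?_, j2⟩
  · rw [← map_comap_eq_self_of_surjective hf N, Subgroup.map_eq_bot_iff, k]
    exact mx _ (.of_map (by rw [map_comap_eq_self_of_surjective hf]; exact PiGrp.p'_iff.2 n)
      (p.of_le (inf_le_right.trans k.le))) (Nml.top_iff.2 inferInstance)
  · obtain ⟨φ, hφ, e⟩ := h.Cy
    have c := cent_map hf (k.symm ▸ p) (h.exp y h.yE)
    let g : 𝐂[y] →* 𝐂[QuotientGroup.mk' R y] :=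
      ((QuotientGroup.mk' R).comp (𝐂[y]).subtype).codRestrict _ fun a => c.ge (mem_map_of_mem _ a.2)
    have hg : Surjective g := fun a => let ⟨b, hb, e⟩ := c.le a.2; ⟨⟨b, hb⟩, Subtype.ext e⟩
    have l : g.ker ≤ φ.ker := fun a ha => (e a).2 (mem_sup_right (h.inf_y p
      ⟨(QuotientGroup.eq_one_iff _).1 (congrArg Subtype.val ha), a.2⟩))
    have a := g.liftOfRightInverse_comp_apply _ (rightInverse_surjInv hg) ⟨φ, l⟩
    refine ⟨_, fun b => let ⟨c, hc⟩ := hφ b; ⟨_, (a c).trans hc⟩, fun b => ?_⟩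
    obtain ⟨b, rfl⟩ := hg b
    rw [a, e, ← MonoidHom.map_zpowers, ← sup_bot_eq (map _ _), ← (Subgroup.map_eq_bot_iff _).2 (hz.trans k.ge),
      ← Subgroup.map_sup]
    refine ⟨mem_map_of_mem _, fun ⟨d, hd, e⟩ => ?_⟩
    have : d⁻¹ * b ∈ R ⊓ 𝐂[y] := ⟨QuotientGroup.eq.1 e,
      (𝐂[y]).mul_mem (inv_mem (sup_le (zpowers_le.2 (self_mem_cent1 y)) (h.z_cen1 y) hd)) b.2⟩
    simpa using mul_mem hd (mem_sup_right (h.inf_y p this))
  · obtain ⟨u, u1, u2⟩ := t.exists_u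
    exact ⟨u, cent_le_cent1 t.yE (t.com u1), t.exp u u1, u2⟩
  · have := Core.card_map_mul_card_inf_ker (QuotientGroup.mk' R) 𝐂[x]
    rw [← cent_map hf (k.symm ▸ p) (h.exp x h.xE), k, inf_comm, h.cx] at this
    refine Nat.eq_of_mul_eq_mul_right (Nat.card_pos (α := ↥(R ⊓ 𝐂[x]))) ?_
    rw [this, mul_assoc, mul_comm (8 ^ j), e]; norm_num

theorem eq_top (h1 : IsPGroup 2 R) [IsSimpleGroup (G ⧸ R)]
    {N : Subgroup G} [N.Normal] (h2 : E ≤ N) (h3 : z ∈ N) : N = ⊤ := by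
  have p : PiGrp {7}ᶜ R := p'_of_pgroup h1 (by norm_num)
  have hf := QuotientGroup.mk'_surjective R
  have t : N.map (QuotientGroup.mk' R) = ⊤ := (Normal.map inferInstance _ hf).eq_bot_or_eq_top.resolve_left fun b =>
    h.y1 (mem_bot.1 (((PiGrp.p_iff.2 h.pE).inf_eq_bot p).le
      ⟨h.yE, (QuotientGroup.eq_one_iff y).1 (mem_bot.1 (b.le (mem_map_of_mem _ (h2 h.yE))))⟩))
  have l : R ≤ N := by
    rw [← coprime_cent_prod le_normalizer_of_normal (p.coprime_pgroup h.pE).symm (.inl (pgroup_sol h.pE))]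
    exact sup_le ((commutator_mono le_rfl h2).trans (commutator_le_right _ _))
      ((inf_le_inf_left _ (cent_le_cent1 h.yE)).trans ((h.inf_y p).trans (zpowers_le.2 h3)))
  rw [← comap_map_eq_self ((QuotientGroup.ker_mk' R).le.trans l), t, comap_top]

end Cz

end Cfsg.Lib.M7
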