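import Cfsg.Agent.Lib.M7.D1
import Cfsg.Agent.Lib.Extraspecial.Coprime
import Cfsg.Agent.Lib.Extraspecial.Hall
import Cfsg.Agent.Lib.Coprime.Lift
import Cfsg.Agent.Lib.Leech.Co1

/-! M7/D2: `R` is extraspecial of order `2²⁵` and plus type.  Wielandt's formula for `E` gives `|M| ∈ {2, 2¹³, 2²⁵}` for normal `⟨z⟩ ≤ M ≤ R`; `Co₁` does not act faithfully on `2¹²`.
The groups `R ⊓ C(e)`, `e ~ x`, of four distinct lines commute; the product of their elementary abelian subgroups of order 16 has order `2¹³`. -/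

set_option autoImplicit false

namespace Cfsg.Lib.M7

open Subgroup Function Cfsg.Lib.BG Cfsg.Lib.PGroup
open scoped commutatorElement Cfsg.Lib.Transfer

variable {G : Type*} [Group G] [Finite G] {E : Subgroup G} {z y x : G}

theorem Tw.wiel (h : Tw E y x) {V : Subgroup G} [V.Normal] (p : IsPGroup 2 V) {a b c d : ℕ}
    (ha : Nat.card ↥(V ⊓ 𝐂[y]) = 2 ^ a) (hb : Nat.card ↥(V ⊓ 𝐂[x]) = 2 ^ b) (hc : Nat.card ↥(V ⊓ 𝐂(E)) = 2 ^ c)
    (hd : Nat.card V = 2 ^ d) : 4 * a + 4 * b = d + 7 * c := by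
  classical
  obtain ⟨χ, -, k⟩ := Coprime.exists_character_fixed' 2 (M := E) (V := V) le_normalizer_of_normal
    (coprime_pgroups h.pE p (by norm_num)) (pgroup_sol p)
  have := Fintype.ofFinite G
  have f : ∀ n, (2 ^ n).factorization 2 = n := fun n => by simp [Nat.prime_two.factorization_self]
  have h1 := k ⊥ bot_le
  have h2 := k _ le_rfl
  rw [Fintype.sum_unique, card_bot, cent_bot, inf_top_eq, hd, f, Nat.cast_one, one_mul] at h1
  rw [h.cE, hc, f] at h2
  replace h1 : χ 1 = d := h1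
  replace h2 : ∑ e, χ e = 49 * c := h2
  have h3 : ∀ (e : E) (w : G) (n : ℕ), w ≠ 1 → Nat.card ↥(V ⊓ 𝐂[w]) = 2 ^ n → IsConj w e →
      ∑ i ∈ Finset.range 7, χ (e ^ i) = 7 * n := fun e w n w1 hw c => by
    have := k (zpowers (e : G)) (zpowers_le.2 e.2)
    have o : orderOf (e : G) = 7 := orderOf_eq_prime (h.exp e e.2) fun e1 => w1 (isConj_one_left.1 (e1 ▸ c))
    obtain ⟨g, hg⟩ := isConj_iff.1 c
    rw [cent_zpowers, ← (finEquivZPowers (isOfFinOrder_of_finite (e : G))).sum_comp, Nat.card_zpowers,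
      show Nat.card ↥(V ⊓ 𝐂[(e : G)]) = 2 ^ n by
        rw [← hg, ← conj_cent1, ← Transfer.conj_eq_self_of_normal g V, ← Transfer.conj_inf, Transfer.card_conj, hw], f] at this
    rw [← o, Finset.sum_range]
    exact this.trans (by rw [o]; rfl)
  have h4 : ∑ e : E, ∑ i ∈ Finset.range 7, χ (e ^ i) = 49 * d + 6 * (49 * c) := by
    rw [Finset.sum_comm, Finset.sum_range_succ', Finset.sum_congr (s₂ := Finset.range 6) rfl
      (f := fun i => ∑ e, χ (e ^ (i + 1))) (g := fun _ => 49 * c) fun i hi => h2 ▸ (powCoprime (n := i + 1) (by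
        have := Finset.mem_range.1 hi
        rw [h.cE]; interval_cases i <;> norm_num)).sum_comp χ]
    simp [h1, ← Nat.card_eq_fintype_card, h.cE, add_comm]
  have c1 : (Finset.univ.filter fun e : E => IsConj y e).card = 24 := by
    rw [← h.cy, ← Set.ncard_coe_finset, ← Set.ncard_image_of_injective _ Subtype.val_injective]
    congr 1
    ext e
    simp [and_comm]
  have m : (1 : E) ∈ Finset.univ.filter fun e : E => ¬ IsConj y e := by simpa using h.y1
  have c2 := Finset.card_filter_add_card_filter_not (s := Finset.univ) fun e : E => IsConj y e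
  rw [← Finset.sum_filter_add_sum_filter_not _ fun e : E => IsConj y e, ← Finset.add_sum_erase _ _ m,
    Finset.sum_congr rfl fun e he => h3 e y a h.y1 ha (Finset.mem_filter.1 he).2,
    Finset.sum_congr rfl fun e he => h3 e x b h.x1 hb ((h.cls e e.2 fun c => (Finset.mem_erase.1 he).1
      (Subtype.ext c)).resolve_left (Finset.mem_filter.1 (Finset.mem_erase.1 he).2).2)] at h4
  rw [c1, Finset.card_univ, ← Nat.card_eq_fintype_card, h.cE] at c2
  simp only [Finset.sum_const, Finset.card_erase_of_mem m, c1, one_pow, h1, Finset.card_range,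
    show (Finset.univ.filter fun e : E => ¬ IsConj y e).card = 25 by omega, nsmul_eq_mul] at h4
  refine Nat.cast_injective (R := ℂ) ?_
  push_cast at h4 ⊢
  linear_combination h4 / 42

theorem elem_sup {A B : Subgroup G} (a : IsElementaryAbelian 2 A) (b : IsElementaryAbelian 2 B) (c : B ≤ 𝐂(A)) :
    IsElementaryAbelian 2 (A ⊔ B) := ⟨abelian_sup a.1 b.1 (cent_symm c), fun g hg => by
  obtain ⟨u, hu, v, hv, rfl⟩ := (mem_sup_left_norm (norm_of_cent c)).1 hg
  rw [Commute.mul_pow (c hv u hu), a.2 u hu, b.2 v hv, mul_one]⟩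

namespace Cz
variable (h : Cz z E y x) {R : Subgroup G} [hR : R.Normal] (h1 : IsPGroup 2 R) (h2 : z ∈ R)
    (h3 : R ⊓ 𝐂[y] = zpowers z) (h4 : Nat.card ↥(R ⊓ 𝐂[x]) = 128)
include h

theorem nz : (zpowers z).Normal := Nml.top_iff.1 (Nml.of_cent (cent_symm (h.z_cen _)) le_top)

include h1 h3 h4 in
theorem card_cases {M : Subgroup G} [M.Normal] (l : zpowers z ≤ M) (u : M ≤ R) :
    Nat.card M = 2 ∨ Nat.card M = 2 ^ 13 ∨ Nat.card M = 2 ^ 25 ∧ 128 ≤ Nat.card ↥(M ⊓ 𝐂[x]) := by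
  have p := pgroup_of_le h1 u
  have e : ∀ {B}, B ≤ 𝐂[y] → zpowers z ≤ B → Nat.card ↥(M ⊓ B) = 2 ^ 1 := fun b c => by
    rw [le_antisymm ((inf_le_inf u b).trans h3.le) (le_inf l c), h.cz]; rfl
  obtain ⟨b, hb⟩ := IsPGroup.iff_card.1 (pgroup_of_le p (inf_le_left (b := 𝐂[x])))
  obtain ⟨d, hd⟩ := IsPGroup.iff_card.1 p
  have w := h.wiel p (e le_rfl (h.z_cen1 _)) hb (e (cent_le_cent1 h.yE) (h.z_cen _)) hd
  have m := Transfer.card_modEq_card_inf_centralizer (pg7 (h.exp y h.yE)) (T := M ⊓ 𝐂[x])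
    (norm_inf le_normalizer_of_normal (le_norm_of_le (zpowers_le.2 (cent_le_cent1 h.xE (h.com h.yE)))))
  rw [cent_zpowers, inf_assoc, e inf_le_right (le_inf (h.z_cen1 _) (h.z_cen1 _)), hb] at m
  have c := card_le_of_le (inf_le_inf_right 𝐂[x] u)
  rw [hb, h4] at c
  have : b ≤ 7 := (Nat.pow_le_pow_iff_right (by norm_num : 1 < 2)).1 c
  rw [hd, hb, show d = 4 * b - 3 by omega]
  interval_cases b <;> first | exact absurd m (by decide) | decide

include h4 in
theorem stab_le [IsSimpleGroup (G ⧸ R)] {M : Subgroup G} [M.Normal] (u : M ≤ R) (c : ⁅M, R⁆ ≤ zpowers z)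
    (b : 128 < Nat.card M) : commStab (zpowers z) M = R := by
  have := h.nz
  have n : (commStab (zpowers z) M).Normal :=
    Nml.top_iff.1 ⟨le_top, le_normalizer_commStab le_normalizer_of_normal le_normalizer_of_normal⟩
  have l := (QuotientGroup.ker_mk' R).le.trans (le_commStab le_normalizer_of_normal c)
  rcases (n.map _ (QuotientGroup.mk'_surjective R)).eq_bot_or_eq_top with e | e
  · exact le_antisymm (((Subgroup.map_eq_bot_iff _).1 e).trans (QuotientGroup.ker_mk' R).le)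
      ((QuotientGroup.ker_mk' R).ge.trans l)
  · have t : zpowers x ≤ commStab (zpowers z) M := by rw [← comap_map_eq_self l, e, comap_top]; exact le_top
    have := card_le_of_le (le_inf u (cent_zpowers x ▸ cent_symm (stable_factor_cent (commutator_le_of_le_commStab t)
      (cent_symm (h.z_cen _)) (coprime_pgroups (q := 2) (pg7 (h.exp x h.xE)) (.of_card (n := 1) h.cz) (by norm_num)))))
    omega

include h1 h3 h4 in
theorem eq_R (h5 : Spor.IsoCo1 (G ⧸ R)) {M : Subgroup G} [M.Normal] (l : zpowers z < M) (u : M ≤ R) :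
    M = R ∧ ⁅R, R⁆ ≤ zpowers z ∧ ∀ r ∈ R, r ^ 2 ∈ zpowers z := by
  obtain ⟨j⟩ := h5
  have := h.nz
  have := Leech.simple_Co1
  have := j.isSimpleGroup
  have hf := QuotientGroup.mk'_surjective (zpowers z)
  have k := QuotientGroup.ker_mk' (zpowers z)
  obtain ⟨N, hN, n⟩ := Core.exists_isMinNormal_le (Normal.map ‹M.Normal› _ hf) fun e =>
    l.not_ge (((Subgroup.map_eq_bot_iff _).1 e).trans k.le)
  have := hN.normal
  have := hR.map _ hf
  have n' := n.trans (map_mono u)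
  have el := hN.isElementaryAbelian_of_isPGroup (pgroup_of_le (h1.map _) n')
  have c := hN.eq_of_le inferInstance (nil_meet_center (pgroup_nil (h1.map _)) n' le_normalizer_of_normal hN.ne_bot)
    inf_le_left
  have u1 : N.comap (QuotientGroup.mk' (zpowers z)) ≤ M := by
    rw [← comap_map_eq_self (k.le.trans l.le)]; exact comap_mono n
  have l1 : zpowers z ≤ N.comap (QuotientGroup.mk' (zpowers z)) := k.ge.trans (ker_le_comap _ _)
  have c1 : ⁅N.comap (QuotientGroup.mk' (zpowers z)), R⁆ ≤ zpowers z := by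
    refine le_trans ((Subgroup.map_eq_bot_iff _).1 ?_) k.le
    rw [map_commutator, map_comap_eq_self_of_surjective hf, comm_eq_bot_iff]
    exact c.ge.trans inf_le_right
  have s : ∀ r ∈ N.comap (QuotientGroup.mk' (zpowers z)), r ^ 2 ∈ zpowers z := fun r hr =>
    k.le ((map_pow _ r 2).trans (el.2 _ hr))
  have e : N.comap (QuotientGroup.mk' (zpowers z)) = R := by
    rcases h.card_cases h1 h3 h4 l1 (u1.trans u) with e | e | e
    · refine absurd ?_ hN.ne_bot
      rw [← map_comap_eq_self_of_surjective hf N, ← eq_of_card_le l1 (e.trans h.cz.symm).le, Subgroup.map_eq_bot_iff, k]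
    · have r := BG.card_mul_relIndex l1
      rw [h.cz, e] at r
      have := relIndex_commStab_dvd_card_GL (A := ⊤) (n := 12) l1 ((commutator_mono le_rfl (u1.trans u)).trans c1) s
        le_normalizer_of_normal le_normalizer_of_normal (by omega)
      rw [h.stab_le h4 (u1.trans u) c1 (by omega), relIndex_top_right, index_eq_card, Nat.card_congr j.toEquiv,
        Leech.card_Co1, card_GL_zmod] at this
      exact absurd this (by simp [Fin.prod_univ_succ])
    · rcases h.card_cases h1 h3 h4 (l.le.trans u) le_rfl with f | f | f <;>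
        have := card_le_of_le (u1.trans u) <;> exact eq_of_card_le (u1.trans u) (by omega)
  exact ⟨le_antisymm u (e ▸ u1), by nth_rw 1 [← e]; exact c1, e ▸ s⟩

include h1 h4 in
theorem dat {e : G} (c : IsConj x e) : IsExtraspecial 2 ↥(R ⊓ 𝐂[e]) ∧
    ∃ F ≤ R ⊓ 𝐂[e], zpowers z ≤ F ∧ IsElementaryAbelian 2 F ∧ Nat.card F = 16 := by
  obtain ⟨g, rfl⟩ := isConj_iff.1 c
  obtain ⟨R', F, -, r2, r3, r4, r5, r6, r7, r8⟩ := h.Qx
  obtain rfl := eq_of_card_le (r8 _ ((Nml.top_iff.2 hR).inf_right le_top) (pgroup_of_le h1 inf_le_left)) (by rw [r3, h4]; rfl)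
  rw [← conj_cent1, ← Transfer.conj_eq_self_of_normal g R, ← Transfer.conj_inf]
  refine ⟨ES.isExtraspecial_congr (equivMapOfInjective _ _ (MulAut.conj g).injective) r2, g ⋆ F, Transfer.conj_mono g r4,
    zpowers_le.2 (Transfer.mem_conj.2 (by rwa [mul_assoc, ← mem_center_iff.1 h.zc g, inv_mul_cancel_left])),
    ⟨abelian_map _ r6.1, ?_⟩, (Transfer.card_conj g F).trans r7⟩
  rintro _ ⟨a, ha, rfl⟩
  rw [← map_pow, r6.2 a ha, map_one]

include h1 h2 h3 h4

theorem mt (h5 : Spor.IsoCo1 (G ⧸ R)) : Mt G := by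
  have l := zpowers_le.2 h2
  have c := card_le_of_le (inf_le_left : R ⊓ 𝐂[x] ≤ R)
  have ne : R ≠ zpowers z := fun e => by rw [h4, e, h.cz] at c; omega
  obtain ⟨-, k1, k2⟩ := h.eq_R h1 h3 h4 h5 (lt_of_le_of_ne l ne.symm) le_rfl
  have zR : R ⊓ 𝐂(R) = zpowers z := ((le_inf l (h.z_cen R)).eq_or_lt.resolve_right fun e => ES.not_isMulCommutative
    (h.dat h1 h4 (.refl x)).1 (abelian_of_le (abelian_iff.2
      ((h.eq_R h1 h3 h4 h5 e inf_le_left).1.ge.trans inf_le_right)) inf_le_left)).symm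
  have es := ES.isExtraspecial_of_card h1 h.cz zR k1 k2 ne
  have cR : Nat.card R = 2 ^ 25 := by
    have := h.wiel h1 (a := 1) (b := 7) (c := 1) (by rw [h3, h.cz]; rfl) h4 (by
      rw [le_antisymm ((inf_le_inf_left R (cent_le_cent1 h.yE)).trans h3.le) (le_inf l (h.z_cen _)), h.cz]; rfl)
      (IsPGroup.iff_card.1 h1).choose_spec
    rw [(IsPGroup.iff_card.1 h1).choose_spec]
    congr 1
    omega
  have cm : ∀ {e f}, e ∈ E → IsConj x e → f ∈ E → f ∉ zpowers e → R ⊓ 𝐂[e] ≤ 𝐂(R ⊓ 𝐂[f]) := fun {e f} he ce hf n => by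
    have p := pg7 (h.exp e he)
    have o : Nat.card (zpowers e) = 7 := by
      rw [Nat.card_zpowers, orderOf_eq_prime (h.exp e he) fun c => h.x1 (isConj_one_left.1 (c ▸ ce))]
    have eE := eq_of_lt_of_card fact7.out (left_lt_sup.2 fun c => n (c (mem_zpowers f)))
      (sup_le (zpowers_le.2 he) (zpowers_le.2 hf)) (by rw [h.cE, o])
    rw [← coprime_cent_prod (A := zpowers e) (K := R ⊓ 𝐂[f]) (norm_inf le_normalizer_of_normal
      (le_norm_of_le (zpowers_le.2 (cent_le_cent1 hf (h.com he))))) (coprime_pgroups p (pgroup_of_le h1 inf_le_left)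
        (by norm_num)) (.inl (pgroup_sol p)), ← cent_zpowers e]
    refine le_cent_sup ((ES.cop_comm es (zR ▸ cent_symm (h.z_cen _))).trans (cent_anti (commutator_mono inf_le_left le_rfl)))
      (cent_symm (le_trans ?_ (h.z_cen _)))
    rw [inf_assoc, ← cent_zpowers, inf_comm 𝐂(zpowers f), ← cent_sup, eE, ← h3]
    exact inf_le_inf_left R (cent_le_cent1 h.yE)
  have st : ∀ {B : Subgroup G} {e}, IsConj x e → B ≤ R → zpowers z ≤ B → IsElementaryAbelian 2 B → B ≤ 𝐂(R ⊓ 𝐂[e]) →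
      ∃ D ≤ B ⊔ R ⊓ 𝐂[e], zpowers z ≤ D ∧ IsElementaryAbelian 2 D ∧ Nat.card D = 8 * Nat.card B := fun {B e} c b1 b2 b3 b4 => by
    obtain ⟨s, F, f1, f2, f3, f4⟩ := h.dat h1 h4 c
    have d := cent_symm (b4.trans (cent_anti f1))
    have := Coprime.card_sup_mul_card_inf (norm_of_cent d)
    rw [f4, ← eq_of_card_le (le_inf b2 f2) (by
      rw [h.cz, ← s.2, ← card_map_of_injective (subtype_injective _)]
      exact card_le_of_le fun a ha => ⟨⟨a, f1 ha.2⟩, mem_center_iff.2 fun b => Subtype.ext (b4 ha.1 b b.2), rfl⟩), h.cz] at this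
    exact ⟨_, sup_le_sup_left f1 _, le_sup_of_le_left b2, elem_sup b3 f3 d, by omega⟩
  have nx : ∀ a ∈ E, ∀ b ∈ E, ∀ c ∈ E, ∃ e ∈ E, IsConj x e ∧ e ∉ zpowers a ∧ e ∉ zpowers b ∧ e ∉ zpowers c :=
    fun a ha b hb c hc => by
    have k : ∀ a ∈ E, (zpowers a : Set G).ncard ≤ 7 := fun a ha => (Nat.card_zpowers a).le.trans
      (orderOf_le_of_pow_eq_one (by norm_num) (h.exp a ha))
    obtain ⟨f, ⟨f1, f2⟩, f3⟩ := Set.exists_mem_notMem_of_ncard_lt_ncard (s := (zpowers a : Set G) ∪ (zpowers b ∪ zpowers c))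
      (((Set.ncard_union_le _ _).trans (Nat.add_le_add (k a ha) ((Set.ncard_union_le _ _).trans
        (Nat.add_le_add (k b hb) (k c hc))))).trans_lt (lt_of_lt_of_le (by norm_num) h.cx'))
    exact ⟨f, f1, f2, fun c => f3 (.inl c), fun c => f3 (.inr (.inl c)), fun c => f3 (.inr (.inr c))⟩
  obtain ⟨a, a1, a2, a3, -⟩ := nx x h.xE x h.xE x h.xE
  obtain ⟨b, b1, b2, b3, b4, -⟩ := nx x h.xE a a1 x h.xE
  obtain ⟨d, d1, d2, d3, d4, d5⟩ := nx x h.xE a a1 b b1
  obtain ⟨-, F, f1, f2, f3, f4⟩ := h.dat h1 h4 (.refl x)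
  obtain ⟨F₂, g1, g2, g3, g4⟩ := st a2 (f1.trans inf_le_left) f2 f3 (f1.trans (cm h.xE (.refl x) a1 a3))
  replace g1 := g1.trans (sup_le_sup_right f1 _)
  obtain ⟨F₃, i1, i2, i3, i4⟩ := st b2 (g1.trans (sup_le inf_le_left inf_le_left)) g2 g3
    (g1.trans (sup_le (cm h.xE (.refl x) b1 b3) (cm a1 a2 b1 b4)))
  replace i1 := i1.trans (sup_le_sup_right g1 _)
  have i5 := i1.trans (sup_le (sup_le inf_le_left inf_le_left) inf_le_left)
  obtain ⟨F₄, j1, j2, j3, j4⟩ := st d2 i5 i2 i3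
    (i1.trans (sup_le (sup_le (cm h.xE (.refl x) d1 d3) (cm a1 a2 d1 d4)) (cm b1 b2 d1 d5)))
  refine ⟨R, hR, es, cR, ⟨F₄.subgroupOf R, elemAb_subgroupOf j3 R, ?_⟩, ?_, h5⟩
  · rw [Nat.card_congr (subgroupOfEquivOfLe (j1.trans (sup_le i5 inf_le_left))).toEquiv, j4, i4, g4, f4]; rfl
  · obtain ⟨j⟩ := h5
    have := h.nz
    have := Leech.simple_Co1
    have := j.isSimpleGroup
    exact (le_commStab le_normalizer_of_normal ((comm_eq_bot_iff'.2 le_rfl).le.trans bot_le)).trans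
      (h.stab_le h4 le_rfl k1 (by omega)).le

end Cz

end Cfsg.Lib.M7
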