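import Cfsg.Agent.Lib.BG.Defs
import Cfsg.Prelude.Def_Solvable
import Cfsg.Prelude.Def_Transfer
import Cfsg.Prelude.Def_SporadicB
import Cfsg.Prelude.Def_Classification2
import Cfsg.Prelude.Def_Spor_Conway
import Cfsg.Prelude.Def_Spor_He

/-! 7-local recognition of the Monster (S3024, helper29): the interfaces. See docs/M7.md.
`Hy` = hypothesis; `L0`, `L1`, `L2` = local structure of `N(Z₁)`, `N(Z₂)`, orbits on `Q`;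
`Cz` = 7-local data of the involution centraliser, `Kl` = the same modulo `O_{7'}`. -/

set_option autoImplicit false

namespace Cfsg.Lib.M7

open Subgroup Function Cfsg.Lib.BG
open scoped commutatorElement

/-- `A₇`. -/
abbrev A7 := alternatingGroup (Fin 7)

variable {G : Type*} [Group G]

/-- The subgroup generated by the 7-elements of `N`. -/
def O7 (N : Subgroup G) : Subgroup G := closure {g | g ∈ N ∧ ∃ n : ℕ, g ^ 7 ^ n = 1}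

theorem O7_le (N : Subgroup G) : O7 N ≤ N := (closure_le _).2 fun _ h => h.1

/-- The hypothesis of S3024 (without the K-condition). -/
structure Hy [Finite G] (S : Sylow 7 G) (Z₁ Z₂ Q K A₃ A₅ : Subgroup G) : Prop where
  eZ₁ : Z₁ = (S : Subgroup G) ⊓ 𝐂((S : Subgroup G))
  cZ₁ : Nat.card Z₁ = 7
  eZ₂ : Z₂ = (Subgroup.upperCentralSeries ↥(S : Subgroup G) 2).map (S : Subgroup G).subtype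
  cZ₂ : Nat.card Z₂ = 49
  ch : centralizer (pCore 7 𝐍(Z₁) : Set 𝐍(Z₁)) ≤ pCore 7 𝐍(Z₁)
  QK : Q ≤ K
  KN : K ≤ 𝐍(Z₁)
  Qn : (Q.subgroupOf 𝐍(Z₁)).Normal
  Kn : (K.subgroupOf 𝐍(Z₁)).Normal
  es : IsExtraspecial 7 Q
  cQ : Nat.card Q = 7 ^ 5
  exp : ∀ x ∈ Q, x ^ 7 = 1
  KQ : ∃ _ : (Q.subgroupOf K).Normal, IsNonsplitDoubleCover (↥K ⧸ Q.subgroupOf K) A7
  NK : ∃ _ : (K.subgroupOf 𝐍(Z₁)).Normal, IsCyclic (↥𝐍(Z₁) ⧸ K.subgroupOf 𝐍(Z₁)) ∧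
    Nat.card (↥𝐍(Z₁) ⧸ K.subgroupOf 𝐍(Z₁)) = 6
  h35 : A₃ < A₅
  h5N : A₅ ≤ 𝐍(Z₂)
  n3 : (A₃.subgroupOf 𝐍(Z₂)).Normal
  n5 : (A₅.subgroupOf 𝐍(Z₂)).Normal
  c3 : Nat.card A₃ = 7 ^ 3
  c5 : Nat.card A₅ = 7 ^ 5
  gl : ∃ _ : (A₅.subgroupOf 𝐍(Z₂)).Normal,
    Nonempty (↥𝐍(Z₂) ⧸ A₅.subgroupOf 𝐍(Z₂) ≃* GL (Fin 2) (ZMod 7))
  o7 : pCore 7 ↥(𝐍(Z₁) ⊔ 𝐍(Z₂)) = ⊥

/-- The structure of `N(Z₁)`: `φ : K → A₇` has kernel `Q⟨z⟩`, `z` inverts `V = Q/Z₁`. -/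
structure L0 (S Z₁ Z₂ Q K : Subgroup G) (z : G) (φ : K →* A7) : Prop where
  pS : IsPGroup 7 S
  iS : ¬ 7 ∣ S.index
  cS : Nat.card S = 7 ^ 6
  cZ₁ : Nat.card Z₁ = 7
  cZ₂ : Nat.card Z₂ = 49
  cQ : Nat.card Q = 7 ^ 5
  cK : Nat.card K = 7 ^ 5 * 5040
  cN : Nat.card 𝐍(Z₁) = 7 ^ 5 * 30240
  es : IsExtraspecial 7 Q
  exp : ∀ q ∈ Q, q ^ 7 = 1
  ZQ : 𝐂(Q) = Z₁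
  ZS : S ⊓ 𝐂(S) = Z₁
  cm : ∀ q ∈ Q, ∀ r ∈ Q, ⁅q, r⁆ ∈ Z₁
  Z12 : Z₁ ≤ Z₂
  Z2Q : Z₂ ≤ Q
  QS : Q ≤ S
  SK : S ≤ K
  KC : K ≤ 𝐂(Z₁)
  NQ : 𝐍(Z₁) ≤ 𝐍(Q)
  NK : 𝐍(Z₁) ≤ 𝐍(K)
  Z2 : ∀ g ∈ S, g ∈ Z₂ ↔ ∀ s ∈ S, ⁅g, s⁆ ∈ Z₁
  fix : ∀ u ∈ S, u ∉ Q → ∀ q ∈ Q, ⁅q, u⁆ ∈ Z₁ → q ∈ Z₂
  ff : ∀ g ∈ 𝐍(Z₁), (∀ q ∈ Q, ⁅g, q⁆ ∈ Z₁) → g ∈ Q
  surj : Surjective φ
  zK : z ∈ K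
  oz : orderOf z = 2
  ker : ∀ k : K, φ k = 1 ↔ (k : G) ∈ Q ∨ (k : G) * z ∈ Q
  inv : ∀ q ∈ Q, z * q * z⁻¹ * q ∈ Z₁
  uq : ∀ k : K, (k : G) * k ∈ Q → φ k = 1
  zN : ∀ g ∈ 𝐍(Z₁), g * z * g⁻¹ * z ∈ Q

/-- The structure of `N(Z₂)`: `A₅ = C_S(Z₂)`, `A₃ = Z₃(S)`, and `SL₂(7)` is induced on `Z₂`. -/
structure L1 (S Z₁ Z₂ Q K A : Subgroup G) (z : G) (φ : K →* A7) : Prop extends L0 S Z₁ Z₂ Q K z φ where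
  CK : 𝐂(Z₁) = K
  cA : Nat.card A = 343
  Z2A : Z₂ ≤ A
  AQ : A ≤ Q
  CA : 𝐂(A) = A
  Z3 : ∀ q ∈ Q, q ∈ A ↔ ∀ s ∈ S, ⁅q, s⁆ ∈ Z₂
  c5 : Nat.card ↥(S ⊓ 𝐂(Z₂)) = 7 ^ 5
  SN : S ≤ 𝐍(Z₂)
  N3 : 𝐍(Z₂) ≤ 𝐍(A)
  N5 : 𝐍(Z₂) ≤ 𝐍(S ⊓ 𝐂(Z₂))
  cN2 : Nat.card 𝐍(Z₂) = 7 ^ 6 * 288
  cN12 : Nat.card ↥(𝐍(Z₁) ⊓ 𝐍(Z₂)) = 7 ^ 6 * 36
  tr : ∀ v ∈ Z₂, v ≠ 1 → ∀ w ∈ Z₂, w ≠ 1 → ∃ g ∈ O7 𝐍(Z₂), g * v * g⁻¹ = w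
  dg : ∀ i j : ℕ, i * j % 7 = 1 → ∃ g ∈ O7 𝐍(Z₂), (∀ a ∈ Z₁, g * a * g⁻¹ = a ^ i) ∧
    ∀ b ∈ Z₂, g * b * g⁻¹ * (b ^ j)⁻¹ ∈ Z₁
  o7 : ∀ N : Subgroup G, N.Normal → IsPGroup 7 N → N = ⊥

/-- The special elements of `Q`. -/
def Sp (Z₁ Z₂ : Subgroup G) : Set G := {q | ∃ g ∈ 𝐍(Z₁), ∃ v ∈ Z₂, v ∉ Z₁ ∧ g * v * g⁻¹ = q}

/-- The two orbits of `N(Z₁)` on `Q ∖ Z₁`; `x` is not special. -/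
structure L2 (S Z₁ Z₂ Q K A : Subgroup G) (z : G) (φ : K →* A7) (x : G) : Prop
    extends L1 S Z₁ Z₂ Q K A z φ where
  xA : x ∈ A
  xZ : x ∉ Z₂
  trx : ∀ v ∈ Z₂, v ≠ 1 → ∀ w ∈ Z₂, w ≠ 1 → ∃ g ∈ O7 (𝐍(Z₂) ⊓ 𝐂[x]), g * v * g⁻¹ = w
  dgx : ∀ i j : ℕ, i * j % 7 = 1 → ∃ g ∈ O7 (𝐍(Z₂) ⊓ 𝐂[x]), (∀ a ∈ Z₁, g * a * g⁻¹ = a ^ i) ∧
    ∀ b ∈ Z₂, g * b * g⁻¹ * (b ^ j)⁻¹ ∈ Z₁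
  nb : ∀ y ∈ A, y ∉ Z₂ → ∀ a ∈ Z₁, ¬ IsConj y a
  cSp : (Sp Z₁ Z₂).ncard = 5040
  dich : ∀ q ∈ Q, q ∉ Z₁ → q ∉ Sp Z₁ Z₂ → ∃ g ∈ 𝐍(Z₁), g * x * g⁻¹ = q
  cx : Nat.card ↥(𝐍(Z₁) ⊓ 𝐂[x]) = 7 ^ 4 * 18
  two : ∃ d ∈ 𝐍(Z₁) ⊓ 𝐂[x], d ∉ 𝐍(A)

/-- The 7-local data of `C(x)/⟨x⟩`. -/
structure B0 (P Z W : Subgroup G) : Prop where
  cP : Nat.card P = 343
  iP : ¬ 7 ∣ P.index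
  es : IsExtraspecial 7 P
  exp : ∀ g ∈ P, g ^ 7 = 1
  eZ : P ⊓ 𝐂(P) = Z
  cZ : Nat.card Z = 7
  cm : ∀ q ∈ P, ∀ r ∈ P, ⁅q, r⁆ ∈ Z
  ZW : Z ≤ W
  WP : W ≤ P
  cW : Nat.card W = 49
  CW : 𝐂(W) = W
  CZ : 𝐂(Z) ≤ 𝐍(P)
  tr : ∀ v ∈ W, v ≠ 1 → ∀ w ∈ W, w ≠ 1 → ∃ g ∈ O7 𝐍(W), g * v * g⁻¹ = w
  dg : ∀ i j : ℕ, i * j % 7 = 1 → ∃ g ∈ O7 𝐍(W), (∀ a ∈ Z, g * a * g⁻¹ = a ^ i) ∧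
    ∀ b ∈ W, g * b * g⁻¹ * (b ^ j)⁻¹ ∈ Z
  cN : Nat.card 𝐍(P) = 343 * 18
  two : ∃ d ∈ 𝐍(P), d ∉ 𝐍(W)

/-- `C(x)/⟨x⟩ ≅ He`. -/
def CHe (x : G) : Prop := ∃ ψ : 𝐂[x] →* Spor.He, Surjective ψ ∧ ∀ c, ψ c = 1 ↔ (c : G) ∈ zpowers x

/-- `R = O₂(C)` is extraspecial of order `2⁷`, of plus type, with centre `⟨z⟩`. -/
def X7 (C : Subgroup G) (z : G) : Prop :=
  ∃ R F : Subgroup G, Nml R C ∧ IsExtraspecial 2 R ∧ Nat.card R = 2 ^ 7 ∧ F ≤ R ∧ z ∈ F ∧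
    IsElementaryAbelian 2 F ∧ Nat.card F = 2 ^ 4 ∧ ∀ D, Nml D C → IsPGroup 2 D → D ≤ R

/-- An elementary abelian Sylow 7-subgroup of order 49 meeting two classes in 24 elements each. -/
structure Tw (E : Subgroup G) (y x : G) : Prop where
  cE : Nat.card E = 49
  iE : ¬ 7 ∣ E.index
  exp : ∀ e ∈ E, e ^ 7 = 1
  com : E ≤ 𝐂(E)
  yE : y ∈ E
  xE : x ∈ E
  y1 : y ≠ 1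
  x1 : x ≠ 1
  nc : ¬ IsConj y x
  cls : ∀ e ∈ E, e ≠ 1 → IsConj y e ∨ IsConj x e
  cy : {e | e ∈ E ∧ IsConj y e}.ncard = 24
  px : IsConj x (x ^ 3)

/-- The involution centraliser: `C(y) = 7 × 2A₇`, `C(x) = 7 × 2^{1+6}L₃(2)`, `C(E) = E⟨z⟩`. -/
structure Cz (z : G) (E : Subgroup G) (y x : G) : Prop extends Tw E y x where
  zc : z ∈ center G
  oz : orderOf z = 2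
  Cy : ∃ φ : 𝐂[y] →* A7, Surjective φ ∧ ∀ c, φ c = 1 ↔ (c : G) ∈ zpowers y ⊔ zpowers z
  cx : Nat.card 𝐂[x] = 7 * 21504
  CE : Nat.card 𝐂(E) = 98
  Qx : X7 𝐂[x] z

/-- `C(y) = 7 × A₇`. -/
def C7 (y : G) : Prop :=
  orderOf y = 7 ∧ (∃ φ : 𝐂[y] →* A7, Surjective φ ∧ ∀ c, φ c = 1 ↔ (c : G) ∈ zpowers y) ∧
    ∃ u ∈ 𝐂[y], u ^ 7 = 1 ∧ u ∉ zpowers y

/-- The same modulo `O_{7'}`. -/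
structure Kl (E : Subgroup G) (y x : G) (j : ℕ) : Prop extends Tw E y x where
  o7 : ∀ N : Subgroup G, N.Normal → ¬ 7 ∣ Nat.card N → N = ⊥
  Cy : C7 y
  cx : Nat.card 𝐂[x] = 1176 * 8 ^ j
  j2 : j ≤ 2

/-- `G = 2^{1+24}_+ Co₁`, 2-constrained. -/
def Mt (G : Type*) [Group G] : Prop :=
  ∃ (R : Subgroup G) (_ : R.Normal), IsExtraspecial 2 R ∧ Nat.card R = 2 ^ 25 ∧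
    (∃ E : Subgroup R, IsElementaryAbelian 2 E ∧ Nat.card E = 2 ^ 13) ∧ 𝐂(R) ≤ R ∧ Spor.IsoCo1 (G ⧸ R)

end Cfsg.Lib.M7
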