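import Cfsg.Agent.Lib.M7.A3

/-! M7/Four: a line through the special point other than `A` has four special points.
`Z₄ = Q ⊓ C(Z₂)` has order `7⁴`.  For `u ∈ S∖Q` the conjugates `L_i = uⁱLu⁻ⁱ` (`i < 7`) are distinct (else `u`, and `Q`, normalise `L`, `[L,S] ≤ Z₂` as `|L:Z₂| = 7`, `L ≤ A` by `Z3`),
different from `A`, two of `A, L_i` meet in `Z₂` (orders), so the `L_i∖Z₂` partition `Z₄∖A` (`7·294`).  `Sp ⊓ A = Z₂∖Z₁` (`nb`, `tr`).  Hence with `m = |Sp ⊓ L|`,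
`a = |Sp ⊓ Z₄| = 42 + 7(m - 42)`.  Put `n w = |Sp ⊓ C(w)|` for `w ∈ Q∖Z₁`; it is `N₁`-invariant, `= a` on `Sp` (5040 elements; `C_Q(v) = Z₄` for `v ∈ Z₂∖Z₁`), `= c` on the other 11760 (`dich`).
Double counting (`card_cen1`, `card_cen`): `Σ n w = 5040·(2401-7)`; `Σ (n w)² = Σ_{s,s'} |C_Q(s,s')∖Z₁| = 5040·(42·2394 + 4998·336)` (for fixed `s` exactly the 42 elements of
`Z₁⟨s⟩∖Z₁`, all special, give `7⁴`; for the others `Z₁⟨s,s'⟩` has order `7³`).  So `3a + 7c = 7182`, `3a² + 7c² = 5339628`, i.e. `(a - 924)(5a - 2562) = 0`, `a = 924`, `m = 168`. -/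

set_option autoImplicit false

namespace Cfsg.Lib.M7

open Subgroup Function Cfsg.Lib.BG
open scoped commutatorElement

variable {G : Type*} [Group G] [Finite G] {S Z₁ Z₂ Q K A : Subgroup G} {z x : G} {φ : K →* A7}

omit [Group G] [Finite G] in
theorem sum_ite_ncard (F : Finset G) (p : G → Prop) [DecidablePred p] :
    ∑ w ∈ F, (if p w then 1 else 0) = {w | w ∈ F ∧ p w}.ncard := by
  rw [← Finset.card_filter, ← Set.ncard_coe_finset]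
  exact congrArg _ (Set.ext fun _ => by simp)

theorem L2.n4 (h : L2 S Z₁ Z₂ Q K A z φ x) : {q | q ∈ Sp Z₁ Z₂ ∧ q ∈ 𝐂(Z₂)}.ncard = 924 := by
  classical
  let T := (Set.toFinite {q | q ∈ Q ∧ q ∉ Z₁}).toFinset
  let P := (Set.toFinite (Sp Z₁ Z₂)).toFinset
  have mT : ∀ q, q ∈ T ↔ q ∈ Q ∧ q ∉ Z₁ := fun q => Set.Finite.mem_toFinset _
  have mP : ∀ q, q ∈ P ↔ q ∈ Sp Z₁ Z₂ := fun q => Set.Finite.mem_toFinset _
  have PT : P ⊆ T := fun q hq => (mT q).2 ⟨h.Sp_sub ((mP q).1 hq), Sp.not_mem ((mP q).1 hq)⟩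
  have cP : P.card = 5040 := (Set.ncard_eq_toFinset_card _ _).symm.trans h.cSp
  have cT : (T \ P).card = 11760 := by
    rw [Finset.card_sdiff_of_subset PT, cP, ← Set.ncard_eq_toFinset_card, ncard_diff h.Z1Q, h.cQ, h.cZ₁]; norm_num
  let e : G → G → ℕ := fun s w => if s * w = w * s then 1 else 0
  have f : ∀ s ∈ P, ∀ r ∈ P, ∑ w ∈ T, e s w * e r w = 336 + 2058 * if r ∈ Z₁ ⊔ zpowers s then 1 else 0 := fun s hs r hr => by
    obtain ⟨sQ, sn⟩ := (mT s).1 (PT hs)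
    obtain ⟨rQ, rn⟩ := (mT r).1 (PT hr)
    have l : Z₁ ⊔ zpowers s ≤ Q := sup_le h.Z1Q (zpowers_le.2 sQ)
    have c := h.card_cen (B := Z₁ ⊔ zpowers s ⊔ zpowers r) (le_sup_left.trans le_sup_left) (sup_le l (zpowers_le.2 rQ))
    simp only [e, ite_zero_mul_ite_zero, mul_one]
    rw [sum_ite_ncard, show {w | w ∈ T ∧ s * w = w * s ∧ r * w = w * r} = {w | w ∈ Q ⊓ 𝐂(Z₁ ⊔ zpowers s ⊔ zpowers r) ∧ w ∉ Z₁} from
      Set.ext fun w => by
        rw [cent_sup, ← inf_assoc, h.cen_sup, cent_zpowers]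
        simp only [Set.mem_ofPred_eq, mT, mem_inf, mem_cent1, eq_comm]
        tauto,
      ncard_diff (le_inf h.Z1Q (cent_symm ((sup_le l (zpowers_le.2 rQ)).trans (cent_symm h.ZQ.ge)))), h.cZ₁]
    split_ifs with m
    · rw [sup_eq_left.2 (zpowers_le.2 m)] at c ⊢
      rw [h.card_sup sQ sn] at c
      omega
    · have o : Nat.card (zpowers r) = 7 := by rw [Nat.card_zpowers, h.ord rQ fun e => rn (e ▸ one_mem _)]
      have := Coprime.card_sup_mul_card_inf ((zpowers_le.2 rQ).trans (h.Q_le_norm le_sup_left l))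
      rw [inf_comm, inf_eq_bot_of_prime (o ▸ fact7.out) fun e => m (e (mem_zpowers r)), card_bot, h.card_sup sQ sn, o] at this
      rw [mul_one] at this
      rw [this] at c
      omega
  let n : G → ℕ := fun w => ∑ s ∈ P, e s w
  have s1 : ∑ w ∈ T, n w = 5040 * 2394 := by
    rw [Finset.sum_comm, Finset.sum_const_nat (m := 2394) fun s hs => ?_, cP]
    have := f s hs s hs
    rw [if_pos (mem_sup_right (mem_zpowers s))] at this
    exact (Finset.sum_congr rfl fun w _ => by simp only [e]; split_ifs <;> rfl).trans this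
  have s2 : ∑ w ∈ T, n w * n w = 5040 * 1779876 := by
    simp only [n, Finset.sum_mul_sum]
    rw [Finset.sum_comm, Finset.sum_const_nat (m := 1779876) fun s hs => ?_, cP]
    obtain ⟨sQ, sn⟩ := (mT s).1 (PT hs)
    rw [Finset.sum_comm, Finset.sum_congr rfl (f s hs), Finset.sum_add_distrib, ← Finset.mul_sum, sum_ite_ncard,
      show {w | w ∈ P ∧ w ∈ Z₁ ⊔ zpowers s} = {w | w ∈ Z₁ ⊔ zpowers s ∧ w ∉ Z₁} from Set.ext fun w =>
        ⟨fun m => ⟨m.2, ((mT w).1 (PT m.1)).2⟩, fun m => let ⟨g, hg, _, e⟩ := h.line sQ sn m.1 m.2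
          ⟨(mP w).2 (e ▸ Sp.conj hg ((mP s).1 hs)), m.1⟩⟩, ncard_diff le_sup_left, h.card_sup sQ sn, h.cZ₁,
      Finset.sum_const, cP]
    rfl
  have en : ∀ w, n w = {s | s ∈ Sp Z₁ Z₂ ∧ s * w = w * s}.ncard := fun w => by simp only [n, e, sum_ite_ncard, mP]
  have inv : ∀ g ∈ 𝐍(Z₁), ∀ w, n (g * w * g⁻¹) = n w := fun g hg w => by
    rw [en, en, ← Set.ncard_image_of_injective _ (MulAut.conj g⁻¹).injective]
    refine congrArg _ (Set.ext fun s => ⟨?_, fun m => ⟨g * s * g⁻¹, ⟨Sp.conj hg m.1, by rw [conj_mul, conj_mul, m.2]⟩, by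
      simp [mul_assoc]⟩⟩)
    rintro ⟨r, m, rfl⟩
    refine ⟨Sp.conj (inv_mem hg) m.1, ?_⟩
    calc _ = g⁻¹ * (r * (g * w * g⁻¹)) * g := by simp [mul_assoc]
      _ = _ := by rw [m.2]; simp [mul_assoc]
  generalize ha : {q | q ∈ Sp Z₁ Z₂ ∧ q ∈ 𝐂(Z₂)}.ncard = a
  have n1 : ∀ w ∈ P, n w = a := fun w hw => by
    obtain ⟨g, hg, v, hv, vn, rfl⟩ := (mP w).1 hw
    have := h.cen_sup (q := v)
    rw [sup_eq_of_card h.Z12 (by rw [h.cZ₁, h.cZ₂]) hv vn] at this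
    rw [inv g hg, en, ← ha]
    exact congrArg _ (Set.ext fun s => and_congr_right fun m => ⟨fun c => (this.ge ⟨h.Sp_sub m, mem_cent1.2 c⟩).2,
      fun c => (c v hv).symm⟩)
  have n2 : ∀ w ∈ T \ P, n w = n x := fun w hw => by
    obtain ⟨h1, h2⟩ := Finset.mem_sdiff.1 hw
    obtain ⟨g, hg, rfl⟩ := h.dich w ((mT w).1 h1).1 ((mT w).1 h1).2 fun m => h2 ((mP w).2 m)
    exact inv g hg x
  rw [← Finset.sum_sdiff PT, Finset.sum_const_nat n1, Finset.sum_const_nat n2, cP, cT] at s1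
  rw [← Finset.sum_sdiff PT, Finset.sum_const_nat fun w hw => congrArg₂ (· * ·) (n1 w hw) (n1 w hw),
    Finset.sum_const_nat fun w hw => congrArg₂ (· * ·) (n2 w hw) (n2 w hw), cP, cT] at s2
  generalize n x = c at s1 s2
  have E1 : (3 * a + 7 * c : ℤ) = 7182 := by omega
  have E2 : (3 * (a * a : ℕ) + 7 * (c * c : ℕ) : ℤ) = 5339628 := by omega
  push_cast at E2
  have : 6 * ((a - 924 : ℤ) * (5 * a - 2562)) = 0 := by linear_combination 7 * E2 - (7 * c + 7182 - 3 * a) * E1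
  rcases mul_eq_zero.1 ((mul_eq_zero.1 this).resolve_left (by norm_num)) with e | e <;> omega

theorem L2.four (h : L2 S Z₁ Z₂ Q K A z φ x) {L : Subgroup G} (h1 : Z₂ ≤ L) (h2 : L ≤ Q ⊓ 𝐂(Z₂))
    (h3 : Nat.card L = 343) (h4 : L ≠ A) : {q | q ∈ L ∧ q ∈ Sp Z₁ Z₂}.ncard = 168 := by
  have LA : ∀ q ∈ L, q ∉ Z₂ → q ∉ A := fun q hq n m => h4 (eq_of_card_le ((sup_eq_of_card h.Z2A h.c23 m n).ge.trans
    (sup_le h1 (zpowers_le.2 hq))) (h3.trans h.cA.symm).le).symm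
  let F : (S ⧸ Q.subgroupOf S) × G → G := fun p => p.1.out * p.2 * (p.1.out : G)⁻¹
  have c : Nat.card L = Nat.card Z₂ * 7 := by rw [h3, h.cZ₂]
  have inj : Set.InjOn F (Set.univ ×ˢ {q | q ∈ L ∧ q ∉ Z₂}) := by
    rintro ⟨i, q⟩ ⟨-, hq, qn⟩ ⟨j, r⟩ ⟨-, hr, -⟩ e
    have m := mul_mem (inv_mem j.out.2) i.out.2
    obtain rfl : j = i := by
      rw [← j.out_eq', ← i.out_eq']
      refine QuotientGroup.eq.2 (by_contra fun n => ?_)
      obtain ⟨k, e'⟩ := h.pS ⟨_, m⟩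
      refine LA q hq qn (h.Z3' m n (h2 hq).1 (cm_swap (triv_fac h1 (h2.trans (inf_le_left.trans (h.QS.trans h.SN))) c (h.SN m)
        (Transfer.mem_normalizer_of_conj_le ?_) (congrArg Subtype.val e') hq)))
      nth_rw 1 [← sup_eq_of_card h1 c hq qn]
      rw [Transfer.conj_sup, conj_eq_of_norm (h.SN m), Transfer.conj_zpowers]
      refine sup_le h1 (zpowers_le.2 ?_)
      convert hr using 1
      calc _ = (j.out : G)⁻¹ * F (i, q) * j.out := by simp only [F]; group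
        _ = _ := by rw [e]; simp only [F]; group
    exact Prod.ext rfl (by simpa [F] using e)
  have i7 : Nat.card (S ⧸ Q.subgroupOf S) = 7 := by
    have := card_mul_relIndex h.QS
    rw [h.cQ, h.cS] at this
    exact (by omega : Q.relIndex S = 7)
  have im : F '' (Set.univ ×ˢ {q | q ∈ L ∧ q ∉ Z₂}) = {y | y ∈ Q ⊓ 𝐂(Z₂) ∧ y ∉ A} := Set.eq_of_subset_of_ncard_le (by
    rintro _ ⟨⟨i, q⟩, ⟨-, hq, qn⟩, rfl⟩
    exact ⟨conj_mem_of_norm (norm_inf (h.SN1.trans h.NQ) (norm_cent h.SN) i.out.2) (h2 hq),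
      fun m => LA q hq qn ((mem_normalizer_iff.1 (h.N3 (h.SN i.out.2)) q).2 m)⟩) (by
    rw [Set.InjOn.ncard_image inj, Set.ncard_prod, Set.ncard_univ, i7, ncard_diff h1, ncard_diff h.A4, h.c4, h.cA, h3, h.cZ₂]
    norm_num)
  have d : {q | q ∈ Z₂ ∧ q ∉ Z₁}.ncard = 42 := by rw [ncard_diff h.Z12, h.cZ₁, h.cZ₂]
  have sp : ∀ q ∈ Z₂, q ∉ Z₁ → q ∈ Sp Z₁ Z₂ := fun q a b => ⟨1, one_mem _, q, a, b, by simp⟩
  have e := h.n4
  rw [show {q | q ∈ Sp Z₁ Z₂ ∧ q ∈ 𝐂(Z₂)} = {q | q ∈ Z₂ ∧ q ∉ Z₁} ∪ F '' (Set.univ ×ˢ {q | (q ∈ L ∧ q ∉ Z₂) ∧ q ∈ Sp Z₁ Z₂}) from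
    Set.ext fun y => ⟨fun m => ?_, ?_⟩, Set.ncard_union_eq (Set.disjoint_left.2 fun y a b => (im.le (Set.image_mono
      (Set.prod_mono_right fun _ m => m.1) b)).2 (h.Z2A a.1)), d, Set.InjOn.ncard_image (inj.mono
        (Set.prod_mono_right fun _ m => m.1)), Set.ncard_prod, Set.ncard_univ, i7] at e
  · rw [show {q | q ∈ L ∧ q ∈ Sp Z₁ Z₂} = {q | q ∈ Z₂ ∧ q ∉ Z₁} ∪ {q | (q ∈ L ∧ q ∉ Z₂) ∧ q ∈ Sp Z₁ Z₂} from Set.ext fun y =>
      ⟨fun m => (em (y ∈ Z₂)).imp (fun a => ⟨a, Sp.not_mem m.2⟩) fun a => ⟨⟨m.1, a⟩, m.2⟩,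
        fun m => m.elim (fun a => ⟨h1 a.1, sp y a.1 a.2⟩) fun a => ⟨a.1.1, a.2⟩⟩,
      Set.ncard_union_eq (Set.disjoint_left.2 fun y a b => b.1.2 a.1), d]
    omega
  · by_cases a : y ∈ A
    · exact .inl ⟨by_contra fun n => h.not_Sp a n m.1, Sp.not_mem m.1⟩
    · obtain ⟨⟨i, q⟩, ⟨-, hq⟩, rfl⟩ := im.ge ⟨⟨h.Sp_sub m.1, m.2⟩, a⟩
      exact .inr ⟨(i, q), ⟨trivial, hq, by simpa [F, mul_assoc] using Sp.conj (inv_mem (h.SN1 i.out.2)) m.1⟩, rfl⟩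
  · rintro (a | ⟨⟨i, q⟩, ⟨-, hq, s⟩, rfl⟩)
    · exact ⟨sp y a.1 a.2, h.ab2 a.1⟩
    · exact ⟨Sp.conj (h.SN1 i.out.2) s, (im.le ⟨(i, q), ⟨trivial, hq⟩, rfl⟩).1.2⟩

end Cfsg.Lib.M7
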