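import Cfsg.Agent.Lib.M7.Def
import Cfsg.Agent.Lib.BN.Parabolic

/-! M7/KA: `A₇` has no split BN-structure of characteristic 2, 3, 5. -/

set_option autoImplicit false
set_option synthInstance.maxSize 2048

namespace Cfsg.Lib.M7

open Subgroup Function Cfsg.Lib.BG Equiv Equiv.Perm
open scoped Pointwise

attribute [local instance 3000] List.decidableBAll

theorem cardA7 : Nat.card A7 = 2520 := by
  rw [Nat.card_eq_fintype_card, card_alternatingGroup]; rfl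

/-- closed lists of even permutations -/
def Cl (l : List (Perm (Fin 7))) : Prop :=
  l.Nodup ∧ 1 ∈ l ∧ (∀ a ∈ l, ∀ b ∈ l, a * b ∈ l) ∧ (∀ a ∈ l, a⁻¹ ∈ l) ∧ ∀ a ∈ l, sign a = 1

instance decCl (l : List (Perm (Fin 7))) : Decidable (Cl l) := by unfold Cl; infer_instance

/-- the subgroup of a closed list -/
def Cl.sub {l : List (Perm (Fin 7))} (h : Cl l) : Subgroup A7 where
  carrier := {g | g.1 ∈ l}
  one_mem' := h.2.1
  mul_mem' := fun a b => h.2.2.1 _ a _ b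
  inv_mem' := fun a => h.2.2.2.1 _ a

theorem Cl.card {l : List (Perm (Fin 7))} (h : Cl l) : Nat.card h.sub = l.length := by
  rw [← List.toFinset_card_of_nodup h.1, ← Fintype.card_coe, ← Nat.card_eq_fintype_card]
  exact Nat.card_congr ⟨fun g => ⟨g.1.1, List.mem_toFinset.2 g.2⟩, fun a =>
    ⟨⟨a.1, mem_alternatingGroup.2 (h.2.2.2.2 _ (List.mem_toFinset.1 a.2))⟩, List.mem_toFinset.1 a.2⟩,
    fun _ => rfl, fun _ => rfl⟩

theorem Cl.conj {l : List (Perm (Fin 7))} (h : Cl l) {p k : ℕ} [Fact p.Prime] (e : l.length = p ^ k)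
    (n : ¬ p ∣ 2520 / l.length) (U : Sylow p A7) : ∃ g : A7, ∀ u, u ∈ U ↔ (g * u * g⁻¹).1 ∈ l := by
  have i : ¬ p ∣ h.sub.index := by
    have := h.sub.card_mul_index
    rw [h.card, cardA7] at this
    rwa [← this, Nat.mul_div_cancel_left _ (e ▸ pow_pos (Fact.out : p.Prime).pos k)] at n
  obtain ⟨g, hg⟩ := MulAction.exists_smul_eq A7 U ((IsPGroup.of_card (h.card.trans e)).toSylow i)
  refine ⟨g, fun u => ?_⟩
  have : g * u * g⁻¹ ∈ ((g • U : Sylow p A7) : Subgroup A7) ↔ u ∈ U := by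
    rw [Sylow.smul_def, Sylow.pointwise_smul_def]
    exact smul_mem_pointwise_smul_iff (a := MulAut.conj g)
  rw [← this, hg]
  rfl

/-- a Sylow 3-subgroup -/
def l3 : List (Perm (Fin 7)) :=
  let a := swap 0 1 * swap 1 2
  let b := swap 3 4 * swap 4 5
  [1, a, a * a, b, a * b, a * a * b, b * b, a * b * b, a * a * b * b]

/-- a Sylow 5-subgroup -/
def l5 : List (Perm (Fin 7)) :=
  let a := swap 0 1 * swap 1 2 * swap 2 3 * swap 3 4
  [1, a, a * a, a * a * a, a * a * a * a]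

/-- a Sylow 2-subgroup -/
def l2 : List (Perm (Fin 7)) :=
  let a := swap 0 1 * swap 2 3
  let b := swap 0 2 * swap 1 3
  let c := swap 0 1 * swap 4 5
  [1, a, b, a * b, c, c * a, c * b, c * a * b]

/-- an element of order 4 normalising `l3` -/
def h3 : Perm (Fin 7) := swap 0 3 * swap 3 1 * swap 1 4 * swap 2 5
/-- an element of order 4 normalising `l5` -/
def h5 : Perm (Fin 7) := swap 1 2 * swap 2 4 * swap 4 3 * swap 5 6

theorem odd_aux {p : ℕ} [Fact p.Prime] {l : List (Perm (Fin 7))} {h : Perm (Fin 7)} (U : Sylow p A7) {g : A7}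
    (hg : ∀ u, u ∈ U ↔ (g * u * g⁻¹).1 ∈ l) (hs : sign h = 1) (h1 : ∀ a ∈ l, h * a * h⁻¹ ∈ l)
    (h2 : ∀ i, (∀ a ∈ l, a i = i) ↔ i = 6 ∨ i = 5 ∧ p = 5)
    (h3 : ∀ a ∈ l, ∀ i j, (a⁻¹ * h) i ∈ ({i, j} : Finset _) → (a⁻¹ * h) j ∈ ({i, j} : Finset _) →
      (p = 5 → i ≠ j) → (p ≠ 5 → i = j) → i = 6 ∨ j = 6) (hl : ∀ a ∈ l, sign a = 1)
    {V T : Subgroup A7} {n : A7} (h4 : ∀ v, v ∈ V ↔ n⁻¹ * v * n ∈ U) (h5 : T ≤ 𝐍(V))
    (h6 : ∀ x ∈ 𝐍((U : Subgroup A7)), ∃ u ∈ U, ∃ t ∈ T, x = u * t) : (U : Subgroup A7) ⊔ V ≠ ⊤ := by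
  intro e
  let k : A7 := ⟨h, mem_alternatingGroup.2 hs⟩
  obtain ⟨u, hu, t, ht, e1⟩ := h6 (g⁻¹ * k * g) (mem_normalizer_fintype fun a ha => (hg _).2 (by
    convert h1 _ ((hg a).1 ha) using 1
    change _ = (k * (g * a * g⁻¹) * k⁻¹).1
    congr 1; group))
  have fU : ∀ i, (∀ a ∈ U, a.1 (g.1⁻¹ i) = g.1⁻¹ i) ↔ i = 6 ∨ i = 5 ∧ p = 5 := fun i => by
    rw [← h2]
    refine ⟨fun f a ha => ?_, fun f a ha => ?_⟩
    · have := f (g⁻¹ * ⟨a, mem_alternatingGroup.2 (hl a ha)⟩ * g) ((hg _).2 (by simpa [mul_assoc] using ha))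
      simpa using this
    · have := f _ ((hg a).1 ha)
      rw [eq_inv_iff_eq]
      simpa using this
  have fV : ∀ i, (∀ a ∈ V, a.1 (n.1 (g.1⁻¹ i)) = n.1 (g.1⁻¹ i)) ↔ i = 6 ∨ i = 5 ∧ p = 5 := fun i => by
    rw [← fU]
    refine ⟨fun f a ha => ?_, fun f a ha => ?_⟩
    · simpa using f (n * a * n⁻¹) ((h4 _).2 (by simpa [mul_assoc] using ha))
    · have := f _ ((h4 a).1 ha)
      have e2 : ∀ x y : Fin 7, (n⁻¹ * a * n).1 x = y → a.1 (n.1 x) = n.1 y := fun x y e => by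
        rw [← e]; simp
      exact e2 _ _ this
  -- the fixed points of `V`, in the coordinates of `l`
  let m : Perm (Fin 7) := g.1 * n.1 * g.1⁻¹
  have k1 : ∀ i, (i = 6 ∨ i = 5 ∧ p = 5) → ∃ j, (j = 6 ∨ j = 5 ∧ p = 5) ∧
      ((g * u * g⁻¹).1⁻¹ * h) (m i) = m j := fun i hi => by
    refine ⟨(g * n⁻¹ * t * n * g⁻¹).1 i, (fV _).1 fun a ha => ?_, ?_⟩
    · have := (fV i).2 hi _ ((mem_normalizer_iff''.1 (h5 ht) a).1 ha)
      have e2 : ∀ x y : Fin 7, (t⁻¹ * a * t).1 x = y → a.1 (t.1 x) = t.1 y := fun x y e => by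
        rw [← e]; simp
      simpa using e2 _ _ this
    · have : t = u⁻¹ * (g⁻¹ * k * g) := by rw [e1]; group
      simp [this, m, k]
  have k2 : m 6 = 6 ∨ m (if p = 5 then 5 else 6) = 6 := by
    refine h3 _ ((hg u).1 hu) _ _ ?_ ?_ (fun e => by simp [e]) fun e => by simp [e]
    · obtain ⟨j, a, b⟩ := k1 6 (.inl rfl)
      rw [b]
      rcases a with rfl | ⟨rfl, c⟩ <;> simp [*]
    · obtain ⟨j, a, b⟩ := k1 (if p = 5 then 5 else 6) (by split_ifs <;> simp [*])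
      rw [b]
      rcases a with rfl | ⟨rfl, c⟩ <;> simp [*]
  obtain ⟨i, hi, k3⟩ : ∃ i, (i = 6 ∨ i = 5 ∧ p = 5) ∧ m i = 6 :=
    k2.elim (fun e => ⟨6, .inl rfl, e⟩) fun e => ⟨_, by split_ifs <;> simp [*], e⟩
  have k4 : n.1 (g.1⁻¹ i) = g.1⁻¹ 6 := by rw [← k3]; simp [m]
  have : (U : Subgroup A7) ⊔ V ≤ MulAction.stabilizer A7 (g.1⁻¹ 6) :=
    sup_le (fun a ha => (fU 6).2 (.inl rfl) a ha) fun a ha => k4 ▸ (fV i).2 hi a ha
  have := this (e.ge (mem_top (g⁻¹ * ⟨swap 0 1 * swap 5 6, mem_alternatingGroup.2 (by decide)⟩ * g)))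
  rw [MulAction.mem_stabilizer_iff] at this
  change (g.1⁻¹ * (Equiv.swap 0 1 * Equiv.swap 5 6) * g.1 : Perm (Fin 7)) _ = _ at this
  simp at this
  exact absurd this (by decide)

theorem a7_odd {p : ℕ} [Fact p.Prime] (hp : p = 3 ∨ p = 5) (U : Sylow p A7) {V T : Subgroup A7} {n : A7}
    (h4 : ∀ v, v ∈ V ↔ n⁻¹ * v * n ∈ U) (h5 : T ≤ 𝐍(V))
    (h6 : ∀ x ∈ 𝐍((U : Subgroup A7)), ∃ u ∈ U, ∃ t ∈ T, x = u * t) : (U : Subgroup A7) ⊔ V ≠ ⊤ := by
  rcases hp with rfl | rfl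
  · have c : Cl l3 := by decide +kernel
    obtain ⟨g, hg⟩ := c.conj (k := 2) rfl (by decide) U
    exact odd_aux (h := h3) U hg (by decide +kernel) (by decide +kernel) (by decide +kernel) (by decide +kernel)
      c.2.2.2.2 h4 h5 h6
  · have c : Cl l5 := by decide +kernel
    obtain ⟨g, hg⟩ := c.conj (k := 1) rfl (by decide) U
    exact odd_aux (h := M7.h5) U hg (by decide +kernel) (by decide +kernel) (by decide +kernel) (by decide +kernel)
      c.2.2.2.2 h4 h5 h6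

theorem mem_of_distrib {L : Type*} [Group L] (P : BNPair L) {X Y Z : Subgroup L} (hX : P.B ≤ X) (hY : P.B ≤ Y)
    (hZ : P.B ≤ Z) (h : Z ≤ X ⊔ Y) (h1 : Z ⊓ X ≤ Y) : Z ≤ Y := by
  rw [BN.eq_parabolic_of_le hZ]
  refine BN.parabolic_le_iff.2 ⟨hY, fun s hs => ?_⟩
  have : X ⊔ Y ≤ P.parabolic (P.S ∩ X ∪ P.S ∩ Y) := sup_le
    ((BN.eq_parabolic_of_le hX).le.trans ((BN.parabolic_le_parabolic_iff Set.inter_subset_left
      (Set.union_subset Set.inter_subset_left Set.inter_subset_left)).2 Set.subset_union_left))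
    ((BN.eq_parabolic_of_le hY).le.trans ((BN.parabolic_le_parabolic_iff Set.inter_subset_left
      (Set.union_subset Set.inter_subset_left Set.inter_subset_left)).2 Set.subset_union_right))
  exact ((BN.mem_parabolic_iff_of_mem_S (Set.union_subset Set.inter_subset_left Set.inter_subset_left)
    hs.1).1 (this (h hs.2))).elim (fun a => h1 ⟨hs.2, a.2⟩) fun a => a.2

theorem a7_two {L : Type*} [Group L] (P : BNPair L) (f : L →* A7) (hf : Surjective f) (U : Sylow 2 A7)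
    (h : ∀ b ∈ P.B, f b ∈ 𝐍((U : Subgroup A7))) : False := by
  have c : Cl l2 := by decide +kernel
  obtain ⟨g, hg⟩ := c.conj (k := 3) rfl (by decide) U
  let F : L →* A7 := (MulAut.conj g).toMonoidHom.comp f
  have hF : Surjective F := (MulAut.conj g).surjective.comp hf
  have n : ∀ b ∈ P.B, ∀ a ∈ l2, (F b).1⁻¹ * a * (F b).1 ∈ l2 := fun b hb a ha => by
    have := (hg _).1 ((mem_normalizer_iff''.1 (h b hb) (g⁻¹ * ⟨a, mem_alternatingGroup.2 (c.2.2.2.2 a ha)⟩ * g)).1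
      ((hg _).2 (by simpa [mul_assoc] using ha)))
    simpa [F, mul_assoc] using this
  have n6 : ∀ b ∈ P.B, (F b).1 6 = 6 := fun b hb =>
    ((by decide +kernel : ∀ i, (∀ a ∈ l2, a i = i) ↔ i = 6) _).1 fun a ha => by
      have := ((by decide +kernel : ∀ i, (∀ a ∈ l2, a i = i) ↔ i = 6) 6).2 rfl _ (n b hb a ha)
      rw [Perm.mul_apply, Perm.mul_apply, inv_eq_iff_eq] at this
      exact this
  have k : ∀ i, (∀ a ∈ l2, ∀ a' ∈ l2, a i = i ∨ a' i = i ∨ a i = a' i) ↔ i ∈ ({4, 5, 6} : Finset (Fin 7)) := by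
    decide +kernel
  have n3 : ∀ b ∈ P.B, ∀ i ∈ ({4, 5, 6} : Finset (Fin 7)), (F b).1 i ∈ ({4, 5, 6} : Finset (Fin 7)) :=
    fun b hb i hi => (k _).1 fun a ha a' ha' => by
      have := (k i).2 hi _ (n b hb a ha) _ (n b hb a' ha')
      simpa only [Perm.mul_apply, inv_eq_iff_eq, EmbeddingLike.apply_eq_iff_eq] using this
  let St (s : Finset (Fin 7)) : Subgroup A7 := MulAction.stabilizer A7 s
  have m : ∀ s x, x ∈ St s ↔ ∀ i ∈ s, x.1 i ∈ s := fun _ _ => MulAction.mem_stabilizer_finset'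
  have z : St {4, 5, 6} ⊓ MulAction.stabilizer A7 (6 : Fin 7) ≤ St {4, 5} := fun x hx => (m _ _).2 fun i hi => by
    have h1 := (m _ _).1 hx.1 i (by revert i; decide)
    have h3 : x.1 i ≠ 6 := fun e => absurd (x.1.injective (e.trans (Eq.symm hx.2)) ▸ hi) (by decide)
    revert h1 h3
    generalize x.1 i = j
    revert j; decide
  have b3 : P.B ≤ (St {4, 5, 6}).comap F := fun b hb => (m _ _).2 (n3 b hb)
  have b1 : P.B ≤ (MulAction.stabilizer A7 (6 : Fin 7)).comap F := fun b hb => n6 b hb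
  have co : IsCoatom (MulAction.stabilizer A7 (6 : Fin 7)) :=
    have := alternatingGroup.isPreprimitive_of_three_le_card (Fin 7) (by simp)
    MulAction.IsPreprimitive.isCoatom_stabilizer_of_isPreprimitive A7 6
  have tp : MulAction.stabilizer A7 (6 : Fin 7) ⊔ St {4, 5} = ⊤ := co.2 _ (lt_of_le_of_ne le_sup_left fun e => by
    have := e.ge (mem_sup_right ((m {4, 5} ⟨Equiv.swap 0 6 * Equiv.swap 1 2,
      mem_alternatingGroup.2 (by decide)⟩).2 (by decide)))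
    exact absurd (show (Equiv.swap 0 6 * Equiv.swap 1 2 : Perm (Fin 7)) 6 = 6 from this) (by decide))
  have := mem_of_distrib P b1 (Y := (St {4, 5}).comap F) (fun b hb => z ⟨b3 hb, b1 hb⟩) b3
    (by rw [comap_sup_eq F _ _ hF, tp]; exact le_top) fun x hx => z hx
  obtain ⟨x, hx⟩ := hF ⟨Equiv.swap 4 5 * Equiv.swap 5 6, mem_alternatingGroup.2 (by decide)⟩
  have := @this x (by rw [mem_comap, hx, m]; decide)
  rw [mem_comap, hx, m] at this
  exact absurd this (by decide)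

end Cfsg.Lib.M7
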