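import Cfsg.Agent.Lib.M7.Smp
import Cfsg.Agent.Lib.M7.KA
import Cfsg.Agent.Lib.FGS.FrobCount
import Cfsg.Agent.Lib.FGS.Classes

/-! M7/K0: reduction to a simple group, and the Frobenius count.
`soc`: both classes meet `E` in 24 elements, so a nontrivial normal subgroup contains `E`, and `E` is not normal.  `M` minimal normal; if `1 ≠ L ⊴ M` does not contain `E`, three conjugates of `L` meet `E` in
distinct lines, commute, and then `E ⊓ L ≤ Z(L)`, `O₇(M) ≠ 1`.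
`frob`: `FGS.dvd_card_pow_eq_one` with `m = 49`: `g⁴⁹ = 1` iff `g` is conjugate into `E`, so the solutions are `1`, the class of `y` (`|C(y)| = 17640`) and the class of `x`. -/

set_option autoImplicit false

namespace Cfsg.Lib.M7

open Subgroup Function Cfsg.Lib.BG
open scoped commutatorElement Cfsg.Lib.Transfer

variable {G : Type*} [Group G] [Finite G] {E : Subgroup G} {y x : G} {j : ℕ}

theorem C7.card (h : C7 y) : Nat.card 𝐂[y] = 17640 := by
  obtain ⟨φ, hφ, e⟩ := h.2.1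
  have : φ.ker = (zpowers y).subgroupOf _ := by ext c; exact e c
  rw [← φ.ker.card_mul_index, index_ker, MonoidHom.range_eq_top.2 hφ, card_top, cardA7, this,
    Nat.card_congr (subgroupOfEquivOfLe (zpowers_le.2 (self_mem_cent1 y))).toEquiv, Nat.card_zpowers, h.1]

theorem C7.le (h : C7 y) {N : Subgroup G} (n : 𝐂[y] ≤ 𝐍(N)) (h1 : y ∈ N) {u : G} (h2 : u ∈ N) (h3 : u ∈ 𝐂[y])
    (h4 : u ∉ zpowers y) : 𝐂[y] ≤ N := by
  have : IsSimpleGroup A7 := alternatingGroup.isSimpleGroup (by simp)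
  obtain ⟨φ, hφ, e⟩ := h.2.1
  have t : (N.subgroupOf 𝐂[y]).map φ = ⊤ :=
    ((Normal.map (H := N.subgroupOf 𝐂[y]) ⟨fun a ha g => conj_mem_of_norm (H := N) (n g.2) ha⟩ φ hφ).eq_bot_or_eq_top).resolve_left fun b =>
      h4 ((e ⟨u, h3⟩).1 (mem_bot.1 (b.le (mem_map_of_mem φ h2))))
  intro k hk
  obtain ⟨m, hm, e'⟩ := t.ge (mem_top (φ ⟨k, hk⟩))
  simpa using mul_mem (show (m : G) ∈ N from hm) (zpowers_le.2 h1
    ((e (m⁻¹ * ⟨k, hk⟩)).1 (by rw [map_mul, map_inv, e', inv_mul_cancel])))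

namespace Tw
variable (h : Tw E y x)
include h

theorem pE : IsPGroup 7 E := .of_card (n := 2) h.cE

theorem syl : Syl 7 E ⊤ := Syl.mk' le_top h.pE (by rw [relIndex_top_right]; exact h.iE)

theorem cx' : 24 ≤ {e | e ∈ E ∧ IsConj x e}.ncard := by
  have : (E : Set G) ⊆ {1} ∪ ({e | e ∈ E ∧ IsConj y e} ∪ {e | e ∈ E ∧ IsConj x e}) := fun e he => by
    by_cases e1 : e = 1
    · exact .inl e1
    · exact .inr ((h.cls e he e1).imp (⟨he, ·⟩) (⟨he, ·⟩))
  have := (Set.ncard_le_ncard this).trans ((Set.ncard_union_le _ _).trans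
    (Nat.add_le_add_left (Set.ncard_union_le _ _) _))
  rw [h.cy, Set.ncard_singleton, ← Nat.card_coe_set_eq] at this
  have c : Nat.card (E : Set G) = 49 := h.cE
  omega

theorem exists_not {e : G} (he : e ∈ E) (e1 : e ≠ 1) {A B : Subgroup G} (a : Nat.card A ≤ 7) (b : Nat.card B ≤ 7) :
    ∃ g, g * e * g⁻¹ ∈ E ∧ g * e * g⁻¹ ∉ A ∧ g * e * g⁻¹ ∉ B := by
  have : 24 ≤ {f | f ∈ E ∧ IsConj e f}.ncard := by
    rcases h.cls e he e1 with c | c
    · exact h.cy.ge.trans (Set.ncard_le_ncard fun f hf => ⟨hf.1, c.symm.trans hf.2⟩)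
    · exact h.cx'.trans (Set.ncard_le_ncard fun f hf => ⟨hf.1, c.symm.trans hf.2⟩)
  obtain ⟨f, ⟨f1, f2⟩, f3⟩ := Set.exists_mem_notMem_of_ncard_lt_ncard (s := (A : Set G) ∪ B)
    (((Set.ncard_union_le _ _).trans (Nat.add_le_add a b)).trans_lt (lt_of_lt_of_le (by norm_num) this))
  obtain ⟨g, rfl⟩ := isConj_iff.1 f2
  exact ⟨g, f1, fun c => f3 (.inl c), fun c => f3 (.inr c)⟩

theorem card_inf {L : Subgroup G} (n : ¬ E ≤ L) : Nat.card ↥(E ⊓ L) ≤ 7 := by
  have := card_dvd_of_le (inf_le_left : E ⊓ L ≤ E)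
  rw [h.cE, show 49 = 7 ^ 2 from rfl] at this
  obtain ⟨k, k2, e⟩ := (Nat.dvd_prime_pow fact7.out).1 this
  interval_cases k
  · omega
  · omega
  · exact absurd ((eq_of_card_le inf_le_left (h.cE.trans e.symm).le).ge.trans inf_le_right) n

theorem card_inf' {L : Subgroup G} (n : ¬ E ≤ L) (n' : E ⊓ L ≠ ⊥) : Nat.card ↥(E ⊓ L) = 7 :=
  (h.card_inf n).antisymm (Nat.le_of_dvd Nat.card_pos (pgroup_dvd_card (pgroup_of_le h.pE inf_le_left) n'))

theorem exists_u : ∃ u ∈ E, u ∉ zpowers y := by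
  by_contra! e
  have := card_le_of_le (show E ≤ zpowers y from e)
  rw [Nat.card_zpowers, orderOf_eq_prime (h.exp y h.yE) h.y1, h.cE] at this
  omega

/-- a normal subgroup of order divisible by 7 contains `E` -/
theorem le_of_dvd {N : Subgroup G} [hN : N.Normal] (d : 7 ∣ Nat.card N) : E ≤ N := by
  by_contra n
  obtain ⟨e, he, e1⟩ := exists_ne_one (Syl.ne_bot' (Hall.inf_nml h.syl (Nml.top_iff.2 hN)) d)
  obtain ⟨g, g1, g2, -⟩ := h.exists_not he.1 e1 (h.card_inf n) (h.card_inf n)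
  exact g2 ⟨g1, hN.conj_mem _ he.2 g⟩

theorem exists_conj {g : G} (hg : IsPGroup 7 (zpowers g)) (g1 : g ≠ 1) : IsConj y g ∨ IsConj x g := by
  obtain ⟨c, -, hc⟩ := h.syl.exists_conj_le hg le_top
  have := isConj_iff.2 ⟨c, (rfl : c * g * c⁻¹ = _)⟩
  exact (h.cls _ (hc (Transfer.conj_mem_conj.2 (mem_zpowers g))) (by simpa using g1)).imp
    (·.trans this.symm) (·.trans this.symm)

end Tw

theorem Kl.soc (h : Kl E y x j) : ∃ M : Subgroup G, M.Normal ∧ IsSimpleGroup M ∧ ¬ IsMulCommutative M ∧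
    E ≤ M ∧ 𝐂[y] ≤ M ∧ 𝐂(M) = ⊥ := by
  have E0 : E ≠ ⊥ := ne_bot_of_mem h.yE h.y1
  have k1 : ∀ N : Subgroup G, N.Normal → N ≠ ⊥ → E ≤ N := fun N hN h0 =>
    h.le_of_dvd (by_contra fun e => h0 (h.o7 N hN e))
  obtain ⟨u, u1, u2⟩ := h.exists_u
  have k2 : ∀ N : Subgroup G, N.Normal → N ≠ ⊥ → 𝐂[y] ≤ N := fun N hN h0 =>
    h.Cy.le (le_top.trans (Nml.top_iff.2 hN).norm) (k1 N hN h0 h.yE) (k1 N hN h0 u1) (cent_le_cent1 h.yE (h.com u1)) u2
  obtain ⟨M, hM, -⟩ := Core.exists_isMinNormal_le (N := (⊤ : Subgroup G)) inferInstance (ne_bot_mono E0 le_top)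
  have := hM.normal
  have nM : Nml M ⊤ := Nml.top_iff.2 this
  have EM := k1 M this hM.ne_bot
  have k3 : ∀ L : Subgroup G, Nml L M → IsPGroup 7 L → L = ⊥ := fun L hL p => by_contra fun h0 => by
    have := h.syl.card_le (pgroup_of_le (pcore_pgroup 7 M) (k2 _ (Nml.top_iff.1 (nM.pcore {7}))
      (ne_bot_mono h0 (pcore_max_p p hL)))) le_top
    rw [h.Cy.card, h.cE] at this
    omega
  have k4 : ∀ L : Subgroup G, Nml L M → E ⊓ L = ⊥ → L = ⊥ := fun L hL b => eq_bot_mono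
    (h.o7 _ (Nml.top_iff.1 (nM.pcore {7}ᶜ)) (PiGrp.p'_iff.1 (pcore_pi _ _)))
    (pcore_max (PiGrp.p'_iff.2 fun d => Syl.ne_bot' (Hall.inf h.syl le_top (EM.trans hL.norm)) d b) hL)
  have k5 : ∀ (L : Subgroup G) (g : G), Nml L M → Nml (g ⋆ L) M := fun L g hL => by
    have n' := hL.conj g
    rwa [nM.conj_eq (mem_top _)] at n'
  have k6 : ∀ L : Subgroup G, Nml L M → L ≠ ⊥ → E ≤ L := fun L hL h0 => by_contra fun n => by
    have n' : ∀ g, ¬ E ≤ g ⋆ L := fun g c => n ((eq_of_card_le (inf_le_left : E ⊓ L ≤ E) ((Transfer.card_conj g⁻¹ E).ge.trans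
      (Syl.card_le (Hall.inf h.syl le_top (EM.trans hL.norm)) (Transfer.isPGroup_conj h.pE _)
        (Transfer.le_conj_iff_inv_conj_le.1 c)))).ge.trans inf_le_right)
    have cm : ∀ {g a}, a ∈ E → a ∈ g ⋆ L → a ∉ L → g ⋆ L ≤ 𝐂(L) := fun {g a} a1 a2 a3 =>
      (k5 L g hL).cent_of_disjoint hL (k4 _ ((k5 L g hL).inf hL) (by
        rw [← inf_assoc]
        exact inf_eq_bot_of_prime (h.card_inf' (n' g) (ne_bot_of_mem ⟨a1, a2⟩ fun e => a3 (e ▸ one_mem _)) ▸ fact7.out)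
          fun c => a3 (c ⟨a1, a2⟩)))
    obtain ⟨e, he, e1⟩ := exists_ne_one fun b => h0 (k4 L hL b)
    obtain ⟨g, g1, g2, -⟩ := h.exists_not he.1 e1 (h.card_inf n) (h.card_inf n)
    obtain ⟨f, f1, f2, f3⟩ := h.exists_not he.1 e1 (h.card_inf n) (h.card_inf (n' g))
    have g3 := (Transfer.conj_mem_conj (g := g)).2 he.2
    have f4 := (Transfer.conj_mem_conj (g := f)).2 he.2
    have c := eq_of_lt_of_card (C := E) fact7.out (lt_of_le_of_ne (inf_le_inf_left E (cm g1 g3 fun c => g2 ⟨g1, c⟩))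
      fun c => f3 (c.ge ⟨f1, cm f1 f4 (fun c => f2 ⟨f1, c⟩) f4⟩)) inf_le_left
      (by rw [h.card_inf' (n' g) (ne_bot_of_mem ⟨g1, g3⟩ (by simpa using e1)), h.cE])
    have z : E ⊓ L ≤ L ⊓ 𝐂(L) := le_inf inf_le_right (inf_le_left.trans (c.ge.trans inf_le_right))
    exact e1 (mem_bot.1 ((k3 _ ((hL.inf_cent hL.norm).pcore {7}) (pcore_pgroup 7 _)).le (pcore_max_p
      (pgroup_of_le h.pE inf_le_left) (Nml.of_cent (cent_mono le_rfl inf_le_right inf_le_right) z) he)))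
  have nab : ¬ IsMulCommutative M := fun c => E0 (k3 E (Nml.of_abelian c EM) h.pE)
  refine ⟨M, this, ?_, nab, EM, k2 M this hM.ne_bot, by_contra fun h0 => nab (abelian_iff.2 ?_)⟩
  · have : Nontrivial M := (nontrivial_iff_ne_bot M).2 hM.ne_bot
    refine ⟨fun L hL => or_iff_not_imp_left.2 fun h0 => ?_⟩
    have n := Nml.of_normal M L
    have h0' : L.map M.subtype ≠ ⊥ := fun e => h0 ((map_eq_bot_iff_of_injective _ M.subtype_injective).1 e)
    have c : E ≤ (L.map M.subtype).normalCore := fun a ha b => by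
      simpa using Transfer.mem_conj.1 (k6 _ (k5 _ b⁻¹ n) (fun e => h0' (Transfer.conj_eq_bot_iff.1 e)) ha)
    have e := hM.eq_of_le inferInstance (ne_bot_mono E0 c) ((normalCore_le _).trans n.le)
    refine eq_top_iff.2 fun g _ => ?_
    obtain ⟨y, hy, e'⟩ := normalCore_le _ (e.ge g.2)
    rwa [← show y = g from Subtype.ext e']
  · have := hM.eq_of_le (K := M ⊓ 𝐂(M)) inferInstance (ne_bot_mono E0 (le_inf EM (k1 _ inferInstance h0))) inf_le_left
    exact this.ge.trans inf_le_right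

theorem Kl.frob (h : Kl E y x j) : 49 ∣ 1 + Nat.card G / 17640 + Nat.card G / (1176 * 8 ^ j) := by
  have := FGS.dvd_card_pow_eq_one (h.cE ▸ card_subgroup_dvd_card E)
  have e : {g : G | g ^ 49 = 1} = {1} ∪ ({g | IsConj y g} ∪ {g | IsConj x g}) := by
    have k : ∀ a ∈ E, ∀ g, IsConj a g → g ^ 49 = 1 := fun a ha g c => by
      obtain ⟨c, rfl⟩ := isConj_iff.1 c
      rw [conj_pow, show 49 = 7 * 7 from rfl, pow_mul, h.exp a ha]; simp
    refine Set.ext fun g => ⟨fun hg => ?_, ?_⟩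
    · by_cases g1 : g = 1
      · exact .inl g1
      · refine .inr (h.exists_conj (fun a => ⟨2, Subtype.ext ?_⟩) g1)
        obtain ⟨n, hn⟩ := mem_zpowers_iff.1 a.2
        change (a : G) ^ 49 = 1
        rw [← hn, ← zpow_natCast, ← zpow_mul, mul_comm, zpow_mul, zpow_natCast, show g ^ 49 = 1 from hg, one_zpow]
    · rintro (rfl | c | c)
      exacts [one_pow _, k y h.yE g c, k x h.xE g c]
  have c : ∀ (H : Subgroup G) (n : ℕ), Nat.card H = n → H.index = Nat.card G / n := fun H n e => by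
    rw [← H.card_mul_index, e, Nat.mul_div_cancel_left _ (e ▸ Nat.card_pos)]
  change 49 ∣ Nat.card {g : G | g ^ 49 = 1} at this
  rwa [Nat.card_coe_set_eq, e, Set.ncard_union_eq (Set.disjoint_singleton_left.2 (by
      rintro (c | c)
      exacts [h.y1 (isConj_one_left.1 c), h.x1 (isConj_one_left.1 c)])),
    Set.ncard_union_eq (s := {g | IsConj y g}) (t := {g | IsConj x g})
      (Set.disjoint_left.2 fun g c d => h.nc (IsConj.trans c (IsConj.symm d))), Set.ncard_singleton,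
    FGS.ncard_isConj, FGS.ncard_isConj, c _ _ h.Cy.card, c _ _ h.cx, ← add_assoc] at this

end Cfsg.Lib.M7
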