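import Cfsg.Agent.Lib.M7.K0
import Cfsg.Agent.S2119

/-! M7/Ka: `M` is not alternating.  `G` embeds in `Sₙ` (S2119), some 7-cycle `e` lies in `E`, and the 7-cycles of `E` lie in `⟨e⟩` or fix a point moved by `e`: fewer than 24. -/

set_option autoImplicit false

namespace Cfsg.Lib.M7

open Subgroup Function Cfsg.Lib.BG Equiv Equiv.Perm
open scoped commutatorElement

variable {G : Type*} [Group G] [Finite G] {E M : Subgroup G} {y x : G} {j : ℕ}

theorem Kl.not_alt (h : Kl E y x j) [M.Normal] (h1 : E ≤ M) (h2 : 𝐂[y] ≤ M) (h3 : 𝐂(M) = ⊥) :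
    ¬ IsAlternating M := fun ⟨n, _, ⟨e⟩⟩ => by
  have n7 : 7 ≤ n := by
    have := (card_dvd_of_le h1).trans ((Nat.card_congr e.toEquiv).dvd.trans (card_subgroup_dvd_card _))
    rw [Nat.card_perm, Nat.card_fin, h.cE] at this
    exact fact7.out.dvd_factorial.1 (Dvd.dvd.trans (by norm_num) this)
  let b := MulEquiv.ofBijective _ (Agent.S2119.result n (by omega) (by omega))
  let f : G →* Perm (Fin n) := b.symm.toMonoidHom.comp ((MulAut.congr e).toMonoidHom.comp MulAut.conjNormal)
  have hf : Injective f := (injective_iff_map_eq_one f).2 fun g hg => mem_bot.1 (h3.le fun m hm => by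
    have : MulAut.conjNormal (H := M) g = 1 :=
      (map_eq_one_iff _ (MulAut.congr e).injective).1 ((map_eq_one_iff _ b.symm.injective).1 hg)
    have := congrArg Subtype.val (DFunLike.congr_fun this ⟨m, hm⟩)
    exact (mul_inv_eq_iff_eq_mul.1 this).symm)
  have fm : ∀ m : M, f m = e m := fun m => b.symm_apply_eq.2 (by
    ext a : 1
    obtain ⟨a, rfl⟩ := e.surjective a
    have : MulAut.conjNormal (m : G) a = m * a * m⁻¹ := Subtype.ext rfl
    simp only [MulEquiv.toMonoidHom_eq_coe, MonoidHom.coe_comp, MonoidHom.coe_coe, comp_apply, MulAut.congr_apply,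
      MulEquiv.trans_apply, MulEquiv.symm_apply_apply, this, map_mul, map_inv]
    rfl)
  obtain ⟨c, hc⟩ := (exists_with_cycleType_iff (Fin n) (m := {7})).2 (by simpa)
  have c1 : c.IsCycle := card_cycleType_eq_one.1 (by rw [hc]; rfl)
  have c2 : c ∈ alternatingGroup (Fin n) := by rw [mem_alternatingGroup, sign_of_cycleType, hc]; decide
  have c3 : f (e.symm ⟨c, c2⟩) = c := by rw [fm, e.apply_symm_apply]
  obtain ⟨k, -, hk⟩ := h.syl.exists_conj_le (Q := zpowers (e.symm ⟨c, c2⟩ : G)) (.of_card (n := 1) (by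
    rw [Nat.card_zpowers, ← orderOf_injective f hf, c3, ← lcm_cycleType, hc]; rfl)) le_top
  obtain ⟨a, ha, a1⟩ : ∃ a ∈ E, (f a).IsCycle :=
    ⟨_, hk (Transfer.conj_mem_conj.2 (mem_zpowers _)), by rw [map_mul, map_mul, map_inv, c3]; exact c1.conj⟩
  obtain ⟨δ, hδ, -⟩ := id a1
  have a0 : a ≠ 1 := fun e => a1.ne_one (by rw [e, map_one])
  obtain ⟨g, g1, g2, g3⟩ := h.exists_not ha a0 (A := zpowers a)
    (by rw [Nat.card_zpowers, orderOf_eq_prime (h.exp a ha) a0]) (h.card_inf (L := (MulAction.stabilizer _ δ).comap f)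
      fun c => hδ (c ha))
  have g4 : (f (g * a * g⁻¹)).IsCycle := by rw [map_mul, map_mul, map_inv]; exact a1.conj
  generalize g * a * g⁻¹ = d at g1 g2 g3 g4
  obtain ⟨i, hi⟩ := a1.commute_iff.1 (show Commute (f d) (f a) from (show Commute d a from (h.com g1 a ha).symm).map f)
  rw [ofSubtype_subtypePerm _ fun t ht => ?_, ← MonoidHom.map_zpowers] at hi
  · exact g2 ((mem_map_iff_mem hf).1 hi)
  · obtain ⟨l, rfl⟩ := g4.exists_pow_eq (fun c => g3 ⟨g1, c⟩) ht
    clear ht
    induction l with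
    | zero => exact mem_support.2 hδ
    | succ l ih => rw [pow_succ', mul_apply]; exact (i _).2 ih

end Cfsg.Lib.M7
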