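import Cfsg.Agent.Lib.M7.KA
import Cfsg.Agent.Lib.KI.Red
import Cfsg.Agent.Lib.KI.OddLie

/-! M7/Kb: `C(y) = 7 × A₇` does not occur in a group of Lie type. -/

set_option autoImplicit false
set_option synthInstance.maxSize 2048

namespace Cfsg.Lib.M7

open Subgroup Function Cfsg.Lib.BG Cfsg.Lib.KI Cfsg.Lib.Chev Cfsg.Lib.Twisted Cfsg.Lib.St Cfsg.Lib.Alg
open scoped commutatorElement

instance simpleA7 : IsSimpleGroup A7 := alternatingGroup.isSimpleGroup (by simp)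

theorem commA7 : ⁅(⊤ : Subgroup A7), (⊤ : Subgroup A7)⁆ = ⊤ :=
  ((inferInstance : (⁅(⊤ : Subgroup A7), (⊤ : Subgroup A7)⁆).Normal).eq_bot_or_eq_top).resolve_left fun e => by
    have := e.le (commutator_mem_commutator
      (mem_top (⟨Equiv.swap 0 1 * Equiv.swap 2 3, Equiv.Perm.mem_alternatingGroup.2 (by decide)⟩ : A7))
      (mem_top (⟨Equiv.swap 0 1 * Equiv.swap 1 2, Equiv.Perm.mem_alternatingGroup.2 (by decide)⟩ : A7)))
    exact absurd (congrArg Subtype.val (mem_bot.1 this)) (by decide)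

theorem no_bn {L : Type*} [Group L] [Finite L] {p : ℕ} [hp : Fact p.Prime] (h7 : p ≠ 7) (P : BNPair L)
    (f : L →* A7) (hf : Surjective f) {U V T : Subgroup L} (hU : IsPGroup p U) {n : L}
    (h1 : ∀ v, v ∈ V ↔ n⁻¹ * v * n ∈ U) (h2 : T ≤ 𝐍(U) ⊓ 𝐍(V)) (h3 : ∀ t ∈ T, (orderOf t).Coprime p)
    (h4 : ∀ b, b ∈ P.B ↔ ∃ u ∈ U, ∃ t ∈ T, b = u * t) (h5 : ∀ g, (∀ u ∈ U, g * u * g⁻¹ ∈ P.B) → g ∈ P.B)
    (h6 : f.ker ≤ center L) (h8 : U ⊔ V = ⊤) : False := by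
  have UB : U ≤ P.B := fun u hu => (h4 _).2 ⟨u, hu, 1, one_mem _, (mul_one _).symm⟩
  have BN : P.B ≤ 𝐍(U) := fun b hb => by
    obtain ⟨u, hu, t, ht, rfl⟩ := (h4 b).1 hb
    exact mul_mem (le_normalizer hu) (h2 ht).1
  have ZB : f.ker ≤ P.B := fun z hz => h5 _ fun u hu => by
    rw [← mem_center_iff.1 (h6 hz), mul_inv_cancel_right]; exact UB hu
  let S : Sylow p L := ⟨U, hU, fun {Q} hQ hle => by
    by_contra e
    have := hQ.isNilpotent
    obtain ⟨g, g1, g2⟩ := SetLike.exists_of_lt (normalizerCondition_of_isNilpotent (U.subgroupOf Q)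
      (lt_top_iff_ne_top.2 fun e' => e (le_antisymm (subgroupOf_eq_top.1 e') hle)))
    obtain ⟨u, hu, t, ht, e'⟩ := (h4 g).1 (h5 _ fun u hu =>
      UB ((mem_normalizer_iff.1 g1 ⟨u, hle hu⟩).1 hu))
    obtain ⟨k, hk⟩ := hQ (⟨u, hle hu⟩⁻¹ * g)
    have : t ^ p ^ k = 1 := by rw [eq_inv_mul_iff_mul_eq.2 e'.symm]; exact congrArg Subtype.val hk
    rw [KI.eq_one_of_pow (h3 t ht) this, mul_one] at e'
    exact g2 (mem_subgroupOf.2 (e' ▸ hu))⟩
  let S' : Sylow p A7 := S.mapSurjective hf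
  have e1 : (S' : Subgroup A7) = U.map f := rfl
  have e2 : ∀ v, v ∈ V.map f ↔ (f n)⁻¹ * v * f n ∈ S' := fun v =>
    ⟨by rintro ⟨v, hv, rfl⟩; exact ⟨_, (h1 v).1 hv, by simp⟩, fun ⟨u, hu, e⟩ =>
      ⟨n * u * n⁻¹, (h1 _).2 (by simpa [mul_assoc] using (show u ∈ U from hu)), by simp [e, mul_assoc]⟩⟩
  have e3 : (S' : Subgroup A7) ⊔ V.map f = ⊤ := by
    rw [e1, ← Subgroup.map_sup, h8, map_top_of_surjective f hf]
  by_cases a2 : p = 2
  · subst a2
    exact a7_two P f hf S' fun b hb => e1 ▸ le_normalizer_map f (mem_map_of_mem f (BN hb))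
  by_cases a3 : p = 3 ∨ p = 5
  · refine a7_odd a3 S' e2 (T := T.map f) ((map_mono fun t ht => (h2 ht).2).trans (le_normalizer_map f))
      (fun x hx => ?_) e3
    obtain ⟨x, rfl⟩ := hf x
    obtain ⟨u, hu, t, ht, rfl⟩ := (h4 x).1 (h5 _ fun u hu => by
      obtain ⟨v, hv, e⟩ := (mem_normalizer_iff.1 hx _).1 (mem_map_of_mem f hu)
      have : v⁻¹ * (x * u * x⁻¹) ∈ f.ker := by simp [MonoidHom.mem_ker, e, mul_assoc]
      simpa using mul_mem (UB hv) (ZB this))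
    exact ⟨_, mem_map_of_mem f hu, _, mem_map_of_mem f ht, map_mul ..⟩
  have b : (S' : Subgroup A7) = ⊥ := by
    obtain ⟨k, hk⟩ := IsPGroup.iff_card.1 S'.isPGroup'
    rcases k with _ | k
    · exact card_eq_one.1 hk
    have : p ∣ 2 ^ 3 * 3 ^ 2 * 5 * 7 := ((dvd_pow_self p k.succ_ne_zero).trans
      (hk ▸ card_subgroup_dvd_card _)).trans (by rw [cardA7]; norm_num)
    simp only [hp.out.dvd_mul, hp.out.prime.dvd_pow_iff_dvd, ne_eq, OfNat.ofNat_ne_zero, not_false_eq_true,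
      Nat.prime_dvd_prime_iff_eq hp.out, Nat.prime_two, Nat.prime_three, Nat.prime_five,
      (by norm_num : Nat.Prime 7)] at this
    tauto
  have c : V.map f = ⊥ := eq_bot_iff.2 fun v hv => by
    have := mem_bot.1 (b.le ((e2 v).1 hv))
    rwa [mul_assoc, inv_mul_eq_one, right_eq_mul] at this
  rw [b, c, bot_sup_eq] at e3
  exact bot_ne_top e3

variable {Y : Type*} [Group Y] [Finite Y] {y : Y}

theorem C7.not_seven (h : C7 y) : ¬ IsLieTypeChar 7 Y := fun k => by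
  have : Fact (Nat.Prime 7) := ⟨by norm_num⟩
  obtain ⟨O⟩ := exists_over (.inl k)
  have c := Loc.isChP_iff.1 (O.isChP_centralizer h.1)
  obtain ⟨φ, hφ, e⟩ := h.2.1
  have p := Core.pCore_isPGroup 7 𝐂[y]
  have b : ∀ N : Subgroup 𝐂[y], N.Normal → IsPGroup 7 N → N ≤ φ.ker := fun N n p =>
    (Subgroup.map_eq_bot_iff _).1 ((n.map φ hφ).eq_bot_or_eq_top.resolve_right fun t => by
      obtain ⟨k, hk⟩ := IsPGroup.iff_card.1 (p.map φ)
      rw [t, card_top, cardA7] at hk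
      exact absurd ((Nat.prime_two.prime.dvd_of_dvd_pow (hk ▸ (by norm_num : 2 ∣ 2520)))) (by norm_num))
  have t : ⊤ ≤ φ.ker := fun g _ => b _ inferInstance p (c fun a ha => Subtype.ext (by
    obtain ⟨n, hn⟩ := mem_zpowers_iff.1 ((e a).1 (b _ inferInstance p ha))
    have := (Commute.zpow_right (mem_centralizer_singleton_iff.1 g.2) n).symm
    rw [hn] at this
    exact this))
  obtain ⟨a, ha⟩ := exists_ne (1 : A7)
  obtain ⟨a, rfl⟩ := hφ a
  exact ha (t (mem_top a))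

theorem C7.not_L2 (h : C7 y) : ¬ IsL2 Y := fun ⟨F, _, _, ⟨e⟩⟩ => by
  obtain ⟨p, _, ⟨n, hp, hn⟩⟩ := FiniteField.card' F
  have := Fact.mk hp
  by_cases h7 : p = 7
  · subst h7
    exact h.not_seven (.inl ⟨F, _, _, ‹_›, 2, le_rfl, fun _ => hn ▸ le_trans (by norm_num)
      (Nat.pow_le_pow_right (by norm_num) n.2), ⟨e⟩⟩)
  obtain ⟨u, u1, u2, u3⟩ := h.2.2
  have y7 : y ^ 7 = 1 := h.1 ▸ pow_orderOf_eq_one y
  have c : Commute u y := mem_centralizer_singleton_iff.1 u1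
  have k : ∀ g ∈ closure {u, y}, g ^ 7 = 1 := fun g hg => by
    letI := closureCommGroupOfComm (k := {u, y}) (by
      rintro _ (rfl | rfl) _ (rfl | rfl) <;> first | rfl | exact c | exact c.symm)
    induction hg using closure_induction with
    | mem x hx => rcases hx with rfl | rfl <;> assumption
    | one => simp
    | mul a b ha hb h1 h2 =>
      rw [Commute.mul_pow (congrArg Subtype.val (mul_comm (⟨a, ha⟩ : closure {u, y}) ⟨b, hb⟩)), h1, h2, mul_one]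
    | inv a _ h1 => rw [inv_pow, h1, inv_one]
  have := Fact.mk (by norm_num : Nat.Prime 7)
  let f := PSL2.toP.comp e.toMonoidHom
  have hf : Injective f := PSL2.toP_injective.comp e.injective
  have e1 := (closure {u, y}).equivMapOfInjective f hf
  obtain ⟨j, hj⟩ := IsPGroup.iff_card.1 (show IsPGroup 7 (closure {u, y} : Subgroup Y) from fun g =>
    ⟨1, Subtype.ext (by simpa using k g g.2)⟩)
  have hj' := (Nat.card_congr e1.toEquiv).symm.trans hj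
  have := PSL2.isCyclic_of_coprime_of_odd p (H := (closure {u, y}).map f)
    (hj' ▸ ((Nat.coprime_primes (by norm_num) hp).2 (Ne.symm h7)).pow_left _) (hj' ▸ Odd.pow (by decide))
  obtain ⟨g, hg⟩ := (isCyclic_of_surjective e1.symm e1.symm.surjective).exists_generator
  have l : closure {u, y} ≤ zpowers (g : Y) := fun a ha =>
    let ⟨m, hm⟩ := mem_zpowers_iff.1 (hg ⟨a, ha⟩); ⟨m, congrArg Subtype.val hm⟩
  have m : y ∈ closure ({u, y} : Set Y) := subset_closure (by simp)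
  refine u3 ((eq_of_le_of_card_ge (zpowers_le.2 (l m)) ?_).ge (l (subset_closure (by simp))))
  rw [Nat.card_zpowers, Nat.card_zpowers, h.1]
  exact orderOf_le_of_pow_eq_one (by norm_num) (k g g.2)

theorem C7.not_cover {ι Φ κ : Type} [Fintype ι] [DecidableEq ι] {R : RootSys ι Φ} [Fintype Φ] {p : ℕ}
    [hp : Fact p.Prime] {Y0 : Sym R κ} {m : ι → ℕ} (E : AlgCover Y0 p m Y) (hm : ∀ i, 0 < m i) (h7 : p ≠ 7)
    (hy : C7 y) : False := by
  classical
  obtain ⟨e, m', hn, hm'⟩ := E.exists_nrm hm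
  obtain ⟨s, rfl⟩ := E.surj y
  have h := E.alg
  have h1 : s.1 ^ 7 ∈ center E.G := (E.ker (s ^ 7)).1 (by rw [map_pow, ← hy.1, pow_orderOf_eq_one])
  obtain ⟨b, c, D, d1, d2, -, d4, -⟩ := exists_dat_ss h E.st hn (fun _ => Y0.isPos_ρ) (s := s.1) (by
    obtain ⟨d, -, hd⟩ := (h.hMul.center_eq h.faithful h.top).le h1
    refine Nat.Coprime.coprime_dvd_left (orderOf_dvd_of_pow_eq_one (n := 7 * orderOf (s.1 ^ 7))
      (by rw [pow_mul, pow_orderOf_eq_one])) (Nat.Coprime.mul_left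
        ((Nat.coprime_primes (by norm_num) hp.out).2 h7.symm) (hd ▸ h.coprime_orderOf_tor d)))
    (one_mem _) (by rw [mul_one]; exact s.2)
  have h9 : ∀ x, x ∈ fix D.τ ↔ b * x * b⁻¹ ∈ fix E.σ := fun x => d4 ▸ mem_fix_conj
  let f := E.π.comp (((MulAut.conj b).toMonoidHom.comp (fix D.τ).subtype).codRestrict _
    fun x => (h9 x).1 x.2)
  have hf : Function.Surjective f := E.surj.comp fun y =>
    ⟨⟨b⁻¹ * y * b, (h9 _).2 (by simp [mul_assoc])⟩, Subtype.ext (by simp [mul_assoc])⟩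
  have hk : ∀ z, f z = 1 ↔ z.1 ∈ center E.G := fun z => (E.ker _).trans (by
    change b * z.1 * b⁻¹ ∈ _ ↔ _
    rw [Subgroup.Normal.mem_comm_iff inferInstance, inv_mul_cancel_left])
  let s' : fix D.τ := ⟨_, (h9 _).2 (d1 ▸ s.2)⟩
  have hs : f s' = E.π s := congrArg E.π (Subtype.ext d1.symm)
  have hM : D.M D.S = 𝐂[s'.1] ⊓ fix D.τ := Dat.M_eq_cent h d2
  rw [← hs] at hy
  obtain ⟨φ, hφ, hφ'⟩ := hy.2.1
  have := D.fin
  have := D.finite_of_le (D.L_le_fix D.S)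
  have mM : ∀ x : D.M D.S, (⟨x, D.M_le_fix _ x.2⟩ : fix D.τ) ∈ 𝐂[s'] := fun x => (Dat.mem_M_iff hM).1 x.2
  let ψ : D.M D.S →* A7 := φ.comp ((f.comp (inclusion (D.M_le_fix _))).codRestrict _
    fun x => map_cent1_le (mem_map_of_mem f (mM x)))
  have hψ : ψ.range = ⊤ := eq_top_iff.2 (by
    rw [← commA7, ← map_top_of_surjective φ hφ, ← map_commutator]
    rintro _ ⟨a, ha, rfl⟩
    have : (a : Y) ∈ ⁅𝐂[f s'], 𝐂[f s']⁆ := by
      have := mem_map_of_mem (𝐂[f s']).subtype ha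
      rwa [map_commutator, ← MonoidHom.range_eq_map, range_subtype] at this
    obtain ⟨x, hx, e⟩ := comm_cent1_le hf (Dat.ker_le hk) this
    exact ⟨⟨x, (Dat.mem_M_iff hM).2 hx⟩, congrArg φ (Subtype.ext e)⟩)
  have hK := D.isTw_L
  obtain ⟨n, n1, -, n2, n3, -⟩ := IsTw'.exists_opp hK
  refine no_bn h7 hK.bn (ψ.comp (inclusion (D.L_le_M _))) (MonoidHom.range_eq_top.1 (eq_top_iff.2 ?_))
    (U := (D.U D.S).subgroupOf _) (V := (D.V D.S).subgroupOf _) (T := D.C'.H.subgroupOf _)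
    ((D.isPGroup_U _).comap_of_injective _ (subtype_injective _)) (n := ⟨n, n1⟩) (fun v => ?_) (fun t ht => ?_)
    (fun t ht => ?_) (fun x => ?_) (fun g hg => ?_) (fun z hz => ?_) ?_
  · rw [← commA7, ← hψ, MonoidHom.range_eq_map, ← map_commutator]
    rintro _ ⟨a, ha, rfl⟩
    have := mem_map_of_mem (D.M D.S).subtype ha
    rw [map_commutator, ← MonoidHom.range_eq_map, range_subtype] at this
    exact ⟨⟨a, Dat.part_S.commutator_le this⟩, rfl⟩
  · simp only [mem_subgroupOf, D.U_eq, D.V_eq, mem_inf]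
    refine ⟨fun a => ⟨n3 _ a.1, hK.le_fix (⟨n, n1⟩⁻¹ * v * ⟨n, n1⟩ : D.L D.S).2⟩, fun a => ⟨?_, hK.le_fix v.2⟩⟩
    simpa [mul_assoc] using n2 _ a.1
  · have : (t : E.G) ∈ D.Hf := ⟨D.H'_le ht, D.L_le_fix _ t.2⟩
    exact ⟨mem_normalizer_iff.2 fun u => mem_normalizer_iff.1 (D.Hf_le_normalizer_U _ this) u,
      mem_normalizer_iff.2 fun u => mem_normalizer_iff.1 (D.Hf_le_normalizer_V _ this) u⟩
  · rw [← orderOf_coe]; exact D.cop _ (D.H'_le ht)
  · rw [hK.bn_B, mem_subgroupOf, hK.mem_B_iff]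
    exact ⟨fun ⟨u, hu, k, hk, e⟩ => ⟨⟨u, hu.2⟩, D.U_eq.ge (hK.U_inf.le hu), ⟨k, hk.2⟩, hk.1, Subtype.ext e⟩,
      fun ⟨u, hu, k, hk, e⟩ => ⟨u, hK.U_inf.ge (D.U_eq.le hu), k, ⟨hk, k.2⟩, congrArg Subtype.val e⟩⟩
  · exact mem_sub.2 (IsTw'.mem_B hK g.2 fun u hu => mem_sub.1 (hg ⟨u, hK.U_le hu⟩ (D.U_eq.ge hu)))
  · obtain ⟨k, hk'⟩ := mem_zpowers_iff.1 ((hφ' _).1 hz)
    have : (s'.1 ^ k)⁻¹ * z ∈ center E.G := (hk ((s' ^ k)⁻¹ * ⟨z, D.L_le_fix _ z.2⟩)).1 (by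
      rw [map_mul, map_inv, map_zpow, hk', inv_mul_eq_one]; rfl)
    refine mem_center_iff.2 fun g => Subtype.ext ?_
    have c : Commute (g : E.G) s'.1 := mem_centralizer_singleton_iff.1 (hM.le (D.L_le_M _ g.2)).1
    have c' : Commute (g : E.G) _ := mem_center_iff.1 this g
    simpa using ((c.zpow_right k).mul_right c').eq
  · rw [← subgroupOf_sup (D.U_le_L _) (D.V_le_L _)]
    exact subgroupOf_self _

theorem C7.not_lie [IsSimpleGroup Y] (h : C7 y) {p : ℕ} (hp : p.Prime) : ¬ IsLieTypeChar p Y := fun k => by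
  have := Fact.mk hp
  by_cases h7 : p = 7
  · exact h.not_seven (h7 ▸ k)
  obtain ⟨_, _, _, _, _, _, _, _, _, _, _, hm, ⟨E⟩⟩ := (covered k h.not_L2).exists
  exact C7.not_cover E hm h7 h

end Cfsg.Lib.M7
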