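import Cfsg.Agent.Lib.M7.Tl

/-! M7/Lin: linear algebra on `V = Q/Z₁`.  Use `D : ES.Ext 7 Q (Fin 4 → ZMod 7)` (`exists_ext_of_isExtraspecial_card`), the linear maps
`ρ g = D.ind` of conjugation by `g ∈ N(Z₁)`, `B(ρ v, ρ w) = ζ B(v,w)` (`B_map`).  Fix `u ∈ S∖Q`, `n = ρ u - 1`, `ker n = Z₂/Z₁` has dimension 1 (`fix`).
`scal`: `N₁ ⊓ N₂ = N(S)` has order `7⁶·36` (`N₁ ⊓ N₂` normalises `S = Q·(S ⊓ C(Z₂))`); `T₀ = {t ∈ N(S) | [t,S] ≤ Q}` has index `≤ 6`, so `|T₀ : S| ≥ 6`.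
For `t ∈ T₀` of order prime to 7 with eigenvalue `λ` on `Z₂/Z₁`, `f = λ⁻¹ρ t` has `f^m = 1`, `7 ∤ m`, commutes with `ρ u`; `V = ker(f-1) ⊕ range(f-1)`;
a nonzero `u`-invariant subspace meets `ker n`, so `range (f-1) = 0`.  So `T₀ → (ZMod 7)ˣ` (eigenvalue on `Z₂/Z₁`) has kernel a 7-group (`ff`), it is onto by order,
and the 7'-part of a preimage is the scalar.
`wt`: `t u t⁻¹ ∈ u^μ Q`, so `ρt n = (ρu^μ - 1) ρt`, and `ρu^μ - 1 = n(μ + n·p(n))`.  Chain `W₁ = Z₂ < W₂ = A < W₃ = Q ⊓ C(Z₂)` (dimensions 1,2,3), `n W₃ ≤ W₂`,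
`n W₂ ≤ W₁`, `n` is injective on `W₃/W₂ → W₂/W₁` (`Z3`) and `W₂/W₁ → W₁` (`fix`).  Eigenvalues `α₁ = i, α₂ = j, α₃`: `α₁ = μα₂`, `α₂ = μα₃`, and
`α₂α₃ = 1` (`B(W₂,W₃) ≠ 0` as `C(A) = A`, `B(W₁,W₃) = 0 = B(W₂,W₂)`, `t` centralises `Z₁`).  So `j³ = j·j·μα₃ = i`. -/

set_option autoImplicit false

namespace Cfsg.Lib.M7

open Subgroup Function Cfsg.Lib.BG
open scoped commutatorElement

theorem scal_abs {H : Type*} [Group H] {V T : Subgroup H} [Group.IsNilpotent T] (h1 : V ≤ T) [hV : V.Normal] (ab : V ≤ 𝐂(V))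
    (ex : ∀ v ∈ V, v ^ 7 = 1) {w : H} (wT : ∀ s ∈ T, ⁅w, s⁆ ∈ V) {i m : ℕ} (wm : w ^ m = 1) (m7 : ¬ 7 ∣ m)
    (im : (i : ZMod 7) ^ m = 1) (h0 : ∀ v ∈ V, (∀ s ∈ T, ⁅v, s⁆ = 1) → w * v * w⁻¹ = v ^ i) : ∀ v ∈ V, w * v * w⁻¹ = v ^ i := by
  have c : ∀ {a b}, a ∈ V → b ∈ V → Commute a b := fun ha hb => ab hb _ ha
  let F : Subgroup H :=
    { carrier := {v | v ∈ V ∧ w * v * w⁻¹ = v ^ i}
      one_mem' := ⟨one_mem _, by simp⟩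
      mul_mem' := fun ha hb => ⟨mul_mem ha.1 hb.1, by rw [← conj_mul, ha.2, hb.2, (c ha.1 hb.1).mul_pow]⟩
      inv_mem' := fun ha => ⟨inv_mem ha.1, by rw [← conj_inv, ha.2, inv_pow]⟩ }
  suffices V ≤ F from fun v hv => (this hv).2
  by_contra n
  obtain ⟨x, hx, xn, k⟩ := PGroup.exists_mem_not_mem_commutator_mem h1 le_normalizer_of_normal n
  have hX := hV.conj_mem x hx w
  have hi := pow_mem hx i
  have hr := mul_mem hX (inv_mem hi)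
  have e := h0 _ hr fun s hs => by
    have e1 : w * ⁅x, s⁆ * w⁻¹ = w * x * w⁻¹ * (s * (w * x * w⁻¹) * s⁻¹)⁻¹ := by
      have := (c (wT s hs) (hV.conj_mem _ hX s)).eq
      calc _ = w * x * w⁻¹ * (⁅w, s⁆ * (s * (w * x * w⁻¹) * s⁻¹) * ⁅w, s⁆⁻¹)⁻¹ := by simp only [commutatorElement_def]; group
        _ = _ := by rw [this, mul_inv_cancel_right]
    have e2 : ⁅x, s⁆ ^ i = x ^ i * (s * x ^ i * s⁻¹)⁻¹ := by
      rw [← conj_pow, ← inv_pow, ← (c hx (inv_mem (hV.conj_mem x hx s))).mul_pow]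
      congr 1; simp only [commutatorElement_def]; group
    have e3 := e1.symm.trans ((k s hs).2.trans e2)
    have a1 := c (inv_mem hi) (inv_mem (hV.conj_mem _ hX s))
    have a2 := c (mul_mem hi (inv_mem (hV.conj_mem _ hi s))) (inv_mem hi)
    calc _ = w * x * w⁻¹ * ((x ^ i)⁻¹ * (s * x ^ i * s⁻¹) * (s * (w * x * w⁻¹) * s⁻¹)⁻¹) := by
          simp only [commutatorElement_def]; group
      _ = w * x * w⁻¹ * (s * (w * x * w⁻¹) * s⁻¹)⁻¹ * ((x ^ i)⁻¹ * (s * x ^ i * s⁻¹)) := by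
          rw [(c (mul_mem (inv_mem hi) (hV.conj_mem _ hi s)) (inv_mem (hV.conj_mem _ hX s))).eq, ← mul_assoc]
      _ = _ := by rw [e3, ← mul_assoc, a2.eq]; group
  generalize hr' : w * x * w⁻¹ * (x ^ i)⁻¹ = r at hr e
  have e1 : w * x * w⁻¹ = r * x ^ i := by rw [← hr', inv_mul_cancel_right]
  have it : ∀ k : ℕ, ∃ a, i * a = k * i ^ k ∧ w ^ k * x * (w ^ k)⁻¹ = r ^ a * x ^ i ^ k := fun k => by
    induction k with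
    | zero => exact ⟨0, by simp⟩
    | succ k ih =>
      obtain ⟨a, e2, e3⟩ := ih
      refine ⟨i * a + i ^ k, by rw [e2]; ring, ?_⟩
      calc _ = w * (w ^ k * x * (w ^ k)⁻¹) * w⁻¹ := by rw [pow_succ']; group
        _ = _ := by
          rw [e3, ← conj_mul, ← conj_pow, ← conj_pow, e, e1, (c hr hi).mul_pow, ← pow_mul, ← pow_mul, ← mul_assoc, ← pow_add,
            ← pow_succ']
  obtain ⟨a, e2, e3⟩ := it m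
  have e4 : i ^ m % 7 = 1 := (ZMod.natCast_eq_natCast_iff' _ 1 7).1 (by simpa using im)
  rw [wm, one_mul, inv_one, mul_one, pow_eq_pow_mod _ (ex x hx), e4, pow_one, right_eq_mul] at e3
  have a7 : ¬ 7 ∣ a := fun d => ((fact7.out.dvd_mul.1 (e2 ▸ d.mul_left i)).resolve_left m7 |> fun d => by omega)
  have := (pow_eq_one_iff_of_coprime (fact7.out.coprime_iff_not_dvd.2 a7)).1 ⟨ex r hr, e3⟩
  exact xn ⟨hx, by rw [e1, this, one_mul]⟩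

variable {G : Type*} [Group G] [Finite G] {S Z₁ Z₂ Q K A : Subgroup G} {z x : G} {φ : K →* A7}

theorem L0.scal_aux (h : L0 S Z₁ Z₂ Q K z φ) {w : G} (hw : w ∈ 𝐍(Z₁)) (wS : ∀ s ∈ S, ⁅w, s⁆ ∈ Q) {i : ℕ} (m7 : ¬ 7 ∣ orderOf w)
    (im : (i : ZMod 7) ^ orderOf w = 1) (h0 : ∀ b ∈ Z₂, w * b * w⁻¹ * (b ^ i)⁻¹ ∈ Z₁) :
    ∀ q ∈ Q, w * q * w⁻¹ * (q ^ i)⁻¹ ∈ Z₁ := fun q hq => by
  let π := QuotientGroup.mk' (Z₁.subgroupOf 𝐍(Z₁))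
  have k : ∀ a : 𝐍(Z₁), π a = 1 ↔ (a : G) ∈ Z₁ := fun a => QuotientGroup.eq_one_iff a
  have := (normal_subgroupOf_iff_le_normalizer (h.QS.trans h.SN1)).2 h.NQ
  have : ((Q.subgroupOf 𝐍(Z₁)).map π).Normal := .map this _ (QuotientGroup.mk'_surjective _)
  have := pgroup_nil ((h.pS.comap_subtype (K := 𝐍(Z₁))).map π)
  have e := scal_abs (V := (Q.subgroupOf 𝐍(Z₁)).map π) (T := (S.comap 𝐍(Z₁).subtype).map π) (map_mono fun _ m => h.QS m)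
    (by
      rintro _ ⟨a, ha, rfl⟩ _ ⟨b, hb, rfl⟩
      rw [← commutatorElement_eq_one_iff_mul_comm, ← map_commutatorElement]
      exact (k _).2 (h.cm b hb a ha))
    (by rintro _ ⟨a, ha, rfl⟩; rw [← map_pow, show a ^ 7 = 1 from Subtype.ext (h.exp a ha), map_one]) (w := π ⟨w, hw⟩)
    (by rintro _ ⟨s, hs, rfl⟩; rw [← map_commutatorElement]; exact mem_map_of_mem _ (wS s hs))
    (by rw [← map_pow, show (⟨w, hw⟩ : 𝐍(Z₁)) ^ orderOf w = 1 from Subtype.ext (pow_orderOf_eq_one w), map_one]) m7 im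
    (by
      rintro _ ⟨a, ha, rfl⟩ f
      rw [← mul_inv_eq_one, ← map_pow, ← map_inv, ← map_inv, ← map_mul, ← map_mul, ← map_mul]
      refine (k _).2 (h0 a ((h.Z2 a (h.QS ha)).2 fun s hs => (k ⁅a, ⟨s, h.SN1 hs⟩⁆).1 ?_))
      rw [map_commutatorElement]
      exact f _ (mem_map_of_mem _ hs))
    _ (mem_map_of_mem π (x := ⟨q, h.SN1 (h.QS hq)⟩) hq)
  rw [← mul_inv_eq_one, ← map_pow, ← map_inv, ← map_inv, ← map_mul, ← map_mul, ← map_mul] at e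
  exact (k _).1 e

theorem L1.c4 (h : L1 S Z₁ Z₂ Q K A z φ) : Nat.card ↥(Q ⊓ 𝐂(Z₂)) = 7 ^ 4 := by
  have := h.card_cen h.Z12 h.Z2Q
  rw [h.cZ₂] at this
  omega

theorem L1.le_NS (h : L1 S Z₁ Z₂ Q K A z φ) : 𝐍(Z₁) ⊓ 𝐍(Z₂) ≤ 𝐍(S) := by
  obtain ⟨u, hu, n⟩ := exists_not_mem (A := Q ⊓ 𝐂(Z₂)) (B := S ⊓ 𝐂(Z₂)) (by rw [h.c4, h.c5]; norm_num)
  have e : Q ⊔ S ⊓ 𝐂(Z₂) = S := le_antisymm (sup_le h.QS inf_le_left)
    ((h.S_eq hu.1 fun m => n ⟨m, hu.2⟩).ge.trans (sup_le_sup_left (zpowers_le.2 hu) _))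
  rw [← e]
  exact norm_sup (inf_le_left.trans h.NQ) (inf_le_right.trans h.N5)

theorem L1.scal (h : L1 S Z₁ Z₂ Q K A z φ) {i : ℕ} (hi : ¬ 7 ∣ i) :
    ∃ g ∈ 𝐍(Z₁), ∀ q ∈ Q, g * q * g⁻¹ * (q ^ i)⁻¹ ∈ Z₁ := by
  obtain ⟨μ, hμ⟩ := exists_chi h.QS (h.SN1.trans h.NQ) (by rw [h.cS, h.cQ]; norm_num) (inf_le_left.trans h.NQ) h.le_NS
  obtain ⟨χ, hχ⟩ := exists_chi h.Z12 (le_trans h.Z2Q (h.QS.trans h.SN1)) (by rw [h.cZ₁, h.cZ₂])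
    (inf_le_left : 𝐍(Z₁) ⊓ 𝐍(Z₂) ≤ _) inf_le_right
  have k : ∀ t, μ t = 1 → ∃ y w : ↥(𝐍(Z₁) ⊓ 𝐍(Z₂)), (y : G) ∈ S ∧ PiElt {7}ᶜ w ∧ t = y * w ∧
      ∀ i : ℕ, (χ t : ZMod 7) = i → ∀ q ∈ Q, w * q * (w : G)⁻¹ * (q ^ i)⁻¹ ∈ Z₁ := fun t ht => by
    obtain ⟨y, -, w, hw, y7, w7, rfl, -⟩ := exists_pi_decomp {7} t
    have e : ∀ f : ↥(𝐍(Z₁) ⊓ 𝐍(Z₂)) →* (ZMod 7)ˣ, f (y * w) = f w := fun f => by
      rw [map_mul, (y7.map f).eq_one (PiNat.p'_iff.2 fun d => by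
        have := d.trans (orderOf_dvd_of_pow_eq_one (ZMod.units_pow_card_sub_one_eq_one 7 (f y)))
        omega), one_mul]
    have p : PiElt {7} (y : G) := y7.map (Subgroup.subtype _)
    refine ⟨y, w, h.syl.ge_of_norm_p' le_top p.zpowers.pgroup (zpowers_le.2 (h.le_NS y.2)) (mem_zpowers _), w7, rfl,
      fun i f => h.scal_aux w.2.1 (fun s hs => ?_) (by rw [orderOf_coe]; exact PiNat.p'_iff.1 w7) ?_ ((hχ w i).1 (e χ ▸ f))⟩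
    · simpa [commutatorElement_def] using (hμ w 1).1 (by rw [← e, ht]; simp) s hs
    · rw [← f, e, ← Units.val_pow_eq_pow_val, ← map_pow, orderOf_coe, pow_orderOf_eq_one, map_one, Units.val_one]
  have c : Nat.card (μ.prod χ).ker ≤ 7 ^ 6 := by
    rw [← h.cS, ← card_map_of_injective (Subgroup.subtype_injective _)]
    refine card_le_of_le ?_
    rintro _ ⟨t, ht, rfl⟩
    obtain ⟨y, w, hy, w7, rfl, f⟩ := k t (congrArg Prod.fst ht)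
    refine mul_mem hy (h.QS (h.ff w w.2.1 fun q hq => ?_))
    simpa [commutatorElement_def] using f 1 (by rw [show χ (y * w) = 1 from congrArg Prod.snd ht]; simp) q hq
  have c1 := (μ.prod χ).ker.card_mul_index
  rw [index_ker, h.cN12] at c1
  have c2 : (μ.prod χ).range = ⊤ := eq_of_card_le le_top (by
    rw [card_top, Nat.card_prod, Nat.card_eq_fintype_card, ZMod.card_units]
    nlinarith)
  obtain ⟨t, e⟩ := c2.ge (mem_top (1, Units.mk0 (i : ZMod 7) fun e => hi ((ZMod.natCast_eq_zero_iff _ _).1 e)))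
  obtain ⟨-, w, -, -, -, f⟩ := k t (congrArg Prod.fst e)
  exact ⟨w, w.2.1, f i (congrArg (fun p => (p.2 : ZMod 7)) e)⟩

theorem L1.Z3' (h : L1 S Z₁ Z₂ Q K A z φ) {u q : G} (hu : u ∈ S) (n : u ∉ Q) (hq : q ∈ Q) (c : ⁅q, u⁆ ∈ Z₂) : q ∈ A :=
  (h.Z3 q hq).2 fun s hs => (sup_le (c := cmS Z₂ q) (fun r hr => ⟨h.SN (h.QS hr), h.Z12 (h.cm q hq r hr)⟩)
    (zpowers_le.2 ⟨h.SN hu, c⟩) ((h.S_eq hu n).ge hs)).2

theorem L1.c23 (h : L1 S Z₁ Z₂ Q K A z φ) : Nat.card A = Nat.card Z₂ * 7 := by rw [h.cA, h.cZ₂]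

theorem L1.A4 (h : L1 S Z₁ Z₂ Q K A z φ) : A ≤ Q ⊓ 𝐂(Z₂) := le_inf h.AQ (h.CA.ge.trans (cent_anti h.Z2A))

theorem L1.mem_A (h : L1 S Z₁ Z₂ Q K A z φ) (h1 : x ∈ A) (h2 : x ∉ Z₂) {g : G} (h3 : g ∈ 𝐂(Z₂)) (h4 : g ∈ 𝐂[x]) : g ∈ A := by
  rw [← h.CA, ← sup_eq_of_card h.Z2A h.c23 h1 h2, cent_sup, cent_zpowers]
  exact ⟨h3, h4⟩

theorem L1.wt (h : L1 S Z₁ Z₂ Q K A z φ) {t : G} (h1 : t ∈ 𝐍(S)) (h2 : t ∈ K) {i j : ℕ}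
    (h3 : ∀ b ∈ Z₂, t * b * t⁻¹ * (b ^ i)⁻¹ ∈ Z₁) (h4 : ∀ c ∈ A, t * c * t⁻¹ * (c ^ j)⁻¹ ∈ Z₂) :
    j ^ 3 % 7 = i % 7 := by
  obtain ⟨t1, t2⟩ := h.NS_le h1
  have n4 : 𝐍(Z₁) ⊓ 𝐍(Z₂) ≤ 𝐍(Q ⊓ 𝐂(Z₂)) := norm_inf (inf_le_left.trans h.NQ) (norm_cent inf_le_right)
  have c4 : Nat.card ↥(Q ⊓ 𝐂(Z₂)) = Nat.card A * 7 := by rw [h.c4, h.cA]; norm_num
  have nA : Q ⊓ 𝐂(Z₂) ≤ 𝐍(A) := inf_le_left.trans (h.Q_le_norm (h.Z12.trans h.Z2A) h.AQ)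
  obtain ⟨m, -, hm⟩ := ev_ex h.QS (h.SN1.trans h.NQ) (by rw [h.cS, h.cQ]; norm_num) (h.NQ t1) h1
  obtain ⟨k, -, hk⟩ := ev_ex h.A4 nA c4 (h.N3 t2) (n4 ⟨t1, t2⟩)
  obtain ⟨c, hc, cn⟩ := exists_not_mem (A := Z₂) (B := A) (by rw [h.cA, h.cZ₂]; norm_num)
  obtain ⟨u, hu, un⟩ := exists_not_mem (A := Q) (B := S) (by rw [h.cQ, h.cS]; norm_num)
  obtain ⟨d, hd, dn⟩ := exists_not_mem (A := A) (B := Q ⊓ 𝐂(Z₂)) (by rw [h.cA, h.c4]; norm_num)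
  have z2 : ∀ b ∈ Z₂, ∀ s ∈ S, ⁅b, s⁆ ∈ Z₁ := fun b hb => (h.Z2 b (h.QS (h.Z2Q hb))).1 hb
  have z3 : ∀ b ∈ A, ∀ s ∈ S, ⁅b, s⁆ ∈ Z₂ := fun b hb => (h.Z3 b (h.AQ hb)).1 hb
  have cQ := h.AQ hc
  have tu := conj_mem_of_norm h1 hu
  have e1 := ev_uniq h.Z12 (le_trans h.Z2Q (h.QS.trans h.SN1)) (by rw [h.cZ₁, h.cZ₂]) t1 t2 (z3 c hc u hu)
    (fun m => cn (h.fix u hu un c cQ m)) (h3 _ (z3 c hc u hu)) (bil h.SN1 t1 h1 (h.QS cQ) hu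
      (fun r hr => cm_swap (z2 _ (z3 c hc u hu) r hr)) (z2 _ (h4 c hc) _ tu) (h.cm c cQ _ (hm u hu)))
  obtain ⟨n, e⟩ := h.pS ⟨u, hu⟩
  have du := cm_swap (triv_fac h.A4 nA c4 (h.N3 (h.SN hu)) (n4 ⟨h.SN1 hu, h.SN hu⟩) (congrArg Subtype.val e) hd)
  have e2 := ev_uniq h.Z2A (le_trans h.AQ (h.QS.trans h.SN)) h.c23 t2 (h.N3 t2) du
    (fun m => dn (h.Z3' hu un hd.1 m)) (h4 _ du) (bil h.SN t2 h1 (h.QS hd.1) hu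
      (fun r hr => cm_swap (z3 _ du r hr)) (z3 _ (hk d hd) _ tu) (h.Z12 (h.cm d hd.1 _ (hm u hu))))
  have cd := h.cm c cQ d hd.1
  have tb : t ∈ 𝐍((⊥ : Subgroup G)) := norm_bot.ge (mem_top t)
  have e3 := ev_uniq (A := ⊥) bot_le (le_top.trans norm_bot.ge) (by rw [h.cZ₁, card_bot]) tb t1 cd
    (fun m => dn (h.mem_A hc cn hd.2 (mem_cent1.2 (commutatorElement_eq_one_iff_mul_comm.1 m).symm)))
    (bil (S := Q) (le_top.trans norm_bot.ge) tb (h.NQ t1) cQ hd.1 (fun r hr => cm_one (h.ZQ.ge cd r hr))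
      (cm_one ((conj_mem_of_norm (n4 ⟨t1, t2⟩) hd).2 _ (h4 c hc))) (cm_one (h.CA.ge (hk d hd) c hc)))
    (j := 1) (by rw [← h.KC h2 _ cd, mul_inv_cancel_right, pow_one, mul_inv_cancel]; exact one_mem _)
  push_cast at e1 e2 e3
  refine (ZMod.natCast_eq_natCast_iff' _ _ 7).1 ?_
  push_cast
  linear_combination (j : ZMod 7) ^ 2 * e2 + (j : ZMod 7) * m * e3 - e1

end Cfsg.Lib.M7
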