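import Cfsg.Agent.Lib.M7.Bas
import Cfsg.Agent.Lib.BG.Hall
import Cfsg.Agent.Lib.Core.MinNormal

/-! M7/Smp: the simple socle.
`smp`: a normal `N ≠ ⊥` has order divisible by `p`, so `N ⊓ P ≠ ⊥` is normal in `P`, meets `Z(P)`, `Z ≤ N`.  `M` minimal normal, `P ≤ M`.  `T` minimal normal in `M`: `p ∣ |T|` (else the join of the
`G`-conjugates of `T`, or `O_{p'}(M)`, is a normal `p'`-subgroup), so `Z ≤ T` and `Z ≤ gTg⁻¹`, `T = gTg⁻¹`, `T = M`.  Abelian simple would be a normal `p`-group.  `C(M) ≠ ⊥` gives `Z ≤ Z(M)`.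
`o7'`: `Z₂` (elementary, order 49) acts on `N`; `N ⊓ C(a)` for `a ∈ Z₁#` is a 7'-subgroup of `K` normalised by `Q`, `[·,Q] ≤ N ⊓ Q = 1`, so in `C(Q) = Z₁`, trivial; conjugate by `tr`;
`coprime_abelian_gen_cent1`.  `top`: `N ⊴ G`, `Z₁ ≤ N` ⇒ `Z₂ ≤ N` (`tr`) ⇒ `Sp ⊆ N ⊓ Q`, `5040 > 7⁴` ⇒ `Q ≤ N`.  For `g ∈ N₂` moving `Z₁`, `g Z₄ g⁻¹ ≤ A₅ ≤ S` (`Z₄ = Q ⊓ C(Z₂)`, `N5`) is not in `Q`
(else it equals `Z₄`, whose commutators lie in `Z₁ ⊓ gZ₁g⁻¹ = 1`, but `A < Z₄`, `C(A) = A`), so `S ≤ N` (`S_eq`).  If `S ≤ M ⊴ G` then `φ(M ⊓ K) = A₇`; take `k ∈ M ⊓ K` with `φ k` an involution: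
`k² ∉ Q` (`uq`), `k²z ∈ Q`, so `z ∈ M`, `K ≤ M`. -/

set_option autoImplicit false

namespace Cfsg.Lib.M7

open Subgroup Function Cfsg.Lib.BG
open scoped commutatorElement

variable {G : Type*} [Group G] [Finite G]

theorem le_of_dvd {p : ℕ} [hp : Fact p.Prime] {P Z L : Subgroup G} (hP : IsPGroup p P) (iP : ¬ p ∣ P.index)
    (eZ : P ⊓ 𝐂(P) = Z) (cZ : Nat.card Z = p) (n : P ≤ 𝐍(L)) (d : p ∣ Nat.card L) : Z ≤ L := by
  have s : Syl p P ⊤ := Syl.mk' le_top hP (by rwa [relIndex_top_right])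
  have h0 := nil_meet_center (pgroup_nil hP) (inf_le_left (b := L)) (norm_inf (le_norm P) n)
    (Syl.ne_bot' (Hall.inf s le_top n) d)
  refine le_of_prime_of_inf_ne_bot (cZ ▸ hp.out) (ne_bot_mono h0 ?_)
  rw [← eZ]
  exact fun g hg => ⟨⟨hg.1.1, hg.2⟩, hg.1.2⟩

theorem smp {p : ℕ} [Fact p.Prime] {P Z : Subgroup G} (hP : IsPGroup p P) (iP : ¬ p ∣ P.index)
    (eZ : P ⊓ 𝐂(P) = Z) (cZ : Nat.card Z = p) (h1 : ∀ N : Subgroup G, N.Normal → ¬ p ∣ Nat.card N → N = ⊥)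
    (h2 : ∀ N : Subgroup G, N.Normal → IsPGroup p N → N = ⊥) (h3 : ∀ N : Subgroup G, N.Normal → Z ≤ N → P ≤ N) :
    ∃ M : Subgroup G, M.Normal ∧ IsSimpleGroup M ∧ ¬ IsMulCommutative M ∧ P ≤ M ∧ 𝐂(M) = ⊥ := by
  have Z0 : Z ≠ ⊥ := ne_bot_of_prime (cZ ▸ Fact.out)
  have k1 : ∀ N : Subgroup G, N.Normal → N ≠ ⊥ → Z ≤ N := fun N hN h0 =>
    le_of_dvd hP iP eZ cZ (le_top.trans (Nml.top_iff.2 hN).norm) (by_contra fun e => h0 (h1 N hN e))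
  obtain ⟨M, hM, -⟩ := Core.exists_isMinNormal_le (N := (⊤ : Subgroup G)) inferInstance (ne_bot_mono Z0 le_top)
  have := hM.normal
  have nM : Nml M ⊤ := Nml.top_iff.2 this
  have PM := h3 M this (k1 M this hM.ne_bot)
  have k2 : ∀ L : Subgroup G, Nml L M → L ≠ ⊥ → Z ≤ L := fun L hL h0 =>
    le_of_dvd hP iP eZ cZ (PM.trans hL.norm) (by_contra fun e => h0 (eq_bot_mono
      (h1 _ (Nml.top_iff.1 (nM.pcore {p}ᶜ)) (PiGrp.p'_iff.1 (pcore_pi _ _))) (pcore_max (PiGrp.p'_iff.2 e) hL)))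
  have nab : ¬ IsMulCommutative M := fun c => Z0 (eq_bot_mono (h2 _ (Nml.top_iff.1 (nM.pcore {p}))
    (pcore_pgroup p M)) ((eZ.ge.trans inf_le_left).trans (pcore_max_p hP (Nml.of_abelian c PM))))
  refine ⟨M, this, ?_, nab, PM, by_contra fun h0 => nab (abelian_iff.2 ?_)⟩
  · have : Nontrivial M := (nontrivial_iff_ne_bot M).2 hM.ne_bot
    refine ⟨fun L hL => or_iff_not_imp_left.2 fun h0 => ?_⟩
    have n := Nml.of_normal M L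
    have h0' : L.map M.subtype ≠ ⊥ := fun e => h0 ((map_eq_bot_iff_of_injective _ M.subtype_injective).1 e)
    have c : Z ≤ (L.map M.subtype).normalCore := fun a ha b => by
      have n' := n.conj b⁻¹
      rw [nM.conj_eq (mem_top _)] at n'
      simpa using Transfer.mem_conj.1 (k2 _ n' (fun e => h0' (Transfer.conj_eq_bot_iff.1 e)) ha)
    have e := hM.eq_of_le inferInstance (ne_bot_mono Z0 c) ((normalCore_le _).trans n.le)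
    refine eq_top_iff.2 fun g _ => ?_
    obtain ⟨y, hy, e'⟩ := normalCore_le _ (e.ge g.2)
    rwa [← show y = g from Subtype.ext e']
  · have c : (M ⊓ 𝐂(M)).Normal := inferInstance
    have := hM.eq_of_le c (ne_bot_mono Z0 (le_inf (k1 M this hM.ne_bot) (k1 _ inferInstance h0))) inf_le_left
    exact this.ge.trans inf_le_right

variable {S Z₁ Z₂ Q K A : Subgroup G} {z x : G} {φ : K →* A7}

theorem L0.exists_gen (h : L0 S Z₁ Z₂ Q K z φ) : ∃ a ∈ Z₁, a ≠ 1 :=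
  exists_ne_one (ne_bot_of_prime (h.cZ₁ ▸ fact7.out))

theorem L0.exists_two (h : L0 S Z₁ Z₂ Q K z φ) : ∃ w ∈ Z₂, w ∉ Z₁ := by
  by_contra! e
  have := card_le_of_le (show Z₂ ≤ Z₁ from e)
  rw [h.cZ₁, h.cZ₂] at this
  omega

theorem L0.ncyc (h : L0 S Z₁ Z₂ Q K z φ) {B : Subgroup G} (h1 : B ≤ Q) (h2 : 7 < Nat.card B) : ¬ IsCyclic B := fun c => by
  obtain ⟨a, ha, rfl⟩ := cyclic_iff.1 c
  rw [Nat.card_zpowers] at h2
  exact absurd (Nat.le_of_dvd (by norm_num) (orderOf_dvd_of_pow_eq_one (h.exp a (h1 ha)))) (by omega)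

theorem L1.cen1 (h : L1 S Z₁ Z₂ Q K A z φ) {a : G} (h1 : a ∈ Z₁) (h2 : a ≠ 1) : 𝐂[a] = K :=
  (cent1_eq_of_prime (h.cZ₁ ▸ fact7.out) h1 h2).trans h.CK

theorem L1.ab2 (h : L1 S Z₁ Z₂ Q K A z φ) : Z₂ ≤ 𝐂(Z₂) := cent_mono h.CA.ge h.Z2A h.Z2A

theorem L1.o7' (h : L1 S Z₁ Z₂ Q K A z φ) (N : Subgroup G) (hN : N.Normal) (h7 : ¬ 7 ∣ Nat.card N) : N = ⊥ := by
  have n : ∀ B : Subgroup G, B ≤ 𝐍(N) := fun B => le_top.trans (Nml.top_iff.2 hN).norm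
  have p : PiGrp {7}ᶜ N := PiGrp.p'_iff.2 h7
  have e : N ⊓ K = ⊥ := by
    have c : N ⊓ K ≤ Z₁ := h.ZQ ▸ cent_symm ((PiGrp.p_iff.2 h.pQ).cent (p.of_le inf_le_left)
      (norm_inf (n _) (le_norm_of_le h.QK)) (inf_le_right.trans (h.KN.trans h.NQ)))
    exact (PiGrp.p_iff.2 (pgroup_of_le h.pQ (c.trans h.Z1Q))).eq_bot (p.of_le inf_le_left)
  obtain ⟨a, ha, a1⟩ := h.exists_gen
  refine le_bot_iff.1 (coprime_abelian_gen_cent1 (abelian_iff.2 h.ab2) (h.ncyc h.Z2Q (by rw [h.cZ₂]; norm_num)) (n _)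
    (p.coprime_pgroup (pgroup_of_le h.pQ h.Z2Q)).symm fun b hb b1 => ?_)
  obtain ⟨g, -, rfl⟩ := h.tr a (h.Z12 ha) a1 b hb b1
  rw [← conj_cent1, h.cen1 ha a1, ← conj_eq_of_norm (n ⊤ (mem_top g)), ← Transfer.conj_inf, e, Subgroup.map_bot]

theorem L1.Sp_sub (h : L1 S Z₁ Z₂ Q K A z φ) {q : G} (hq : q ∈ Sp Z₁ Z₂) : q ∈ Q := by
  obtain ⟨g, hg, v, hv, -, rfl⟩ := hq
  exact conj_mem_of_norm (h.NQ hg) (h.Z2Q hv)

/-- an element of `N(Z₂)` moving `Z₁` does not normalise `Q ⊓ C(Z₂)` -/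
theorem L1.exists_out (h : L1 S Z₁ Z₂ Q K A z φ) {g : G} (hg : g ∈ 𝐍(Z₂)) {a : G} (ha : a ∈ Z₁)
    (hn : g * a * g⁻¹ ∉ Z₁) : ∃ q ∈ Q ⊓ 𝐂(Z₂), g * q * g⁻¹ ∉ Q := by
  by_contra! e
  have c := h.card_cen h.Z12 h.Z2Q
  have : Q ⊓ 𝐂(Z₂) ≤ A := h.CA ▸ fun q hq r hr => by
    have hr' : r ∈ Q ⊓ 𝐂(Z₂) := ⟨h.AQ hr, cent_anti h.Z2A (h.CA.ge hr)⟩
    refine commutatorElement_eq_one_iff_mul_comm.1 (by_contra fun c1 => hn ?_)
    have h1 := h.cm _ (e r hr') _ (e q hq)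
    rw [h.eq_zpowers (h.cm _ hr'.1 _ hq.1) c1] at ha
    obtain ⟨n, rfl⟩ := mem_zpowers_iff.1 ha
    rw [← conj_zpow]
    refine zpow_mem ?_ n
    convert h1 using 1
    simp only [commutatorElement_def]; group
  have := card_le_of_le this
  rw [h.cA] at this
  rw [h.cZ₂] at c
  omega

theorem L0.K_le (h : L0 S Z₁ Z₂ Q K z φ) {M : Subgroup G} [hM : M.Normal] (h1 : S ≤ M) : K ≤ M := by
  have : IsSimpleGroup A7 := alternatingGroup.isSimpleGroup (by simp)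
  obtain ⟨u, hu, hn⟩ : ∃ u ∈ S, u ∉ Q := by
    by_contra! e
    have := card_le_of_le (show S ≤ Q from e)
    rw [h.cS, h.cQ] at this
    omega
  have t : (M.subgroupOf K).map φ = ⊤ := ((Normal.map inferInstance φ h.surj).eq_bot_or_eq_top).resolve_left fun e => by
    rcases (h.ker _).1 (mem_bot.1 (e.le (mem_map_of_mem φ (show (⟨u, h.SK hu⟩ : K) ∈ _ from h1 hu)))) with e | e
    · exact hn e
    · obtain ⟨k, hk⟩ := h.pS ⟨z, by simpa using mul_mem (inv_mem hu) (h.QS e)⟩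
      have := orderOf_dvd_of_pow_eq_one (show z ^ 7 ^ k = 1 from congrArg Subtype.val hk)
      rw [h.oz] at this
      exact absurd (Nat.prime_two.dvd_of_dvd_pow this) (by norm_num)
  have hz : z ∈ M := by
    obtain ⟨k, hk, e⟩ := t.ge
      (mem_top (⟨Equiv.swap 0 1 * Equiv.swap 2 3, Equiv.Perm.mem_alternatingGroup.2 (by decide)⟩ : A7))
    rcases (h.ker (k * k)).1 (by rw [map_mul, e]; exact Subtype.ext (by decide)) with e' | e'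
    · exact absurd (congrArg Subtype.val (e.symm.trans (h.uq k e'))) (by decide)
    · simpa [mul_assoc] using mul_mem (inv_mem (mul_mem (show (k : G) ∈ M from hk) hk)) (h1 (h.QS e'))
  intro k hk
  obtain ⟨m, hm, e⟩ := t.ge (mem_top (φ ⟨k, hk⟩))
  rcases (h.ker (m⁻¹ * ⟨k, hk⟩)).1 (by rw [map_mul, map_inv, e, inv_mul_cancel]) with e' | e'
  · simpa using mul_mem (show (m : G) ∈ M from hm) (h1 (h.QS e'))
  · simpa [mul_assoc] using mul_mem (mul_mem (show (m : G) ∈ M from hm) (h1 (h.QS e'))) (inv_mem hz)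

theorem L2.top (h : L2 S Z₁ Z₂ Q K A z φ x) :
    ∃ M : Subgroup G, M.Normal ∧ IsSimpleGroup M ∧ ¬ IsMulCommutative M ∧ K ≤ M ∧ 𝐂(M) = ⊥ := by
  obtain ⟨a, ha, a1⟩ := h.exists_gen
  obtain ⟨M, h1, h2, h3, h4, h5⟩ := smp h.pS h.iS h.ZS h.cZ₁ h.o7' h.o7 fun N hN h1 => by
    have h2 : Z₂ ≤ N := fun w hw => by
      by_cases w1 : w = 1
      · exact w1 ▸ one_mem _
      obtain ⟨g, -, rfl⟩ := h.tr a (h.Z12 ha) a1 w hw w1
      exact hN.conj_mem _ (h1 ha) g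
    have h3 : Sp Z₁ Z₂ ⊆ (N ⊓ Q : Subgroup G) := fun q hq => ⟨by
      obtain ⟨g, -, v, hv, -, rfl⟩ := hq
      exact hN.conj_mem _ (h2 hv) g, h.Sp_sub hq⟩
    have h4 := Set.ncard_le_ncard h3
    rw [h.cSp, ← Nat.card_coe_set_eq] at h4
    have h5 : Q ≤ N := by
      have := card_dvd_of_le (inf_le_right : N ⊓ Q ≤ Q)
      rw [h.cQ] at this
      obtain ⟨k, k5, e⟩ := (Nat.dvd_prime_pow fact7.out).1 this
      refine (eq_of_card_le (inf_le_right : N ⊓ Q ≤ Q) ?_).ge.trans inf_le_left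
      replace h4 : 5040 ≤ Nat.card ↥(N ⊓ Q) := h4
      rw [h.cQ, e]
      rw [e] at h4
      interval_cases k <;> omega
    obtain ⟨w, hw, wn⟩ := h.exists_two
    obtain ⟨g, hg, rfl⟩ := h.tr a (h.Z12 ha) a1 w hw fun e => wn (e ▸ one_mem _)
    obtain ⟨q, hq, hn⟩ := h.exists_out (O7_le _ hg) ha wn
    rw [← h.S_eq (conj_mem_of_norm (h.N5 (O7_le _ hg)) ⟨h.QS hq.1, hq.2⟩).1 hn]
    exact sup_le h5 (zpowers_le.2 (hN.conj_mem _ (h5 hq.1) g))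
  exact ⟨M, h1, h2, h3, h.K_le h4, h5⟩

end Cfsg.Lib.M7
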