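import Cfsg.Agent.Lib.M7.Smp

/-! M7/Tl: tools for A0–A3, Lin, Four (helper17): the subgroup `cmS`, orbit counting, eigenvalues on a factor of order 7,
bilinearity of commutators. -/

set_option autoImplicit false

namespace Cfsg.Lib.M7

open Subgroup Function Cfsg.Lib.BG
open scoped commutatorElement

variable {G : Type*} [Group G] {A B H Z : Subgroup G}

/-- the elements of `N(Z)` that centralise `q` modulo `Z` -/
def cmS (Z : Subgroup G) (q : G) : Subgroup G where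
  carrier := {s | s ∈ 𝐍(Z) ∧ ⁅q, s⁆ ∈ Z}
  one_mem' := ⟨one_mem _, by simp⟩
  mul_mem' := fun {a b} ha hb => ⟨mul_mem ha.1 hb.1, by
    convert mul_mem ha.2 (conj_mem_of_norm ha.1 hb.2) using 1
    simp only [commutatorElement_def]; group⟩
  inv_mem' := fun {a} ha => ⟨inv_mem ha.1, by
    convert conj_mem_of_norm' ha.1 (inv_mem ha.2) using 1
    simp only [commutatorElement_def]; group⟩

theorem cm_swap {a b : G} (h : ⁅a, b⁆ ∈ Z) : ⁅b, a⁆ ∈ Z := by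
  rw [← commutatorElement_inv]; exact inv_mem h

theorem cm_conj {a b g : G} (hg : g ∈ 𝐍(Z)) (h : ⁅a, b⁆ ∈ Z) : ⁅g * a * g⁻¹, g * b * g⁻¹⁆ ∈ Z := by
  convert conj_mem_of_norm hg h using 1
  simp only [commutatorElement_def]; group

theorem cm_one {a b : G} (h : a * b = b * a) : ⁅a, b⁆ ∈ Z := by
  rw [commutatorElement_eq_one_iff_mul_comm.2 h]; exact one_mem _

theorem cm_of_mem {a b : G} (ha : a ∈ Z) (hb : b ∈ 𝐍(Z)) : ⁅a, b⁆ ∈ Z := by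
  convert mul_mem ha (conj_mem_of_norm hb (inv_mem ha)) using 1
  simp only [commutatorElement_def]; group

theorem orb_card (N : Subgroup G) (x : G) :
    {y | ∃ n ∈ N, n * x * n⁻¹ = y}.ncard * Nat.card ↥(N ⊓ 𝐂[x]) = Nat.card N := by
  let _ : MulAction N G := MulAction.compHom G (MulAut.conj.comp N.subtype)
  have e1 : MulAction.stabilizer N x = (N ⊓ 𝐂[x]).subgroupOf N := Subgroup.ext fun g =>
    (mul_inv_eq_iff_eq_mul.trans mem_cent1.symm).trans (and_iff_right g.2).symm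
  have e2 : MulAction.orbit N x = {y | ∃ n ∈ N, n * x * n⁻¹ = y} :=
    Set.ext fun y => ⟨fun ⟨n, e⟩ => ⟨n.1, n.2, e⟩, fun ⟨n, h, e⟩ => ⟨⟨n, h⟩, e⟩⟩
  rw [← e2, ← MulAction.index_stabilizer, e1, ← Nat.card_congr (subgroupOfEquivOfLe (inf_le_left : N ⊓ 𝐂[x] ≤ N)).toEquiv,
    index_mul_card]

variable [Finite G]

theorem ncard_diff (h : A ≤ B) : {y | y ∈ B ∧ y ∉ A}.ncard = Nat.card B - Nat.card A :=
  Set.ncard_sdiff (s := (A : Set G)) (t := B) h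

theorem idx_le {C D : Subgroup G} (f : G → G) (hf : ∀ x ∈ A, f x ∈ B)
    (i : ∀ x ∈ A, ∀ y ∈ A, (f x)⁻¹ * f y ∈ D → x⁻¹ * y ∈ C) : C.relIndex A ≤ D.relIndex B := by
  let g : A ⧸ C.subgroupOf A → B ⧸ D.subgroupOf B := fun c => QuotientGroup.mk ⟨_, hf _ c.out.2⟩
  refine Nat.card_le_card_of_injective g fun c d e => ?_
  rw [← c.out_eq', ← d.out_eq']
  exact QuotientGroup.eq.2 (i _ c.out.2 _ d.out.2 ((QuotientGroup.eq (s := D.subgroupOf B)).1 e))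

theorem sup_eq_of_card {b : G} (h1 : A ≤ B) (c : Nat.card B = Nat.card A * 7) (hb : b ∈ B) (hn : b ∉ A) :
    A ⊔ zpowers b = B :=
  eq_of_lt_of_card (p := 7) (by norm_num) (lt_of_le_of_ne le_sup_left fun e => hn (e.ge (mem_sup_right (mem_zpowers b))))
    (sup_le h1 (zpowers_le.2 hb)) c

theorem exists_not_mem (c : Nat.card A < Nat.card B) : ∃ b ∈ B, b ∉ A := by
  by_contra! e
  exact c.not_ge (card_le_of_le (show B ≤ A from e))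

section
variable (h1 : A ≤ B) (h2 : B ≤ 𝐍(A)) (c : Nat.card B = Nat.card A * 7)
include h1 h2 c

/-- the eigenvalue on `B/A` -/
theorem exists_chi (h3 : H ≤ 𝐍(A)) (h4 : H ≤ 𝐍(B)) : ∃ χ : H →* (ZMod 7)ˣ, ∀ (g : H) (i : ℕ),
    ((χ g : ZMod 7) = i → ∀ b ∈ B, g * b * (g : G)⁻¹ * (b ^ i)⁻¹ ∈ A) ∧
      ∀ b ∈ B, b ∉ A → g * b * (g : G)⁻¹ * (b ^ i)⁻¹ ∈ A → (χ g : ZMod 7) = i := by
  have := (normal_subgroupOf_iff_le_normalizer h1).2 h2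
  have c' : Nat.card (B ⧸ A.subgroupOf B) = 7 :=
    Nat.eq_of_mul_eq_mul_left Nat.card_pos ((card_mul_relIndex h1).trans c)
  let e' := mulEquivOfPrimeCardEq c' (show Nat.card (Multiplicative (ZMod 7)) = 7 by simp)
  let e := e'.toMonoidHom.comp (QuotientGroup.mk' _)
  have k : ∀ b : B, e b = 1 ↔ (b : G) ∈ A := fun b => by simp [e, mem_subgroupOf]
  obtain ⟨b₀, e0⟩ : ∃ b, e b = .ofAdd 1 :=
    (show Surjective e from e'.surjective.comp (QuotientGroup.mk'_surjective _)) _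
  let cj : H → B → B := fun g b => ⟨g * b * (g : G)⁻¹, conj_mem_of_norm (h4 g.2) b.2⟩
  have k1 : ∀ g b, (e (cj g b)).toAdd = (e (cj g b₀)).toAdd * (e b).toAdd := fun g b => by
    have m : e (b * (b₀ ^ (e b).toAdd.val)⁻¹) = 1 := by
      rw [map_mul, map_inv, map_pow, e0, ← ofAdd_nsmul, nsmul_one, ZMod.natCast_zmod_val, ofAdd_toAdd, mul_inv_cancel]
    have m' : e (cj g b * (cj g b₀ ^ (e b).toAdd.val)⁻¹) = 1 := (k _).2 (by
      convert conj_mem_of_norm (h3 g.2) ((k _).1 m) using 1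
      simp only [cj, coe_mul, coe_inv, coe_pow, conj_pow]; group)
    rw [map_mul, map_inv, map_pow, mul_inv_eq_one] at m'
    rw [m', toAdd_pow, nsmul_eq_mul, ZMod.natCast_zmod_val, mul_comm]
  let χ : H →* ZMod 7 :=
    { toFun := fun g => (e (cj g b₀)).toAdd
      map_one' := by simp [cj, e0]
      map_mul' := fun g h => by rw [← k1]; congr 2; exact Subtype.ext (by simp [cj, mul_assoc]) }
  have k2 : ∀ (g : H) (i : ℕ) (b : B), (g : G) * (b : G) * (g : G)⁻¹ * ((b : G) ^ i)⁻¹ ∈ A ↔ (χ g - i) * (e b).toAdd = 0 := fun g i b => by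
    refine (k (cj g b * (b ^ i)⁻¹)).symm.trans ?_
    rw [map_mul, map_inv, map_pow, ← toAdd_eq_zero, toAdd_mul, toAdd_inv, toAdd_pow, k1, nsmul_eq_mul, sub_mul, sub_eq_add_neg]
    rfl
  refine ⟨χ.toHomUnits, fun g i => ⟨fun f b hb => (k2 g i ⟨b, hb⟩).2 (by rw [← f]; simp), fun b hb n f => ?_⟩⟩
  exact sub_eq_zero.1 ((mul_eq_zero.1 ((k2 g i ⟨b, hb⟩).1 f)).resolve_right fun f => n ((k ⟨b, hb⟩).1 f))

variable {g : G} (h3 : g ∈ 𝐍(A)) (h4 : g ∈ 𝐍(B))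
include h3 h4

theorem ev_ex : ∃ i : ℕ, ¬ 7 ∣ i ∧ ∀ b ∈ B, g * b * g⁻¹ * (b ^ i)⁻¹ ∈ A := by
  obtain ⟨χ, h⟩ := exists_chi h1 h2 c (zpowers_le.2 h3) (zpowers_le.2 h4)
  have e := ZMod.natCast_zmod_val (χ ⟨g, mem_zpowers g⟩ : ZMod 7)
  exact ⟨_, fun d => Units.ne_zero _ (e.symm.trans ((ZMod.natCast_eq_zero_iff _ _).2 d)), (h _ _).1 e.symm⟩

theorem ev_all {b : G} {i : ℕ} (hb : b ∈ B) (hn : b ∉ A) (e : g * b * g⁻¹ * (b ^ i)⁻¹ ∈ A) :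
    ∀ b ∈ B, g * b * g⁻¹ * (b ^ i)⁻¹ ∈ A := by
  obtain ⟨χ, h⟩ := exists_chi h1 h2 c (zpowers_le.2 h3) (zpowers_le.2 h4)
  exact (h ⟨g, mem_zpowers g⟩ i).1 ((h _ i).2 b hb hn e)

theorem ev_uniq {b : G} {i j : ℕ} (hb : b ∈ B) (hn : b ∉ A) (e : g * b * g⁻¹ * (b ^ i)⁻¹ ∈ A)
    (f : g * b * g⁻¹ * (b ^ j)⁻¹ ∈ A) : (i : ZMod 7) = j := by
  obtain ⟨χ, h⟩ := exists_chi h1 h2 c (zpowers_le.2 h3) (zpowers_le.2 h4)
  exact ((h ⟨g, mem_zpowers g⟩ i).2 b hb hn e).symm.trans ((h _ j).2 b hb hn f)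

/-- a 7-element centralises `B/A` -/
theorem triv_fac {n : ℕ} (h7 : g ^ 7 ^ n = 1) {b : G} (hb : b ∈ B) : ⁅g, b⁆ ∈ A := by
  obtain ⟨χ, h⟩ := exists_chi h1 h2 c (zpowers_le.2 h3) (zpowers_le.2 h4)
  have e : χ ⟨g, mem_zpowers g⟩ = 1 := (pow_eq_one_iff_of_coprime (show Nat.Coprime (7 ^ n) 6 from .pow_left n (by norm_num))).1
    ⟨by rw [← map_pow, show (⟨g, mem_zpowers g⟩ : zpowers g) ^ 7 ^ n = 1 from Subtype.ext h7, map_one],
      ZMod.units_pow_card_sub_one_eq_one 7 _⟩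
  simpa [commutatorElement_def] using (h ⟨g, mem_zpowers g⟩ 1).1 (by simp [e]) b hb

end

omit [Finite G] in
/-- commutators are bilinear modulo `Z` -/
theorem bil {S : Subgroup G} (hS : S ≤ 𝐍(Z)) {t x s : G} (ht : t ∈ 𝐍(Z)) (tS : t ∈ 𝐍(S)) (hx : x ∈ S) (hs : s ∈ S) {j m : ℕ}
    (c : ∀ r ∈ S, ⁅r, ⁅x, s⁆⁆ ∈ Z) (h1 : ⁅t * x * t⁻¹ * (x ^ j)⁻¹, t * s * t⁻¹⁆ ∈ Z) (h2 : ⁅x, t * s * t⁻¹ * (s ^ m)⁻¹⁆ ∈ Z) :
    t * ⁅x, s⁆ * t⁻¹ * (⁅x, s⁆ ^ (j * m))⁻¹ ∈ Z := by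
  let π := QuotientGroup.mk' (Z.subgroupOf 𝐍(Z))
  have k : ∀ a : 𝐍(Z), π a = 1 ↔ (a : G) ∈ Z := fun a => QuotientGroup.eq_one_iff a
  have k' : ∀ a b : 𝐍(Z), ⁅(a : G), (b : G)⁆ ∈ Z → Commute (π a) (π b) := fun a b e => by
    rw [← commutatorElement_eq_one_iff_commute, ← map_commutatorElement]; exact (k _).2 e
  let x' : 𝐍(Z) := ⟨x, hS hx⟩
  let s' : 𝐍(Z) := ⟨s, hS hs⟩
  let t' : 𝐍(Z) := ⟨t, ht⟩
  have c' : ∀ r : 𝐍(Z), (r : G) ∈ S → Commute (π r) ⁅π x', π s'⁆ := fun r hr => by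
    rw [← map_commutatorElement]; exact k' _ _ (c r hr)
  have a1 := c' (t' * x' * t'⁻¹ * (x' ^ j)⁻¹) (mul_mem (conj_mem_of_norm tS hx) (inv_mem (pow_mem hx j)))
  have a2 := c' (t' * s' * t'⁻¹ * (s' ^ m)⁻¹) (mul_mem (conj_mem_of_norm tS hs) (inv_mem (pow_mem hs m)))
  have a3 := k' (t' * x' * t'⁻¹ * (x' ^ j)⁻¹) (t' * s' * t'⁻¹) h1
  have a4 := k' x' (t' * s' * t'⁻¹ * (s' ^ m)⁻¹) h2
  have a5 := c' x' hx
  have a6 := c' s' hs
  refine (k (t' * ⁅x', s'⁆ * t'⁻¹ * (⁅x', s'⁆ ^ (j * m))⁻¹)).1 ?_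
  simp only [map_mul, map_inv, map_pow, map_commutatorElement] at a1 a2 a3 a4 ⊢
  generalize π x' = x, π s' = s, π t' = t at *
  have e : ⁅x ^ j, s ^ m⁆ = ⁅x, s⁆ ^ (j * m) := by
    have := PGroup.commutator_pow_right_of_commute a6 m
    rw [PGroup.commutator_pow_left_of_commute (this ▸ a5.pow_right m), this, ← pow_mul, mul_comm]
  rw [mul_inv_eq_one, conjugate_commutatorElement, ← inv_mul_cancel_right (t * x * t⁻¹) (x ^ j),
    commutatorElement_mul_left_eq_conj_mul, a3.commutator_eq, mul_one, ← inv_mul_cancel_right (t * s * t⁻¹) (s ^ m),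
    commutatorElement_mul_right_eq_mul_conj, (a4.pow_left j).commutator_eq, one_mul, e, (a2.pow_right _).eq,
    mul_inv_cancel_right, (a1.pow_right _).eq, mul_inv_cancel_right]

namespace L0
variable {S Z₁ Z₂ Q K : Subgroup G} {z : G} {φ : K →* A7} (h : L0 S Z₁ Z₂ Q K z φ)
include h

omit [Finite G] in
theorem SN1 : S ≤ 𝐍(Z₁) := h.SK.trans (h.KC.trans (cent_le_norm _))

theorem SN2 : S ≤ 𝐍(Z₂) := (le_norm S).trans (h.NS_le.trans inf_le_right)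

theorem syl : Syl 7 S ⊤ := .mk' le_top h.pS (by rw [relIndex_top_right]; exact h.iS)

theorem bd {u : G} (hu : u ∈ S) (n : u ∉ Q) : Nat.card ↥(Q ⊓ cmS Z₂ u) ≤ 343 := by
  have e := idx_le (A := Q ⊓ cmS Z₂ u) (C := Z₂) (D := Z₁) (fun q => ⁅u, q⁆) (fun q hq => hq.2.2) fun x hx y hy m =>
    h.fix u hu n _ (Q.mul_mem (Q.inv_mem hx.1) hy.1) (cm_swap (by
      convert conj_mem_of_norm' (h.SN1 (h.QS hx.1)) m using 1
      simp only [commutatorElement_def]; group))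
  have e1 := card_mul_relIndex h.Z12
  have e2 := card_mul_relIndex (show Z₂ ≤ Q ⊓ cmS Z₂ u from fun b hb => ⟨h.Z2Q hb, le_norm _ hb, cm_swap (cm_of_mem hb (h.SN2 hu))⟩)
  rw [h.cZ₂] at e1 e2
  rw [h.cZ₁] at e1
  omega

end L0

end Cfsg.Lib.M7
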